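import Cfsg.Agent.SLCommutator.Real
import Mathlib.LinearAlgebra.Matrix.SpecialLinearGroup

/-!
From forms to matrices.
-/

set_option autoImplicit false

namespace CfsgLib.SLCommutator

open Polynomial Module CfsgLib.SLClassCount

universe u

variable {F : Type u} [Field F]

/-- A prime power. -/
def PrimePow (s : Multiset F[X]) : Prop :=
  ∀ p ∈ s, ∃ (r : F[X]) (k : ℕ), r.Monic ∧ Irreducible r ∧ r.coeff 0 ≠ 0 ∧ 0 < k ∧ p = r ^ k

lemma PrimePow.good {s : Multiset F[X]} (h : PrimePow s) : Good s := fun p hp => by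
  obtain ⟨r, k, hr, -, h0, -, rfl⟩ := h p hp
  exact ⟨hr.pow k, by rw [coeff_zero_eq_eval_zero, eval_pow, ← coeff_zero_eq_eval_zero]; exact pow_ne_zero k h0⟩

lemma PrimePow.of_le {s t : Multiset F[X]} (ht : PrimePow t) (h : s ≤ t) : PrimePow s := fun p hp =>
  ht p (Multiset.mem_of_le h hp)

lemma PrimePow.natDegree_pos {s : Multiset F[X]} (h : PrimePow s) : ∀ p ∈ s, 1 ≤ p.natDegree := fun p hp => by
  obtain ⟨r, k, hr, hi, -, hk, rfl⟩ := h p hp
  rw [natDegree_pow]
  exact Nat.one_le_iff_ne_zero.2 (mul_ne_zero hk.ne' hi.natDegree_pos.ne')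

/-- Every element is a commutator as soon as every form of its kind is. -/
lemma commutator_of_forms [Fintype F] (n : ℕ)
    (H : ∀ s : Multiset F[X], PrimePow s → (s.map sgn).prod = 1 → (s.map natDegree).sum = n → CommForm s) :
    ∀ g : Matrix.SpecialLinearGroup (Fin n) F, ∃ a b : Matrix.SpecialLinearGroup (Fin n) F,
      g = a * b * a⁻¹ * b⁻¹ := by
  intro g
  classical
  set x : GL (Fin n) F := ((Matrix.isUnit_iff_isUnit_det (A := (g : Matrix (Fin n) (Fin n) F))).2
    (by rw [g.2]; exact isUnit_one)).unit with hx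
  obtain ⟨ι, hι, p, e, hp, hsum, ⟨E⟩⟩ := CfsgLib.GLClassCount.exists_decomp x
  set f := Matrix.toLin' (x : Matrix (Fin n) (Fin n) F) with hf
  let q : Fin (Fintype.card ι) → F[X] := fun i => p ((Fintype.equivFin ι).symm i) ^ e ((Fintype.equivFin ι).symm i)
  let E' : (Module.AEval' f) ≃ₗ[F[X]] ((i : Fin (Fintype.card ι)) → cyc (q i)) :=
    E.trans (LinearEquiv.piCongrLeft' F[X] (fun i => cyc (p i ^ e i)) (Fintype.equivFin ι))
  let L : (Fin n → F) ≃ₗ[F] CycPi q := (Module.AEval'.of f).trans (E'.restrictScalars F)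
  have hL : ∀ v, L (f v) = (X : F[X]) • L v := fun v => by
    show E' (Module.AEval'.of f (f v)) = (X : F[X]) • E' (Module.AEval'.of f v)
    rw [← Module.AEval'.X_smul_of, map_smul]
  set s := (Finset.univ : Finset (Fin (Fintype.card ι))).val.map q with hs
  have hform : HasForm f s := HasForm.mk q L hL
  have hpp : PrimePow s := by
    intro r hr
    obtain ⟨i, -, rfl⟩ := Multiset.mem_map.1 hr
    exact ⟨_, _, (hp _).1, (hp _).2.1, (hp _).2.2.1, (hp _).2.2.2, rfl⟩
  have hdet : (s.map sgn).prod = 1 := by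
    rw [← hform.det hpp.good.monic, hf, LinearMap.det_toLin', hx, IsUnit.unit_spec, g.2]
  have hdeg : (s.map natDegree).sum = n := by
    rw [hs, Multiset.map_map]
    show ∑ i, (q i).natDegree = n
    rw [← hsum]
    refine Fintype.sum_equiv (Fintype.equivFin ι).symm _ _ fun i => ?_
    simp [q, natDegree_pow]
  obtain ⟨T, U, hT, hU, hTU⟩ := H s hpp hdet hdeg _ f hform
  let a : Matrix.SpecialLinearGroup (Fin n) F :=
    ⟨LinearMap.toMatrix' (T : (Fin n → F) →ₗ[F] (Fin n → F)), by rw [LinearMap.det_toMatrix', hT]⟩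
  let b : Matrix.SpecialLinearGroup (Fin n) F :=
    ⟨LinearMap.toMatrix' (U : (Fin n → F) →ₗ[F] (Fin n → F)), by rw [LinearMap.det_toMatrix', hU]⟩
  have e1 : g * (b * a) = a * b := by
    refine Subtype.ext (Matrix.toLin'.injective ?_)
    rw [Matrix.SpecialLinearGroup.coe_mul, Matrix.SpecialLinearGroup.coe_mul,
      Matrix.SpecialLinearGroup.coe_mul, Matrix.toLin'_mul, Matrix.toLin'_mul, Matrix.toLin'_mul,
      Matrix.toLin'_toMatrix', Matrix.toLin'_toMatrix']
    refine LinearMap.ext fun v => ?_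
    have h' := hTU v
    rw [hf, hx, IsUnit.unit_spec] at h'
    exact h'
  exact ⟨a, b, by rw [← e1]; group⟩

end CfsgLib.SLCommutator
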