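import Cfsg.Agent.SLCommutator.Cases
import Cfsg.Agent.SLCommutator.Matrices

/-!
Fields with at least four elements.
-/

set_option autoImplicit false

namespace CfsgLib.SLCommutator

open Polynomial Module CfsgLib.SLClassCount

universe u

variable {F : Type u} [Field F]

lemma eq_replicate_add {α : Type*} [DecidableEq α] {a b : α} (hne : a ≠ b) {s : Multiset α}
    (h : ∀ x ∈ s, x = a ∨ x = b) :
    s = Multiset.replicate (s.count a) a + Multiset.replicate (s.count b) b := by
  refine Multiset.ext.2 fun x => ?_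
  rw [Multiset.count_add, Multiset.count_replicate, Multiset.count_replicate]
  by_cases hx : x ∈ s
  · rcases h x hx with rfl | rfl
    · rw [if_pos rfl, if_neg hne.symm, add_zero]
    · rw [if_neg hne, if_pos rfl, zero_add]
  · rw [Multiset.count_eq_zero.2 hx]
    split_ifs with h1 h2 h2
    · exact absurd (h1.trans h2.symm) hne
    · subst h1; simp [Multiset.count_eq_zero.2 hx]
    · subst h2; simp [Multiset.count_eq_zero.2 hx]
    · rfl

lemma eq_of_not_coprime {p r : F[X]} (hp : p.Monic) (hr : r.Monic) (hpi : Irreducible p) (hri : Irreducible r)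
    {i j : ℕ} (h : ¬ IsCoprime (p ^ i) (r ^ j)) : r = p := by
  by_contra hne
  refine h (IsCoprime.pow ?_)
  exact (hpi.coprime_iff_not_dvd).2 fun hd =>
    hne (eq_of_monic_of_associated hr hp (hpi.associated_of_dvd hri hd).symm)

lemma eq_X_sub_C {p : F[X]} (hp : p.Monic) (hd : p.natDegree = 1) : p = X - C (-p.coeff 0) := by
  conv_lhs => rw [hp.eq_X_add_C hd]
  simp

lemma comm_of_merge [Fintype F] (h4 : 4 ≤ Fintype.card F) {g h : F[X]} {rest : Multiset F[X]}
    (hgh : IsCoprime g h) (hs : Good (g ::ₘ h ::ₘ rest)) (hdeg : ∀ p ∈ rest, 1 ≤ p.natDegree)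
    (hd : 3 ≤ g.natDegree + h.natDegree) (hdet : ((g ::ₘ h ::ₘ rest).map sgn).prod = 1) :
    CommForm (g ::ₘ h ::ₘ rest) := by
  obtain ⟨hg, hg0⟩ := hs g (Multiset.mem_cons_self _ _)
  obtain ⟨hh, hh0⟩ := hs h (Multiset.mem_cons_of_mem (Multiset.mem_cons_self _ _))
  refine CommForm.split hgh (comm_of_big h4 (good_cons (hg.mul hh) ?_ ?_) hdeg ?_ ?_)
  · rw [mul_coeff_zero]; exact mul_ne_zero hg0 hh0
  · exact fun p hp => hs p (Multiset.mem_cons_of_mem (Multiset.mem_cons_of_mem hp))
  · rwa [hg.natDegree_mul hh]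
  · rw [← hdet]
    simp only [Multiset.map_cons, Multiset.prod_cons, sgn_mul hg hh, mul_assoc]

/-- Every form over a field with at least four elements. -/
theorem comm_large [Fintype F] (h4 : 4 ≤ Fintype.card F) {s : Multiset F[X]} (hs : PrimePow s)
    (hdet : (s.map sgn).prod = 1) : CommForm s := by
  classical
  have hgood := hs.good
  have hdeg := hs.natDegree_pos
  rcases Multiset.empty_or_exists_mem s with rfl | ⟨g, hg⟩
  · exact CommForm.zero
  by_cases hbig : ∃ f ∈ s, 3 ≤ f.natDegree
  · obtain ⟨f, hf, hfd⟩ := hbig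
    obtain ⟨rest, rfl⟩ := Multiset.exists_cons_of_mem hf
    exact comm_of_big h4 hgood (fun p hp => hdeg p (Multiset.mem_cons_of_mem hp)) hfd hdet
  simp only [not_exists, not_and, not_le] at hbig
  by_cases htwo : ∃ f ∈ s, f.natDegree = 2
  · obtain ⟨f, hf, hfd⟩ := htwo
    obtain ⟨rest, rfl⟩ := Multiset.exists_cons_of_mem hf
    by_cases hcop : ∃ h ∈ rest, IsCoprime f h
    · obtain ⟨h, hh, hfh⟩ := hcop
      obtain ⟨rest', rfl⟩ := Multiset.exists_cons_of_mem hh
      exact comm_of_merge h4 hfh hgood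
        (fun p hp => hdeg p (Multiset.mem_cons_of_mem (Multiset.mem_cons_of_mem hp)))
        (by have := hdeg h (Multiset.mem_cons_of_mem (Multiset.mem_cons_self _ _)); omega) hdet
    simp only [not_exists, not_and] at hcop
    obtain ⟨p, i, hp, hpi, hp0, hi, rfl⟩ := hs f (Multiset.mem_cons_self _ _)
    have hall : ∀ x ∈ p ^ i ::ₘ rest, ∃ j, 0 < j ∧ x = p ^ j := by
      intro x hx
      rcases Multiset.mem_cons.1 hx with rfl | hx'
      · exact ⟨i, hi, rfl⟩
      obtain ⟨r, j, hr, hri, -, hj, rfl⟩ := hs x hx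
      exact ⟨j, hj, by rw [eq_of_not_coprime hp hr hpi hri (hcop _ hx')]⟩
    rw [natDegree_pow] at hfd
    have hpd : 0 < p.natDegree := hpi.natDegree_pos
    rcases Nat.lt_or_ge p.natDegree 2 with hp1 | hp2
    · -- a repeated eigenvalue
      have hp1' : p.natDegree = 1 := by omega
      rw [hp1', mul_one] at hfd
      subst hfd
      have hμ : -p.coeff 0 ≠ 0 := neg_ne_zero.2 hp0
      have hne : p ^ 2 ≠ p := fun e => by
        have := congrArg natDegree e
        rw [natDegree_pow, hp1'] at this
        omega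
      have hform := eq_replicate_add hne (s := p ^ 2 ::ₘ rest) fun x hx => by
        obtain ⟨j, hj, rfl⟩ := hall x hx
        have := hbig _ hx
        rw [natDegree_pow, hp1', mul_one] at this
        interval_cases j
        · right; rw [pow_one]
        · left; rfl
      rw [hform] at hdet ⊢
      rw [eq_X_sub_C hp hp1'] at hdet ⊢
      refine comm_mixed h4 hμ _ _ ?_
      rw [Multiset.map_add, Multiset.map_replicate, Multiset.map_replicate, Multiset.prod_add,
        Multiset.prod_replicate, Multiset.prod_replicate, sgn_pow_X_sub_C, sgn_X_sub_C] at hdet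
      rw [pow_add, pow_mul]
      exact hdet
    · -- a repeated irreducible quadratic
      obtain rfl : i = 1 := by
        rcases Nat.lt_or_ge i 2 with h | h
        · omega
        · have : 2 * 2 ≤ i * p.natDegree := Nat.mul_le_mul h hp2
          omega
      rw [pow_one] at hall hgood hdet hbig ⊢
      have hp2' : p.natDegree = 2 := by omega
      have hform : p ::ₘ rest = Multiset.replicate (Multiset.card (p ::ₘ rest)) p :=
        Multiset.eq_replicate_card.2 fun x hx => by
          obtain ⟨j, hj, rfl⟩ := hall x hx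
          have := hbig _ hx
          rw [natDegree_pow, hp2'] at this
          obtain rfl : j = 1 := by omega
          rw [pow_one]
      rw [hform] at hdet ⊢
      refine comm_replicate_two h4 hp hp0 hp2' ?_
      rwa [Multiset.map_replicate, Multiset.prod_replicate] at hdet
  -- linear factors
  simp only [not_exists, not_and] at htwo
  have hlin : ∀ x ∈ s, ∃ c : F, c ≠ 0 ∧ x = X - C c := fun x hx => by
    have h1 : x.natDegree = 1 := by
      have := hbig x hx; have := htwo x hx; have := hdeg x hx; omega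
    exact ⟨-x.coeff 0, neg_ne_zero.2 (hgood x hx).2, eq_X_sub_C (hgood x hx).1 h1⟩
  obtain ⟨α, hα, rfl⟩ := hlin g hg
  by_cases hall : ∀ x ∈ s, x = X - C α
  · have hform := Multiset.eq_replicate_card.2 hall
    rw [hform] at hdet ⊢
    refine comm_scalar hα ?_
    rwa [Multiset.map_replicate, Multiset.prod_replicate, sgn_X_sub_C] at hdet
  simp only [not_forall] at hall
  obtain ⟨h, hh, hne'⟩ := hall
  obtain ⟨β, hβ, rfl⟩ := hlin h hh
  have hne : α ≠ β := fun e => hne' (by rw [e])
  by_cases hthree : ∀ x ∈ s, x = X - C α ∨ x = X - C β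
  · have hform := eq_replicate_add (fun e => hne' e.symm) hthree
    rw [hform] at hdet ⊢
    refine comm_two hα hβ hne _ _ ?_
    rwa [Multiset.map_add, Multiset.map_replicate, Multiset.map_replicate, Multiset.prod_add,
      Multiset.prod_replicate, Multiset.prod_replicate, sgn_X_sub_C, sgn_X_sub_C] at hdet
  simp only [not_forall, not_or] at hthree
  obtain ⟨k, hk, hk1, hk2⟩ := hthree
  obtain ⟨γ, hγ, rfl⟩ := hlin k hk
  have h1 : α ≠ γ := fun e => hk1 (by rw [e])
  have h2 : β ≠ γ := fun e => hk2 (by rw [e])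
  obtain ⟨s1, rfl⟩ := Multiset.exists_cons_of_mem hg
  obtain ⟨s2, rfl⟩ := Multiset.exists_cons_of_mem ((Multiset.mem_cons.1 hh).resolve_left hne')
  obtain ⟨s3, rfl⟩ := Multiset.exists_cons_of_mem
    ((Multiset.mem_cons.1 ((Multiset.mem_cons.1 hk).resolve_left hk1)).resolve_left hk2)
  have hc : IsCoprime (X - C α) (X - C β) := isCoprime_X_sub_C_of_isUnit_sub (sub_ne_zero.2 hne).isUnit
  obtain ⟨hm, hm0, hmd⟩ := pair_facts hα hβ
  refine CommForm.split hc (comm_of_merge h4 ?_ (good_cons hm hm0 (hgood.of_le ?_)) ?_ ?_ ?_)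
  · exact IsCoprime.mul_left (isCoprime_X_sub_C_of_isUnit_sub (sub_ne_zero.2 h1).isUnit)
      (isCoprime_X_sub_C_of_isUnit_sub (sub_ne_zero.2 h2).isUnit)
  · exact (Multiset.le_cons_self _ _).trans (Multiset.le_cons_self _ _)
  · exact fun p hp => hdeg p (Multiset.mem_cons_of_mem (Multiset.mem_cons_of_mem (Multiset.mem_cons_of_mem hp)))
  · rw [hmd, natDegree_X_sub_C]
  · rw [← hdet]
    simp only [Multiset.map_cons, Multiset.prod_cons, sgn_pair, sgn_X_sub_C, mul_assoc]

end CfsgLib.SLCommutator
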