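import Cfsg.Agent.SLCommutator.Small
import Cfsg.Agent.SLCommutator.Large
import Mathlib.Algebra.Field.ZMod

/-!
The field with three elements.
-/

set_option autoImplicit false

namespace CfsgLib.SLCommutator

open Polynomial Module CfsgLib.SLClassCount

universe u

variable {F : Type u} [Field F]

/-- `s` has equal forms with determinant `a`. -/
def Sign (s : Multiset F[X]) (a : F) : Prop :=
  ∃ P, RealForm s P P ∧ Good P ∧ (P.map sgn).prod = a ∧ ∃ r ∈ P, Irreducible r

lemma Sign.add {s t : Multiset F[X]} {a b : F} (h : Sign s a) (h' : Sign t b) : Sign (s + t) (a * b) := by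
  obtain ⟨P, hP, hgP, hdP, r, hr, hri⟩ := h
  obtain ⟨Q, hQ, hgQ, hdQ, -⟩ := h'
  exact ⟨P + Q, hP.add hQ, hgP.add hgQ, by rw [Multiset.map_add, Multiset.prod_add, hdP, hdQ],
    r, Multiset.mem_add.2 (Or.inl hr), hri⟩

lemma Sign.split {g h : F[X]} (hgh : IsCoprime g h) {s : Multiset F[X]} {a : F}
    (H : Sign ((g * h) ::ₘ s) a) : Sign (g ::ₘ h ::ₘ s) a := by
  obtain ⟨P, hP, hg, hd, hr⟩ := H
  exact ⟨P, hP.split hgh, hg, hd, hr⟩

lemma Sign.comm [Finite F] {s : Multiset F[X]} (h : Sign s 1) : CommForm s := by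
  obtain ⟨P, hP, hg, hd, r, hr, hri⟩ := h
  exact hP.comm hg hd hr hri

/-- Both a commutator and able to absorb a sign. -/
def Flex (s : Multiset F[X]) : Prop := CommForm s ∧ Sign s (-1)

lemma Flex.split {g h : F[X]} (hgh : IsCoprime g h) {s : Multiset F[X]} (H : Flex ((g * h) ::ₘ s)) :
    Flex (g ::ₘ h ::ₘ s) := ⟨H.1.split hgh, H.2.split hgh⟩

lemma three_eq_zero [Fintype F] (h3 : Fintype.card F = 3) : (3 : F) = 0 := by
  have := FiniteField.cast_card_eq_zero F
  rw [h3] at this
  exact_mod_cast this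

lemma two_eq_neg_one [Fintype F] (h3 : Fintype.card F = 3) : (2 : F) = -1 := by
  linear_combination three_eq_zero h3

lemma pm_of_ne_zero [Fintype F] (h3 : Fintype.card F = 3) {a : F} (ha : a ≠ 0) : a = 1 ∨ a = -1 := by
  have := FiniteField.pow_card_sub_one_eq_one a ha
  rw [h3, show 3 - 1 = 2 from rfl, pow_two] at this
  exact mul_self_eq_one_iff.1 this

lemma one_ne_neg_one [Fintype F] (h3 : Fintype.card F = 3) : (1 : F) ≠ -1 := fun h =>
  one_ne_zero (α := F) (by linear_combination three_eq_zero h3 - h)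

lemma irreducible_plus [Fintype F] (h3 : Fintype.card F = 3) : Irreducible (quad (0 : F) 1) := by
  refine (Monic.irreducible_iff_roots_eq_zero_of_degree_le_three (quad_monic 0 1) ?_ ?_).2 ?_
  · rw [quad_natDegree]
  · rw [quad_natDegree]; norm_num
  · refine Multiset.eq_zero_of_forall_notMem fun r hr => ?_
    rw [mem_roots (quad_monic 0 1).ne_zero, IsRoot] at hr
    simp [quad] at hr
    rcases eq_or_ne r 0 with rfl | h
    · simp at hr
    · rcases pm_of_ne_zero h3 h with rfl | rfl <;>
        exact one_ne_zero (α := F) (by linear_combination three_eq_zero h3 - hr)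

lemma irreducible_minus [Fintype F] (h3 : Fintype.card F = 3) {τ : F} (hτ : τ ≠ 0) :
    Irreducible (quad τ (-1)) := by
  refine (Monic.irreducible_iff_roots_eq_zero_of_degree_le_three (quad_monic τ (-1)) ?_ ?_).2 ?_
  · rw [quad_natDegree]
  · rw [quad_natDegree]; norm_num
  · refine Multiset.eq_zero_of_forall_notMem fun r hr => hτ ?_
    rw [mem_roots (quad_monic τ (-1)).ne_zero, IsRoot] at hr
    simp [quad] at hr
    rcases eq_or_ne r 0 with rfl | h
    · simp at hr
    · rcases pm_of_ne_zero h3 h with rfl | rfl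
      · linear_combination -hr
      · linear_combination hr

section pieces

variable [Fintype F] (h3 : Fintype.card F = 3)
include h3

/-- A member of norm one and degree at least three. -/
lemma flex_plus {f : F[X]} (hf : f.Monic) (hf0 : f.coeff 0 ≠ 0) (hd : 3 ≤ f.natDegree) (hs : sgn f = 1) :
    Flex {f} := by
  have H : ∀ δ : F, δ ≠ 0 → Sign {f} δ := by
    intro δ hδ
    obtain ⟨τ, hτ⟩ := exists_irreducible_quad hδ
    obtain ⟨l, hl, hl'⟩ : ∃ l, f.natDegree = l + 1 + 1 ∧ 1 ≤ l := ⟨f.natDegree - 2, by omega, by omega⟩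
    have H := realForm_chain_quad hf hf0 hl' hl one_ne_zero hδ hτ
      (f' := (X - C 1) ^ l * quad τ δ) (((monic_X_sub_C (1 : F)).pow l).mul (quad_monic τ δ))
      (by rw [((monic_X_sub_C (1 : F)).pow l).natDegree_mul (quad_monic τ δ), natDegree_pow, natDegree_X_sub_C,
        quad_natDegree]; ring)
      (by rw [sgn_mul ((monic_X_sub_C (1 : F)).pow l) (quad_monic τ δ), sgn_pow_X_sub_C, sgn_quad, hs]; ring)
    refine ⟨_, H.split_right (coprime_of_irreducible hτ 1).pow_left,
      good_cons ((monic_X_sub_C (1 : F)).pow l) (coeff_pow_X_sub_C one_ne_zero l) (good_quad hδ), ?_,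
      quad τ δ, Multiset.mem_cons_of_mem (Multiset.mem_singleton_self _), hτ⟩
    simp [sgn_pow_X_sub_C, sgn_quad, -map_one]
  exact ⟨(H 1 one_ne_zero).comm, H (-1) (neg_ne_zero.2 one_ne_zero)⟩

/-- The fixed line. -/
lemma flex_one : Flex ({X - C 1} : Multiset F[X]) := by
  have H : ∀ c : F, c ≠ 0 → Sign {X - C (1 : F)} c := by
    intro c hc
    have h := bridge_leaf (monic_X_sub_C (1 : F)) (by simp) (l := 0) (natDegree_X_sub_C 1) (e := (1 : F)) (c := c)
      one_ne_zero hc (Or.inl rfl)
    rw [sgn_X_sub_C, one_mul] at h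
    refine ⟨_, h, good_cons (monic_X_sub_C c) (by simpa using hc) (good_linear one_ne_zero 0), ?_,
      _, Multiset.mem_cons_self _ _, irreducible_X_sub_C c⟩
    simp [sgn_X_sub_C, sgn_one, -map_one]
  exact ⟨(H 1 one_ne_zero).comm, H (-1) (neg_ne_zero.2 one_ne_zero)⟩

/-- The negated pair of lines. -/
lemma flex_neg_pair : Flex ((X - C (-1)) ::ₘ {X - C (-1)} : Multiset F[X]) := by
  refine ⟨?_, ?_⟩
  · exact comm_scalar (α := (-1 : F)) (neg_ne_zero.2 one_ne_zero) (k := 2) neg_one_sq
  · have hm := monic_X_sub_C (-1 : F)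
    have a := bridge_leaf hm (by simp) (l := 0) (natDegree_X_sub_C _) (e := (1 : F)) (c := (1 : F))
      one_ne_zero one_ne_zero (Or.inl rfl)
    have b := bridge_leaf hm (by simp) (l := 0) (natDegree_X_sub_C _) (e := (1 : F)) (c := (-1 : F))
      one_ne_zero (neg_ne_zero.2 one_ne_zero) (Or.inl rfl)
    rw [sgn_X_sub_C, mul_one] at a
    rw [sgn_X_sub_C, neg_mul_neg, mul_one] at b
    have h := a.trans b
    rw [Multiset.singleton_add] at h
    refine ⟨_, h, good_cons (monic_X_sub_C 1) (by simp) (good_cons hm (by simp)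
      ((good_linear one_ne_zero 0).add (good_linear one_ne_zero 0))), ?_, _, Multiset.mem_cons_self _ _,
      irreducible_X_sub_C 1⟩
    simp [sgn_X_sub_C, sgn_one, -map_one, -map_neg]

/-- Two large members of norm minus one. -/
lemma flex_big_pair {f g : F[X]} (hf : f.Monic) (hf0 : f.coeff 0 ≠ 0) (hg : g.Monic) (hg0 : g.coeff 0 ≠ 0)
    (hfd : 3 ≤ f.natDegree) (hgd : 3 ≤ g.natDegree) (hfs : sgn f = -1) (hgs : sgn g = -1) :
    Flex (f ::ₘ {g}) := by
  have hm : (-1 : F) ≠ 0 := neg_ne_zero.2 one_ne_zero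
  have hne := one_ne_neg_one h3
  have H : ∀ a : F, a ≠ 0 → Sign (f ::ₘ {g}) a := by
    intro a ha
    obtain ⟨k, hk⟩ : ∃ k, f.natDegree = k + 1 + 1 + 1 := ⟨f.natDegree - 3, by omega⟩
    obtain ⟨j, hj⟩ : ∃ j, g.natDegree = j + 1 + 1 + 1 := ⟨g.natDegree - 3, by omega⟩
    obtain ⟨τ, hτ⟩ := exists_irreducible_quad (one_ne_zero (α := F))
    set δ : F := a / (-1 * (-1) ^ j) with hδ'
    have hden : (-1 : F) * (-1) ^ j ≠ 0 := mul_ne_zero hm (pow_ne_zero _ hm)
    have hδ : δ ≠ 0 := div_ne_zero ha hden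
    obtain ⟨τ', hτ'⟩ := exists_irreducible_quad hδ
    have A := bridge_absorber hf hf0 hk (e := (1 : F)) (c := 1) one_ne_zero one_ne_zero one_ne_zero hτ
      (Or.inr (by rw [hfs, mul_one]; exact hne))
    have B := bridge_absorber hg hg0 hj (e := (-1 : F)) (c := -1) hm hm hδ hτ'
      (Or.inr (by rw [hgs, neg_mul_neg, mul_one]; exact hne.symm))
    rw [hfs, mul_one] at A
    rw [hgs, neg_mul_neg, mul_one] at B
    have h := A.trans B
    rw [Multiset.singleton_add] at h
    refine ⟨_, h, good_cons (monic_X_sub_C 1) (by simp) (good_cons (monic_X_sub_C _) (by simp)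
      ((good_cons ((monic_X_sub_C (1 : F)).pow k) (coeff_pow_X_sub_C one_ne_zero k) (good_quad one_ne_zero)).add
        (good_cons ((monic_X_sub_C (-1 : F)).pow j) (coeff_pow_X_sub_C hm j) (good_quad hδ)))),
      ?_, _, Multiset.mem_cons_self _ _, irreducible_X_sub_C 1⟩
    simp only [Multiset.map_cons, Multiset.map_add, Multiset.map_singleton, Multiset.prod_cons, Multiset.prod_add,
      Multiset.prod_singleton, sgn_X_sub_C, sgn_pow_X_sub_C, sgn_quad, one_pow, one_mul, hδ']
    rw [← mul_assoc, mul_div_cancel₀ _ hden]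
  exact ⟨(H 1 one_ne_zero).comm, H (-1) hm⟩

/-- A large member and a negated line. -/
lemma flex_big_line {f : F[X]} (hf : f.Monic) (hf0 : f.coeff 0 ≠ 0) (hfd : 3 ≤ f.natDegree)
    (hfs : sgn f = -1) : Flex (f ::ₘ {X - C (-1)}) := by
  have hm : (-1 : F) ≠ 0 := neg_ne_zero.2 one_ne_zero
  have H : ∀ a : F, a ≠ 0 → Sign (f ::ₘ {X - C (-1)}) a := by
    intro a ha
    obtain ⟨k, hk⟩ : ∃ k, f.natDegree = k + 1 + 1 + 1 := ⟨f.natDegree - 3, by omega⟩
    have hδ : -a ≠ 0 := neg_ne_zero.2 ha
    obtain ⟨τ, hτ⟩ := exists_irreducible_quad hδ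
    have A := bridge_absorber hf hf0 hk (e := (1 : F)) (c := 1) one_ne_zero one_ne_zero hδ hτ
      (Or.inr (by rw [hfs, mul_one]; exact one_ne_neg_one h3))
    have B := bridge_leaf (monic_X_sub_C (-1 : F)) (by simp) (l := 0) (natDegree_X_sub_C _) (e := (1 : F))
      (c := (-1 : F)) one_ne_zero hm (Or.inl rfl)
    rw [hfs, mul_one] at A
    rw [sgn_X_sub_C, neg_mul_neg, mul_one] at B
    have h := A.trans B
    rw [Multiset.singleton_add] at h
    refine ⟨_, h, good_cons (monic_X_sub_C 1) (by simp) (good_cons (monic_X_sub_C _) (by simp)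
      ((good_cons ((monic_X_sub_C (1 : F)).pow k) (coeff_pow_X_sub_C one_ne_zero k) (good_quad hδ)).add
        (good_linear one_ne_zero 0))), ?_, _, Multiset.mem_cons_self _ _, irreducible_X_sub_C 1⟩
    simp [sgn_X_sub_C, sgn_pow_X_sub_C, sgn_quad, sgn_one, -map_one, -map_neg]
  exact ⟨(H 1 one_ne_zero).comm, H (-1) hm⟩

/-- The two quadratics of norm minus one, in both directions. -/
lemma real_minus {τ : F} (hτ : τ ≠ 0) :
    RealForm {quad τ (-1)} {quad (0 : F) 1} {quad (1 : F) (-1)} ∧
      RealForm {quad τ (-1)} {quad (1 : F) (-1)} {quad (0 : F) 1} := by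
  have h := three_eq_zero h3
  have c0 : (quad τ (-1)).coeff 0 = -1 := by simp [quad]
  have c1 : (quad τ (-1)).coeff 1 = -τ := by simp [quad, coeff_X_pow, coeff_one]
  have hf0 : (quad τ (-1)).coeff 0 ≠ 0 := by rw [c0]; exact neg_ne_zero.2 one_ne_zero
  have ht : τ * τ = 1 := by rcases pm_of_ne_zero h3 hτ with rfl | rfl <;> simp
  constructor
  · have H := realForm_two (quad_monic τ (-1)) hf0 (quad_natDegree _ _) τ 1 1 (-τ) (Or.inl one_ne_zero)
      (Or.inr (neg_ne_zero.2 hτ)) (by rw [mul_neg, ht]; intro e; exact one_ne_zero (α := F) (by linear_combination h + e))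
    rw [c0, c1] at H
    rw [show τ + -τ = (0 : F) by ring, show τ * -τ - 1 * 1 = (1 : F) by linear_combination -ht - h] at H
    convert H using 3
    · linear_combination ht
    · ring
  · have H := realForm_two (quad_monic τ (-1)) hf0 (quad_natDegree _ _) 0 τ τ 1 (Or.inl hτ)
      (Or.inr one_ne_zero) (by rw [zero_mul, zero_sub, ht]; exact neg_ne_zero.2 one_ne_zero)
    rw [c0, c1] at H
    rw [zero_add, show (0 : F) * 1 - τ * τ = -1 by linear_combination -ht] at H
    convert H using 3
    · linear_combination -(τ * h)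
    · ring

/-- A large member and a quadratic of norm minus one. -/
lemma flex_big_quad {f : F[X]} (hf : f.Monic) (hf0 : f.coeff 0 ≠ 0) (hfd : 3 ≤ f.natDegree)
    (hfs : sgn f = -1) {τ : F} (hτ : τ ≠ 0) : Flex (f ::ₘ {quad τ (-1)}) := by
  have hm : (-1 : F) ≠ 0 := neg_ne_zero.2 one_ne_zero
  obtain ⟨A, -⟩ := real_minus h3 hτ
  have hp := irreducible_plus h3
  have hq := irreducible_minus h3 (one_ne_zero (α := F))
  constructor
  · obtain ⟨k, hk⟩ : ∃ k, f.natDegree = k + 1 + 1 + 1 := ⟨f.natDegree - 3, by omega⟩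
    have h1 : IsCoprime ((X - C (1 : F)) ^ k) ((X - C (-1)) * quad 0 1) :=
      IsCoprime.mul_right (coprime_linear (one_ne_neg_one h3) k) (coprime_of_irreducible hp 1).pow_left
    have hmon := (monic_X_sub_C (-1 : F)).mul (quad_monic (0 : F) 1)
    have H := realForm_chain_linear_quad hf hf0 hk (e := (1 : F)) (c := (-1 : F)) one_ne_zero hm hm hq
      (f' := (X - C (1 : F)) ^ k * ((X - C (-1)) * quad 0 1)) (((monic_X_sub_C (1 : F)).pow k).mul hmon)
      (by rw [((monic_X_sub_C (1 : F)).pow k).natDegree_mul hmon,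
            (monic_X_sub_C (-1 : F)).natDegree_mul (quad_monic (0 : F) 1), natDegree_pow, natDegree_X_sub_C,
            natDegree_X_sub_C, quad_natDegree]
          ring)
      (by rw [sgn_mul ((monic_X_sub_C (1 : F)).pow k) hmon, sgn_mul (monic_X_sub_C _) (quad_monic _ _),
            sgn_pow_X_sub_C, sgn_X_sub_C, sgn_quad, hfs]
          ring)
    have H' : RealForm {f} ((X - C (1 : F)) ^ k ::ₘ (X - C (-1)) ::ₘ {quad 1 (-1)})
        (((X - C (-1)) * quad 0 1) ::ₘ (X - C (1 : F)) ^ k ::ₘ 0) :=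
      Multiset.cons_swap ((X - C (1 : F)) ^ k) _ 0 ▸ H.split_right h1
    have H'' := H'.split_right (coprime_of_irreducible hp (-1))
    have HH := H''.add A
    rw [Multiset.singleton_add] at HH
    refine (Sign.comm ⟨(X - C (1 : F)) ^ k ::ₘ (X - C (-1)) ::ₘ quad 1 (-1) ::ₘ {quad 0 1}, ?_, ?_, ?_,
      _, Multiset.mem_cons_of_mem (Multiset.mem_cons_self _ _), irreducible_X_sub_C _⟩)
    · convert HH using 1 <;> simp only [← Multiset.singleton_add, add_zero] <;> abel
    · exact good_cons ((monic_X_sub_C (1 : F)).pow k) (coeff_pow_X_sub_C one_ne_zero k)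
        (good_cons (monic_X_sub_C _) (by simp) (good_cons (quad_monic _ _) (by simp [quad]) (good_quad one_ne_zero)))
    · simp [sgn_X_sub_C, sgn_pow_X_sub_C, sgn_quad, -map_one, -map_neg]
  · obtain ⟨l, hl, hl'⟩ : ∃ l, f.natDegree = l + 1 + 1 ∧ 1 ≤ l := ⟨f.natDegree - 2, by omega, by omega⟩
    have H := realForm_chain_quad hf hf0 hl' hl one_ne_zero hm hq
      (f' := (X - C 1) ^ l * quad 0 1) (((monic_X_sub_C (1 : F)).pow l).mul (quad_monic _ _))
      (by rw [((monic_X_sub_C (1 : F)).pow l).natDegree_mul (quad_monic _ _), natDegree_pow, natDegree_X_sub_C,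
        quad_natDegree]; ring)
      (by rw [sgn_mul ((monic_X_sub_C (1 : F)).pow l) (quad_monic _ _), sgn_pow_X_sub_C, sgn_quad, hfs]; ring)
    have HH := (H.split_right (coprime_of_irreducible hp 1).pow_left).add A
    rw [Multiset.singleton_add] at HH
    refine ⟨(X - C (1 : F)) ^ l ::ₘ quad 1 (-1) ::ₘ {quad 0 1}, ?_, ?_, ?_,
      _, Multiset.mem_cons_of_mem (Multiset.mem_cons_self _ _), hq⟩
    · convert HH using 1 <;> simp only [← Multiset.singleton_add, add_zero] <;> abel
    · exact good_cons ((monic_X_sub_C (1 : F)).pow l) (coeff_pow_X_sub_C one_ne_zero l)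
        (good_cons (quad_monic _ _) (by simp [quad]) (good_quad one_ne_zero))
    · simp [sgn_pow_X_sub_C, sgn_quad, -map_one]

omit h3 in
/-- Transporting a witness from the prime field. -/
lemma comm_of_witness [CharP F 3] (B T U : Matrix (Fin 4) (Fin 4) (ZMod 3)) (hT : T.det = 1) (hU : U.det = 1)
    (h : B * U * T = T * U) {s : Multiset F[X]}
    (hB : HasForm (Matrix.toLin' (B.map (ZMod.castHom (dvd_refl 3) F))) s) : CommForm s := by
  set φ : ZMod 3 →+* F := ZMod.castHom (dvd_refl 3) F with hφ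
  have hd : ∀ A : Matrix (Fin 4) (Fin 4) (ZMod 3), A.det = 1 →
      LinearMap.det (Matrix.toLin' (A.map φ)) = 1 := fun A hA => by
    rw [LinearMap.det_toLin', ← φ.mapMatrix_apply, ← RingHom.map_det, hA, map_one]
  have ne : ∀ A : Matrix (Fin 4) (Fin 4) (ZMod 3), A.det = 1 →
      LinearMap.det (Matrix.toLin' (A.map φ)) ≠ 0 := fun A hA => by rw [hd A hA]; exact one_ne_zero
  refine CommForm.of_model _ hB (LinearMap.equivOfDetNeZero _ (ne T hT)) (LinearMap.equivOfDetNeZero _ (ne U hU))
    (hd T hT) (hd U hU) fun x => ?_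
  have e := congrArg (fun A : Matrix (Fin 4) (Fin 4) (ZMod 3) => Matrix.toLin' (A.map φ) x) h
  simp only [Matrix.map_mul, Matrix.toLin'_mul, LinearMap.comp_apply] at e
  exact e

omit h3 in
lemma hasForm_two_blocks (τ δ : F) :
    HasForm (Matrix.toLin' !![0, -δ, 0, 0; 1, τ, 0, 0; 0, 0, 0, -δ; 0, 0, 1, τ])
      (quad τ δ ::ₘ {quad τ δ}) := by
  set B := Matrix.toLin' !![0, -δ, 0, 0; 1, τ, 0, 0; 0, 0, 0, -δ; 0, 0, 1, τ] with hB
  have hBv : ∀ v : Fin 4 → F, B v = ![-(δ * v 1), v 0 + τ * v 1, -(δ * v 3), v 2 + τ * v 3] := fun v => by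
    funext i
    fin_cases i <;> simp [hB, Matrix.mulVec, dotProduct, Fin.sum_univ_four]
  have key : ∀ v : Fin 4 → F, aeval B (quad τ δ) v = 0 := fun v => by
    rw [aeval_quad, hBv v, hBv]
    funext i
    fin_cases i <;> simp <;> ring
  have := hasForm_of_generators (T := B) ![quad τ δ, quad τ δ] ![![1, 0, 0, 0], ![0, 0, 1, 0]]
    (fun i => by fin_cases i <;> exact quad_monic τ δ) (fun i => by fin_cases i <;> exact key _) ?_ ?_
  · simp [Fin.univ_val_map] at this
    exact this
  · intro v _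
    set w : Fin 2 → Fin 4 → F := ![![1, 0, 0, 0], ![0, 0, 1, 0]]
    set S := ⨆ i, LinearMap.range (orbit B (w i))
    have k1 : aeval B (C (v 0) + C (v 1) * X) (w 0) ∈ S :=
      le_iSup (fun i => LinearMap.range (orbit B (w i))) 0 ⟨_, rfl⟩
    have k2 : aeval B (C (v 2) + C (v 3) * X) (w 1) ∈ S :=
      le_iSup (fun i => LinearMap.range (orbit B (w i))) 1 ⟨_, rfl⟩
    have e : v = aeval B (C (v 0) + C (v 1) * X) (w 0) + aeval B (C (v 2) + C (v 3) * X) (w 1) := by
      simp only [map_add, map_mul, aeval_C, aeval_X, LinearMap.add_apply, Module.End.mul_apply,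
        Module.algebraMap_end_apply, hBv]
      funext i
      fin_cases i <;> simp [w]
    exact e ▸ S.add_mem k1 k2
  · rw [finrank_fin_fun, Fin.sum_univ_two]
    simp [quad_natDegree]

/-- Two equal quadratics of norm minus one. -/
lemma flex_quad_pair {τ : F} (hτ : τ ≠ 0) : Flex (quad τ (-1) ::ₘ {quad τ (-1)}) := by
  constructor
  · have hchar : CharP F 3 := by
      have : Fact (Nat.Prime 3) := ⟨by norm_num⟩
      exact charP_of_card_eq_prime h3
    have hB : ∀ t : ZMod 3, ∀ x : F, ZMod.castHom (dvd_refl 3) F t = x →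
        HasForm (Matrix.toLin' ((!![0, 1, 0, 0; 1, t, 0, 0; 0, 0, 0, 1; 0, 0, 1, t] :
          Matrix (Fin 4) (Fin 4) (ZMod 3)).map (ZMod.castHom (dvd_refl 3) F))) (quad x (-1) ::ₘ {quad x (-1)}) := by
      intro t x hx
      convert hasForm_two_blocks x (-1) using 2
      ext i j
      subst hx
      fin_cases i <;> fin_cases j <;> simp [ZMod.cast_one]
    rcases pm_of_ne_zero h3 hτ with rfl | rfl
    · refine comm_of_witness !![0, 1, 0, 0; 1, 1, 0, 0; 0, 0, 0, 1; 0, 0, 1, 1]
        !![0, 2, 0, 1; 0, 2, 1, 0; 0, 1, 0, 0; 1, 0, 0, 0]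
        !![0, 0, 0, 1; 0, 2, 0, 0; 1, 0, 2, 0; 0, 0, 2, 0] (by decide) (by decide) (by decide) (hB 1 1 (map_one _))
    · refine comm_of_witness !![0, 1, 0, 0; 1, 2, 0, 0; 0, 0, 0, 1; 0, 0, 1, 2]
        !![1, 0, 0, 0; 0, 0, 1, 0; 0, 0, 0, 1; 1, 1, 2, 0]
        !![0, 0, 2, 0; 0, 2, 0, 0; 0, 0, 1, 2; 2, 0, 0, 0] (by decide) (by decide) (by decide) (hB 2 (-1) ?_)
      rw [map_ofNat]
      exact two_eq_neg_one h3
  · obtain ⟨A, B⟩ := real_minus h3 hτ
    have h := A.add B
    rw [Multiset.singleton_add] at h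
    refine ⟨quad 0 1 ::ₘ {quad 1 (-1)}, ?_, good_cons (quad_monic _ _) (by simp [quad])
      (good_quad (neg_ne_zero.2 one_ne_zero)), by simp [sgn_quad],
      _, Multiset.mem_cons_self _ _, irreducible_plus h3⟩
    convert h using 1 <;> simp only [← Multiset.singleton_add, add_zero] <;> abel

/-- The quadratic `X ^ 2 + 1`. -/
lemma flex_plus_quad : Flex ({quad (0 : F) 1} : Multiset F[X]) := by
  have h := three_eq_zero h3
  have hm : (-1 : F) ≠ 0 := neg_ne_zero.2 one_ne_zero
  have c0 : (quad (0 : F) 1).coeff 0 = 1 := by simp [quad]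
  have c1 : (quad (0 : F) 1).coeff 1 = 0 := by simp [quad, coeff_X_pow, coeff_one]
  have hf0 : (quad (0 : F) 1).coeff 0 ≠ 0 := by rw [c0]; exact one_ne_zero
  constructor
  · have H := realForm_two (quad_monic 0 1) hf0 (quad_natDegree _ _) 1 1 1 (-1) (Or.inl one_ne_zero) (Or.inr hm)
      (fun e => one_ne_zero (α := F) (by linear_combination e + h))
    rw [c0, c1] at H
    rw [show (1 : F) * -1 - 1 * 1 = 1 by linear_combination -h, show (1 : F) + -1 = 0 by ring,
      show -((1 : F) * 1) + (1 - -1 * 0) = 0 by ring, mul_one] at H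
    exact Sign.comm ⟨_, H, good_quad one_ne_zero, by simp [sgn_quad], _, Multiset.mem_singleton_self _,
      irreducible_plus h3⟩
  · have H := realForm_two (quad_monic 0 1) hf0 (quad_natDegree _ _) (-1) (-1) 1 (-1) (Or.inl one_ne_zero)
      (Or.inr hm) (fun e => one_ne_zero (α := F) (by linear_combination -e + h))
    rw [c0, c1] at H
    rw [show (-1 : F) * -1 - 1 * -1 = -1 by linear_combination h, show (-1 : F) + -1 = 1 by linear_combination -h,
      show -((1 : F) * 1) + (-1 - -1 * 0) = 1 by linear_combination -h, one_mul] at H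
    exact ⟨_, H, good_quad hm, by simp [sgn_quad], _, Multiset.mem_singleton_self _,
      irreducible_minus h3 one_ne_zero⟩

omit h3 in
lemma coeffs_square (e : F) : ((X - C e) ^ 2).coeff 0 = e ^ 2 ∧ ((X - C e) ^ 2).coeff 1 = -(2 * e) := by
  rw [← quad_square]
  constructor <;> simp [quad, coeff_X_pow, coeff_one, coeff_C, -map_ofNat, -map_mul, -map_pow]

/-- A square of a linear polynomial absorbs a sign. -/
lemma sign_square {e : F} (he : e ≠ 0) : Sign ({(X - C e) ^ 2} : Multiset F[X]) (-1) := by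
  have hm : (-1 : F) ≠ 0 := neg_ne_zero.2 one_ne_zero
  obtain ⟨c0, c1⟩ := coeffs_square e
  have he2 : e ^ 2 = 1 := by rcases pm_of_ne_zero h3 he with rfl | rfl <;> simp
  have H := realForm_two ((monic_X_sub_C e).pow 2) (coeff_pow_X_sub_C he 2)
    (by rw [natDegree_pow, natDegree_X_sub_C]) 0 1 1 0 (Or.inl one_ne_zero)
    (Or.inl (by rw [c1]; simp [he, two_eq_neg_one h3])) (by simp)
  rw [c0, c1, he2] at H
  rw [show (0 : F) + 0 = 1 + -1 by ring, show (0 : F) * 0 - 1 * 1 = 1 * -1 by ring,
    show -((1 : F) * 1) + (1 - 0 * -(2 * e)) = 1 + -1 by ring, one_mul, one_mul] at H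
  have hsplit : quad ((1 : F) + -1) (-1) = (X - C 1) * (X - C (-1)) := by
    conv_lhs => rw [← one_mul (-1 : F)]
    rw [← quad_split]
    simp
  rw [hsplit] at H
  have hc : IsCoprime (X - C (1 : F)) (X - C (-1)) :=
    isCoprime_X_sub_C_of_isUnit_sub (sub_ne_zero.2 (one_ne_neg_one h3)).isUnit
  refine ⟨_, (H.split_left hc).split_right hc, good_cons (monic_X_sub_C _) (by simp)
    (good_cons (monic_X_sub_C _) (by simp) (fun _ hp => absurd hp (Multiset.notMem_zero _))), ?_,
    _, Multiset.mem_cons_self _ _, irreducible_X_sub_C 1⟩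
  simp [sgn_X_sub_C, -map_one, -map_neg]

/-- Three equal squares of linear polynomials. -/
lemma comm_square_triple {e : F} (he : e ≠ 0) : CommForm (Multiset.replicate 3 ((X - C e) ^ 2)) := by
  have h := three_eq_zero h3
  have hm : (-1 : F) ≠ 0 := neg_ne_zero.2 one_ne_zero
  obtain ⟨c0, c1⟩ := coeffs_square e
  have he2 : e ^ 2 = 1 := by rcases pm_of_ne_zero h3 he with rfl | rfl <;> simp
  have hf := (monic_X_sub_C e).pow 2
  have hd : ((X - C e) ^ 2).natDegree = 2 := by rw [natDegree_pow, natDegree_X_sub_C]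
  -- any two determinant one traces occur as a step
  have step : ∀ x p y r τ τ' : F, (y ≠ 0 ∨ p ≠ 0) → (x + y * (2 * e) ≠ 0 ∨ r ≠ 0) → x * r - y * p = 1 →
      x + r = τ → -y + (p + r * (2 * e)) = τ' → RealForm {(X - C e) ^ 2} {quad τ 1} {quad τ' 1} := by
    intro x p y r τ τ' hne hne' hdet h1 h2
    have H := realForm_two hf (coeff_pow_X_sub_C he 2) hd x p y r hne
      (by rwa [c1, mul_neg, sub_neg_eq_add]) (by rw [hdet]; exact one_ne_zero)
    rw [c0, c1, he2, hdet, mul_one, mul_one, h1, mul_neg, sub_neg_eq_add, h2] at H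
    exact H
  obtain ⟨a, b, c, ha, hb, hc⟩ : ∃ a b c : Multiset F[X],
      RealForm {(X - C e) ^ 2} a b ∧ RealForm {(X - C e) ^ 2} b c ∧ RealForm {(X - C e) ^ 2} c a ∧
        a = {quad 0 1} ∧ b = {quad (-1) 1} ∧ c = {quad 1 1} := by
    refine ⟨_, _, _, ?_, ?_, ?_, rfl, rfl, rfl⟩ <;> rcases pm_of_ne_zero h3 he with rfl | rfl
    · exact step 0 1 (-1) 0 0 (-1) (Or.inr one_ne_zero) (Or.inl (fun e' => hm (by linear_combination -e' - h)))
        (by ring) (by ring) (by linear_combination h)
    · exact step 0 1 (-1) 0 0 (-1) (Or.inr one_ne_zero) (Or.inl (fun e' => hm (by linear_combination e' - h)))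
        (by ring) (by ring) (by linear_combination h)
    · exact step 1 (-1) 0 1 (-1) 1 (Or.inr hm) (Or.inr one_ne_zero)
        (by ring) (by linear_combination h) (by ring)
    · exact step 0 1 (-1) (-1) (-1) 1 (Or.inr one_ne_zero) (Or.inr hm)
        (by ring) (by ring) (by linear_combination h)
    · exact step (-1) (-1) 0 (-1) 1 0 (Or.inr hm) (Or.inr hm)
        (by ring) (by linear_combination -h) (by linear_combination -h)
    · exact step 0 1 (-1) 1 1 0 (Or.inr one_ne_zero) (Or.inr one_ne_zero)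
        (by ring) (by ring) (by ring)
  obtain ⟨hc, rfl, rfl, rfl⟩ := hc
  have H := (ha.add hb).add hc
  have key : Sign (Multiset.replicate 3 ((X - C e) ^ 2)) 1 := by
    refine ⟨quad 0 1 ::ₘ quad (-1) 1 ::ₘ {quad 1 1}, ?_, good_cons (quad_monic _ _) (by simp [quad])
      (good_cons (quad_monic _ _) (by simp [quad]) (good_quad one_ne_zero)), by simp [sgn_quad],
      _, Multiset.mem_cons_self _ _, irreducible_plus h3⟩
    convert H using 1 <;> simp only [Multiset.replicate_succ, Multiset.replicate_zero, ← Multiset.singleton_add,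
      add_zero] <;> abel
  exact key.comm

/-- Every multiset without squares of linear polynomials has a flexible part. -/
lemma flex_decomp : ∀ t : Multiset F[X], PrimePow t → (∀ e : F, (X - C e) ^ 2 ∉ t) → (t.map sgn).prod = 1 →
    CommForm t ∧ (t = 0 ∨ ∃ u v, t = u + v ∧ Flex u ∧ CommForm v) := by
  classical
  intro t
  induction t using Multiset.strongInductionOn with
  | _ t ih =>
    intro hpp hsq hdet
    rcases Multiset.empty_or_exists_mem t with rfl | ⟨f, hf⟩
    · exact ⟨CommForm.zero, Or.inl rfl⟩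
    have hgood := hpp.good
    have finish : ∀ u v, t = u + v → u ≠ 0 → (u.map sgn).prod = 1 → Flex u →
        CommForm t ∧ (t = 0 ∨ ∃ u v, t = u + v ∧ Flex u ∧ CommForm v) := by
      intro u v huv hu hud hflex
      have hlt : v < t := huv ▸ lt_add_of_pos_left v (pos_iff_ne_zero.2 hu)
      have hv : (v.map sgn).prod = 1 := by
        rw [huv, Multiset.map_add, Multiset.prod_add, hud, one_mul] at hdet
        exact hdet
      obtain ⟨hvc, -⟩ := ih v hlt (hpp.of_le hlt.le) (fun e he => hsq e (Multiset.mem_of_le hlt.le he)) hv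
      exact ⟨huv ▸ CommForm.add (hgood.of_le (huv ▸ Multiset.le_add_right u v)) (hgood.of_le hlt.le) hflex.1 hvc,
        Or.inr ⟨u, v, huv, hflex, hvc⟩⟩
    -- the shapes of small members
    have shape : ∀ x ∈ t, (sgn x = -1 ∧ x = X - C (-1)) ∨ (sgn x = 1 ∧ x = X - C 1) ∨
        (sgn x = 1 ∧ x = quad 0 1) ∨ (∃ τ : F, τ ≠ 0 ∧ sgn x = -1 ∧ x = quad τ (-1)) ∨ 3 ≤ x.natDegree := by
      intro x hx
      obtain ⟨r, k, hr, hri, hr0, hk, rfl⟩ := hpp x hx
      rcases Nat.lt_or_ge (r ^ k).natDegree 3 with h | h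
      swap
      · exact Or.inr (Or.inr (Or.inr (Or.inr h)))
      have hrd := hri.natDegree_pos
      rw [natDegree_pow] at h
      rcases Nat.lt_or_ge r.natDegree 2 with h1 | h2
      · have hr1 : r.natDegree = 1 := by omega
        rw [hr1, mul_one] at h
        obtain rfl : k = 1 := by
          interval_cases k
          · rfl
          · exact absurd (eq_X_sub_C hr hr1 ▸ hx) (hsq _)
        rw [pow_one, eq_X_sub_C hr hr1]
        rcases pm_of_ne_zero h3 (neg_ne_zero.2 hr0) with e | e <;> rw [e, sgn_X_sub_C]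
        · exact Or.inr (Or.inl ⟨rfl, rfl⟩)
        · exact Or.inl ⟨rfl, rfl⟩
      · obtain rfl : k = 1 := by
          have : k * 2 ≤ k * r.natDegree := Nat.mul_le_mul_left k h2
          omega
        rw [pow_one]
        have hr2 : r.natDegree = 2 := by omega
        have e : r = quad (-r.coeff 1) (r.coeff 0) := by
          conv_lhs => rw [hr.as_sum, hr2]
          simp [quad, Finset.sum_range_succ, pow_zero]
          ring
        rcases pm_of_ne_zero h3 hr0 with h0 | h0 <;> rw [h0] at e
        · rcases eq_or_ne (-r.coeff 1) 0 with h1 | h1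
          · rw [h1] at e
            exact Or.inr (Or.inr (Or.inl ⟨by rw [e, sgn_quad], e⟩))
          · exfalso
            generalize -r.coeff 1 = a at e h1
            subst e
            refine hri.not_isRoot_of_natDegree_ne_one (by omega) (x := -a) ?_
            have hh := three_eq_zero h3
            rcases pm_of_ne_zero h3 h1 with rfl | rfl <;> simp [IsRoot, quad] <;> linear_combination hh
        · rcases eq_or_ne (-r.coeff 1) 0 with h1 | h1
          · exfalso
            refine hri.not_isRoot_of_natDegree_ne_one (by omega) (x := 1) ?_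
            rw [e, h1]
            simp [IsRoot, quad]
          · exact Or.inr (Or.inr (Or.inr (Or.inl ⟨_, h1, by rw [e, sgn_quad], e⟩)))
    by_cases hone : ∃ x ∈ t, sgn x = 1
    · obtain ⟨x, hx, hx1⟩ := hone
      obtain ⟨v, hv⟩ := Multiset.exists_cons_of_mem hx
      refine finish {x} v (by rw [hv, Multiset.singleton_add]) (Multiset.singleton_ne_zero x) (by simpa using hx1) ?_
      have hne := one_ne_neg_one h3
      rcases shape x hx with ⟨e, -⟩ | ⟨-, rfl⟩ | ⟨-, rfl⟩ | ⟨τ, -, e, -⟩ | hd
      · exact absurd (hx1.symm.trans e) hne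
      · exact flex_one h3
      · exact flex_plus_quad h3
      · exact absurd (hx1.symm.trans e) hne
      · exact flex_plus h3 (hgood x hx).1 (hgood x hx).2 hd hx1
    simp only [not_exists, not_and] at hone
    have hneg : ∀ x ∈ t, sgn x = -1 := fun x hx =>
      (pm_of_ne_zero h3 (sgn_ne_zero (hgood x hx).2)).resolve_left (hone x hx)
    obtain ⟨t1, ht1⟩ := Multiset.exists_cons_of_mem hf
    obtain ⟨g, hg⟩ : ∃ g, g ∈ t1 := by
      rcases Multiset.empty_or_exists_mem t1 with h0 | h1
      · exfalso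
        rw [ht1, h0] at hdet
        simp [hneg f hf] at hdet
        exact one_ne_neg_one h3 hdet.symm
      · exact h1
    obtain ⟨v, hv⟩ := Multiset.exists_cons_of_mem hg
    have hgt : g ∈ t := ht1 ▸ Multiset.mem_cons_of_mem hg
    refine finish (f ::ₘ {g}) v
      (by rw [ht1, hv, ← Multiset.singleton_add f {g}, add_assoc, Multiset.singleton_add, Multiset.singleton_add])
      (Multiset.cons_ne_zero) (by simp [hneg f hf, hneg g hgt]) ?_
    -- a pair
    have big_any : ∀ x ∈ t, ∀ y ∈ t, 3 ≤ x.natDegree → Flex (x ::ₘ {y}) := by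
      intro x hx y hy hd
      have hm := (hgood x hx)
      rcases shape y hy with ⟨-, rfl⟩ | ⟨e, -⟩ | ⟨e, -⟩ | ⟨τ, hτ, -, rfl⟩ | hd'
      · exact flex_big_line h3 hm.1 hm.2 hd (hneg x hx)
      · exact absurd e (hone y hy)
      · exact absurd e (hone y hy)
      · exact flex_big_quad h3 hm.1 hm.2 hd (hneg x hx) hτ
      · exact flex_big_pair h3 hm.1 hm.2 (hgood y hy).1 (hgood y hy).2 hd hd' (hneg x hx) (hneg y hy)
    have swap : ∀ {x y : F[X]}, Flex (x ::ₘ {y}) → Flex (y ::ₘ {x}) := fun {x y} h => by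
      rwa [show (y ::ₘ {x} : Multiset F[X]) = x ::ₘ {y} from Multiset.cons_swap y x 0]
    have merged : ∀ x ∈ t, ∀ y ∈ t, IsCoprime x y → 3 ≤ x.natDegree + y.natDegree → Flex (x ::ₘ {y}) := by
      intro x hx y hy hc hd
      obtain ⟨hxm, hx0⟩ := hgood x hx
      obtain ⟨hym, hy0⟩ := hgood y hy
      refine Flex.split hc (flex_plus h3 (hxm.mul hym) (by rw [mul_coeff_zero]; exact mul_ne_zero hx0 hy0)
        (by rwa [hxm.natDegree_mul hym]) ?_)
      rw [sgn_mul hxm hym, hneg x hx, hneg y hy, neg_mul_neg, one_mul]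
    rcases shape f hf with ⟨-, rfl⟩ | ⟨e, -⟩ | ⟨e, -⟩ | ⟨τ, hτ, -, rfl⟩ | hd
    · rcases shape g hgt with ⟨-, rfl⟩ | ⟨e, -⟩ | ⟨e, -⟩ | ⟨τ', hτ', -, rfl⟩ | hd'
      · exact flex_neg_pair h3
      · exact absurd e (hone g hgt)
      · exact absurd e (hone g hgt)
      · exact merged _ hf _ hgt (coprime_of_irreducible (irreducible_minus h3 hτ') (-1))
          (by rw [natDegree_X_sub_C, quad_natDegree])
      · exact swap (big_any g hgt _ hf hd')
    · exact absurd e (hone f hf)
    · exact absurd e (hone f hf)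
    · rcases shape g hgt with ⟨-, rfl⟩ | ⟨e, -⟩ | ⟨e, -⟩ | ⟨τ', hτ', -, rfl⟩ | hd'
      · exact merged _ hf _ hgt (coprime_of_irreducible (irreducible_minus h3 hτ) (-1)).symm
          (by rw [natDegree_X_sub_C, quad_natDegree])
      · exact absurd e (hone g hgt)
      · exact absurd e (hone g hgt)
      · rcases eq_or_ne τ τ' with rfl | hne
        · exact flex_quad_pair h3 hτ
        · refine merged _ hf _ hgt ?_ (by rw [quad_natDegree, quad_natDegree]; norm_num)
          refine (irreducible_minus h3 hτ).coprime_iff_not_dvd.2 fun hd => hne ?_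
          have e := eq_of_monic_of_associated (quad_monic τ (-1)) (quad_monic τ' (-1))
            ((irreducible_minus h3 hτ).associated_of_dvd (irreducible_minus h3 hτ') hd)
          have := congrArg (fun p : F[X] => p.coeff 1) e
          simpa [quad, coeff_X_pow, coeff_one] using this
      · exact swap (big_any g hgt _ hf hd')
    · exact big_any f hf g hgt hd

/-- Every form over three elements. -/
theorem comm_three_elements {s : Multiset F[X]} (hs : PrimePow s) (hdet : (s.map sgn).prod = 1)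
    (hn : 3 ≤ (s.map natDegree).sum) : CommForm s := by
  classical
  set J := (X - C (1 : F)) ^ 2 with hJ
  set K := (X - C (-1 : F)) ^ 2 with hK
  have hm : (-1 : F) ≠ 0 := neg_ne_zero.2 one_ne_zero
  have gJ := good_replicate ((monic_X_sub_C (1 : F)).pow 2) (coeff_pow_X_sub_C one_ne_zero 2)
  have gK := good_replicate ((monic_X_sub_C (-1 : F)).pow 2) (coeff_pow_X_sub_C hm 2)
  have hcop : IsCoprime J K := by
    refine IsCoprime.pow ?_
    exact isCoprime_X_sub_C_of_isUnit_sub (sub_ne_zero.2 (one_ne_neg_one h3)).isUnit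
  have hJK : J ≠ K := fun e => by
    have hc := hcop
    rw [← e] at hc
    have hu : IsUnit J := isCoprime_self.1 hc
    have := natDegree_eq_zero_of_isUnit hu
    rw [hJ, natDegree_pow, natDegree_X_sub_C] at this
    omega
  have pair : ∀ {e e' : F}, e ≠ 0 → e' ≠ 0 → CommForm ({(X - C e) ^ 2} + {(X - C e') ^ 2}) := fun he he' => by
    have h := (sign_square h3 he).add (sign_square h3 he')
    rw [neg_mul_neg, one_mul] at h
    exact h.comm
  have many : ∀ {e : F}, e ≠ 0 → ∀ j, j ≠ 1 → CommForm (Multiset.replicate j ((X - C e) ^ 2)) := by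
    intro e he j
    induction j using Nat.strong_induction_on with
    | _ j ih =>
      intro hj
      have g := fun i => good_replicate ((monic_X_sub_C e).pow 2) (coeff_pow_X_sub_C he 2) i
      have h2 : CommForm (Multiset.replicate 2 ((X - C e) ^ 2)) := pair he he
      match j, hj with
      | 0, _ => exact CommForm.zero
      | 2, _ => exact h2
      | 3, _ => exact comm_square_triple h3 he
      | k + 4, _ =>
        rw [show k + 4 = 2 + (k + 2) by omega, Multiset.replicate_add]
        exact CommForm.add (g 2) (g (k + 2)) h2 (ih (k + 2) (by omega) (by omega))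
  set t := s.filter (fun x => x ≠ J ∧ x ≠ K) with ht
  have htle : t ≤ s := Multiset.filter_le _ _
  have hsplit : s = Multiset.replicate (s.count J) J + Multiset.replicate (s.count K) K + t := by
    refine Multiset.ext.2 fun x => ?_
    rw [Multiset.count_add, Multiset.count_add, Multiset.count_replicate, Multiset.count_replicate, ht,
      Multiset.count_filter]
    by_cases h1 : x = J
    · subst h1; simp [hJK.symm]
    · by_cases h2 : x = K
      · subst h2; simp [hJK]
      · simp [h1, h2, Ne.symm h1, Ne.symm h2]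
  have htsq : ∀ e : F, (X - C e) ^ 2 ∉ t := fun e he => by
    obtain ⟨hes, h1, h2⟩ := Multiset.mem_filter.1 he
    have he0 : e ≠ 0 := fun h0 => (hs.good _ hes).2 (by rw [h0]; simp [pow_two])
    rcases pm_of_ne_zero h3 he0 with rfl | rfl
    · exact h1 rfl
    · exact h2 rfl
  have hsJ : sgn J = 1 := by rw [hJ, sgn_pow_X_sub_C, one_pow]
  have hsK : sgn K = 1 := by rw [hK, sgn_pow_X_sub_C, neg_one_sq]
  have htdet : (t.map sgn).prod = 1 := by
    rw [hsplit, Multiset.map_add, Multiset.map_add, Multiset.map_replicate, Multiset.map_replicate,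
      Multiset.prod_add, Multiset.prod_add, Multiset.prod_replicate, Multiset.prod_replicate, hsJ, hsK,
      one_pow, one_pow, one_mul, one_mul] at hdet
    exact hdet
  obtain ⟨htc, htf⟩ := flex_decomp h3 t (hs.of_le htle) htsq htdet
  have gt := (hs.of_le htle).good
  rw [hsplit]
  set j := s.count J
  set k := s.count K
  -- one square left over
  have single : ∀ {e e' : F}, e ≠ 0 → e' ≠ 0 → ∀ i, i ≠ 1 →
      IsCoprime ((X - C e) ^ 2) ((X - C e') ^ 2) →
      (2 ≤ i ∨ t ≠ 0) →
      CommForm ({(X - C e) ^ 2} + Multiset.replicate i ((X - C e') ^ 2) + t) := by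
    intro e e' he he' i hi hcop hor
    have ge := good_singleton ((monic_X_sub_C e).pow 2) (coeff_pow_X_sub_C he 2)
    have ge' := fun i => good_replicate ((monic_X_sub_C e').pow 2) (coeff_pow_X_sub_C he' 2) i
    rcases htf with h0 | ⟨u, v, huv, hu, hv⟩
    · rw [h0, add_zero]
      obtain ⟨i', rfl⟩ : ∃ i', i = i' + 2 := ⟨i - 2, by rcases hor with h | h <;> [omega; exact absurd h0 h]⟩
      have hfl : Flex ((X - C e) ^ 2 ::ₘ {(X - C e') ^ 2}) := by
        refine Flex.split hcop (flex_plus h3 (((monic_X_sub_C e).pow 2).mul ((monic_X_sub_C e').pow 2)) ?_ ?_ ?_)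
        · rw [mul_coeff_zero]; exact mul_ne_zero (coeff_pow_X_sub_C he 2) (coeff_pow_X_sub_C he' 2)
        · rw [((monic_X_sub_C e).pow 2).natDegree_mul ((monic_X_sub_C e').pow 2), natDegree_pow, natDegree_pow,
            natDegree_X_sub_C, natDegree_X_sub_C]
          norm_num
        · rw [sgn_mul ((monic_X_sub_C e).pow 2) ((monic_X_sub_C e').pow 2), sgn_pow_X_sub_C, sgn_pow_X_sub_C]
          rcases pm_of_ne_zero h3 he with rfl | rfl <;> rcases pm_of_ne_zero h3 he' with rfl | rfl <;> simp
      have ge2 : Good ((X - C e) ^ 2 ::ₘ {(X - C e') ^ 2}) :=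
        good_cons ((monic_X_sub_C e).pow 2) (coeff_pow_X_sub_C he 2)
          (good_singleton ((monic_X_sub_C e').pow 2) (coeff_pow_X_sub_C he' 2))
      rw [Multiset.replicate_succ, ← Multiset.singleton_add _ (Multiset.replicate (i' + 1) _), ← add_assoc,
        Multiset.singleton_add ((X - C e) ^ 2)]
      rcases Nat.eq_zero_or_pos i' with rfl | hi'
      · have := hfl.2.add (sign_square h3 he')
        rw [neg_mul_neg, one_mul] at this
        exact this.comm
      · exact CommForm.add ge2 (ge' _) hfl.1 (many he' _ (by omega))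
    · have hs1 := ((sign_square h3 he).add hu.2)
      rw [neg_mul_neg, one_mul] at hs1
      have gu : Good u := gt.of_le (huv ▸ Multiset.le_add_right u v)
      have gv : Good v := gt.of_le (huv ▸ Multiset.le_add_left v u)
      rw [huv, add_add_add_comm]
      exact CommForm.add (ge.add gu) ((ge' i).add gv) hs1.comm (CommForm.add (ge' i) gv (many he' i hi) hv)
  have hor : ∀ i, j + k = 1 + i → i ≠ 1 → 2 ≤ i ∨ t ≠ 0 := by
    intro i hi hi1
    refine (Nat.lt_or_ge i 2).symm.imp id fun h h0 => ?_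
    have hsum : (s.map natDegree).sum = j * 2 + k * 2 := by
      refine (congrArg (fun s : Multiset F[X] => (s.map natDegree).sum) hsplit).trans ?_
      rw [h0, add_zero, Multiset.map_add, Multiset.map_replicate, Multiset.map_replicate,
        Multiset.sum_add, Multiset.sum_replicate, Multiset.sum_replicate, hJ, hK, natDegree_pow, natDegree_pow,
        natDegree_X_sub_C, natDegree_X_sub_C, smul_eq_mul, smul_eq_mul, mul_one]
    omega
  by_cases hj : j = 1
  · by_cases hk : k = 1
    · rw [hj, hk, Multiset.replicate_one, Multiset.replicate_one]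
      exact CommForm.add (Good.add (good_singleton ((monic_X_sub_C (1 : F)).pow 2) (coeff_pow_X_sub_C one_ne_zero 2))
        (good_singleton ((monic_X_sub_C (-1 : F)).pow 2) (coeff_pow_X_sub_C hm 2))) gt (pair one_ne_zero hm) htc
    · rw [hj, Multiset.replicate_one]
      exact single one_ne_zero hm k hk hcop (hor k (by omega) hk)
  · by_cases hk : k = 1
    · rw [hk, Multiset.replicate_one, add_comm (Multiset.replicate j J)]
      exact single hm one_ne_zero j hj hcop.symm (hor j (by omega) hj)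
    · exact CommForm.add ((gJ j).add (gK k)) gt
        (CommForm.add (gJ j) (gK k) (many one_ne_zero j hj) (many hm k hk)) htc

end pieces

end CfsgLib.SLCommutator
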