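import Cfsg.Agent.SLCommutator.Chains
import Mathlib.RingTheory.RootsOfUnity.PrimitiveRoots

/-!
The remaining multisets over a field with at least four elements.
-/

set_option autoImplicit false

namespace CfsgLib.SLCommutator

open Polynomial Module CfsgLib.SLClassCount

universe u

variable {F : Type u} [Field F]

lemma good_replicate {p : F[X]} (hp : p.Monic) (h0 : p.coeff 0 ≠ 0) (k : ℕ) :
    Good (Multiset.replicate k p) := fun _ hr => Multiset.eq_of_mem_replicate hr ▸ ⟨hp, h0⟩

lemma comm_multiples {s : Multiset F[X]} (hs : Good s) (h : CommForm s) : ∀ m : ℕ, CommForm (m • s) := by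
  intro m
  induction m with
  | zero => rw [zero_smul]; exact CommForm.zero
  | succ m ih =>
    rw [succ_nsmul]
    refine ih.add ?_ hs h
    intro p hp
    exact hs p (Multiset.mem_of_mem_nsmul hp)

lemma range_map_const (m : ℕ) (p : F[X]) : (Multiset.range m).map (fun _ => p) = Multiset.replicate m p := by
  rw [Multiset.map_const', Multiset.card_range]

lemma orderOf_pos_of_ne_zero [Fintype F] {a : F} (ha : a ≠ 0) : 0 < orderOf a := by
  have h2 : a ^ (Fintype.card F - 1) = 1 := FiniteField.pow_card_sub_one_eq_one a ha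
  have h3 := Fintype.one_lt_card (α := F)
  exact orderOf_pos_iff.2 (isOfFinOrder_iff_pow_eq_one.2 ⟨_, by omega, h2⟩)

section finite

variable [Fintype F]

/-- Repeated blocks of degree two. -/
lemma comm_replicate_two (h4 : 4 ≤ Fintype.card F) {f : F[X]} (hf : f.Monic) (hf0 : f.coeff 0 ≠ 0)
    (hd : f.natDegree = 2) {k : ℕ} (hk : sgn f ^ k = 1) : CommForm (Multiset.replicate k f) := by
  classical
  set D := sgn f with hD
  have hD0 : D ≠ 0 := sgn_ne_zero hf0
  obtain ⟨m, rfl⟩ := orderOf_dvd_of_pow_eq_one hk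
  rw [mul_comm, ← Multiset.nsmul_replicate]
  refine comm_multiples (good_replicate hf hf0 _) ?_ m
  have ho := orderOf_pos_of_ne_zero hD0
  obtain ⟨j, hj⟩ : ∃ j, orderOf D = j + 1 := ⟨orderOf D - 1, by omega⟩
  rw [hj, ← range_map_const]
  have hpow : D ^ (j + 1) = 1 := hj ▸ pow_orderOf_eq_one D
  rcases Nat.lt_or_ge j 2 with h | h
  · interval_cases j
    · -- one block
      obtain ⟨t, ht, ht1, ht2⟩ := exists_avoid_two h4 (1 : F) (-1)
      rw [zero_add, pow_one] at hpow
      have hts : t⁻¹ ≠ t := fun e => by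
        have : t * t = 1 := by nth_rw 1 [← e]; exact inv_mul_cancel₀ ht
        rcases mul_self_eq_one_iff.1 this with h' | h' <;> contradiction
      refine comm_chain (fun _ => f) (fun _ => t⁻¹) (fun _ => t) 0 (fun _ _ => ⟨hf, hf0, by omega⟩)
        (fun _ _ => inv_ne_zero ht) ht (fun _ _ => by rw [← hD, hpow, one_mul])
        (fun _ _ => Or.inr ⟨hts, hts⟩) rfl ?_
      simp [hd, ht]
    · -- two blocks
      have hD1 : D ≠ 1 := fun e => by rw [e, orderOf_one] at hj; omega
      have hDm : D = -1 := by
        rcases mul_self_eq_one_iff.1 ((pow_two D).symm.trans hpow) with h' | h'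
        · exact absurd h' hD1
        · exact h'
      obtain ⟨t, ht, ht1, ht2⟩ := exists_avoid_two h4 (1 : F) (-1)
      let e : ℕ → F := fun i => if i = 0 then t else -t⁻¹
      have he1 : -t⁻¹ ≠ 1 := fun h' => ht2 (by rw [neg_eq_iff_eq_neg] at h'; exact inv_eq_iff_eq_inv.1 h' |>.trans (by simp))
      have he2 : -t⁻¹ ≠ -1 := fun h' => ht1 (inv_eq_one.1 (neg_injective h'))
      refine comm_chain (fun _ => f) e (fun i => D ^ i) 1 (fun _ _ => ⟨hf, hf0, by omega⟩)
        (fun i _ => by simp only [e]; split_ifs <;> simp [ht]) (by simp)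
        (fun i _ => by rw [pow_succ, mul_comm]) (fun i hi => Or.inr ?_) (by rw [hpow, pow_zero]) ?_
      · interval_cases i <;> simp [e, hDm, ht1, ht2, he1, he2]
      · simp [Finset.prod_range_succ, hd, e, hDm, ht]
  · -- at least three blocks
    have hD1 : D ≠ 1 := fun e => by rw [e, orderOf_one] at hj; omega
    have hD2 : D ^ 2 ≠ 1 := fun e => by
      have := Nat.le_of_dvd (by norm_num) (orderOf_dvd_of_pow_eq_one e)
      omega
    refine comm_chain (fun _ => f) (fun i => D ^ i * D⁻¹) (fun i => D ^ i) j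
      (fun _ _ => ⟨hf, hf0, by omega⟩) (fun i _ => mul_ne_zero (pow_ne_zero _ hD0) (inv_ne_zero hD0)) (by simp)
      (fun i _ => by rw [pow_succ, mul_comm]) (fun i _ => Or.inr ⟨?_, ?_⟩) (by rw [hpow, pow_zero]) ?_
    · intro e
      exact hD1 (inv_eq_one.1 ((mul_eq_left₀ (pow_ne_zero i hD0)).1 e))
    · intro e
      rw [pow_succ] at e
      have h' := mul_left_cancel₀ (pow_ne_zero i hD0) e
      exact hD2 (by rw [pow_two]; nth_rw 1 [← h']; exact inv_mul_cancel₀ hD0)
    · simp only [hd, show (2 : ℕ) - 1 = 1 from rfl, pow_one]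
      rw [Finset.prod_mul_distrib, Finset.prod_mul_distrib, Finset.prod_const, Finset.card_range,
        inv_pow, hpow, inv_one, mul_one, Finset.prod_pow_eq_pow_sum, ← pow_add, ← mul_two,
        Finset.sum_range_id_mul_two, Nat.add_sub_cancel, pow_mul, hpow, one_pow]

/-- Scalar blocks. -/
lemma comm_scalar {α : F} (hα : α ≠ 0) {k : ℕ} (hk : α ^ k = 1) :
    CommForm (Multiset.replicate k (X - C α)) := by
  classical
  obtain ⟨m, rfl⟩ := orderOf_dvd_of_pow_eq_one hk
  rw [mul_comm, ← Multiset.nsmul_replicate]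
  refine comm_multiples (good_replicate (monic_X_sub_C α) (by simpa using hα) _) ?_ m
  set o := orderOf α with ho'
  have ho : 0 < o := orderOf_pos_of_ne_zero hα
  -- a separable polynomial of norm one
  set a : F := -(-1) ^ o with ha'
  have ha : a ≠ 0 := neg_ne_zero.2 (pow_ne_zero _ (neg_ne_zero.2 one_ne_zero))
  set h : F[X] := X ^ o - C a with hh
  have hm : h.Monic := monic_X_pow_sub_C a ho.ne'
  have hdeg : h.natDegree = o := natDegree_X_pow_sub_C
  have hoF : (o : F) ≠ 0 := by
    obtain ⟨p, hp⟩ := CharP.exists F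
    have hp' := CharP.char_is_prime F p
    intro h0
    have hdvd : p ∣ o := (CharP.cast_eq_zero_iff F p o).1 h0
    have h1 : o ∣ Fintype.card F - 1 := orderOf_dvd_of_pow_eq_one (FiniteField.pow_card_sub_one_eq_one α hα)
    obtain ⟨n, -, hn⟩ := FiniteField.card F p
    have h2 : p ∣ Fintype.card F := hn ▸ dvd_pow_self p n.pos.ne'
    have h3 := Fintype.one_lt_card (α := F)
    have h4 := Nat.dvd_sub h2 (hdvd.trans h1)
    rw [Nat.sub_sub_self (by omega)] at h4
    exact hp'.one_lt.not_ge (Nat.le_of_dvd one_pos h4)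
  have hsep : h.Separable := separable_X_pow_sub_C a hoF ha
  have hsgn : sgn h = 1 := by
    rw [sgn, sgnConst, hdeg, hh, coeff_sub, coeff_X_pow, coeff_C_zero, if_neg ho.ne, zero_sub, ha', neg_neg,
      ← mul_pow, neg_mul_neg, one_mul, one_pow]
  have hnu : ¬ IsUnit h := fun hu => by
    have := natDegree_eq_zero_of_isUnit hu
    omega
  obtain ⟨r, hr, hirr, g, hg⟩ := exists_monic_irreducible_factor h hnu
  have hgm : g.Monic := hr.of_mul_monic_left (hg ▸ hm)
  have hcop : IsCoprime r g := (hg ▸ hsep).isCoprime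
  have : Module.Finite F (cyc h) := hm.finite_quotient
  have hne : LinearMap.det (xMap h) ≠ 0 := by rw [det_xMap hm, show sgnConst h = sgn h from rfl, hsgn]; exact one_ne_zero
  set T := LinearMap.equivOfDetNeZero _ hne with hT
  set B : cyc h →ₗ[F] cyc h := α • LinearMap.id with hB
  obtain ⟨v, hv, hvs⟩ : ∃ v : cyc h, aeval (xMap h) h v = 0 ∧ Function.Surjective (orbit (xMap h) v) := by
    have key : ∀ p : F[X], aeval (xMap h) p (Submodule.Quotient.mk 1 : cyc h) = Submodule.Quotient.mk p := by
      intro p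
      induction p using Polynomial.induction_on' with
      | add a c ha hc => rw [map_add, LinearMap.add_apply, ha, hc]; rfl
      | monomial n c =>
        rw [← C_mul_X_pow_eq_monomial, map_mul, aeval_C, map_pow, aeval_X, Module.End.mul_apply,
          Module.algebraMap_end_apply]
        have : ∀ n : ℕ, (xMap h ^ n) (Submodule.Quotient.mk 1 : cyc h) = Submodule.Quotient.mk (X ^ n) := by
          intro n
          induction n with
          | zero => simp
          | succ n ih =>
            rw [pow_succ', Module.End.mul_apply, ih, pow_succ']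
            rfl
        rw [this, ← Submodule.Quotient.mk_smul, smul_eq_C_mul]
    refine ⟨Submodule.Quotient.mk 1, ?_, fun y => ?_⟩
    · rw [key]; exact (Submodule.Quotient.mk_eq_zero _).2 (Submodule.mem_span_singleton_self h)
    · obtain ⟨p, rfl⟩ := Submodule.Quotient.mk_surjective _ y
      exact ⟨p, key p⟩
  have hBform : HasForm B (Multiset.replicate o (X - C α)) := by
    let b := Module.finBasisOfFinrankEq F (cyc h) (finrank_cyc.trans hdeg)
    have := hasForm_of_generators (T := B) (fun _ : Fin o => X - C α) (fun i => b i)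
      (fun _ => monic_X_sub_C α) (fun i => by simp [hB, Module.algebraMap_end_apply]) ?_ ?_
    · simpa [Fin.univ_val_map] using this
    · rw [← b.span_eq, Submodule.span_le]
      rintro _ ⟨i, rfl⟩
      exact le_iSup (fun i => LinearMap.range (orbit B (b i))) i ⟨1, by simp⟩
    · rw [finrank_cyc, hdeg]; simp
  have hform : HasForm (xMap h) {h} := hasForm_single (LinearEquiv.refl F _) fun _ => rfl
  have hpowB : ∀ n : ℕ, (α • xMap h) ^ n = α ^ n • (xMap h) ^ n := fun n => smul_pow α (xMap h) n
  have hBT : HasForm (α • xMap h) {h} := by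
    refine hasForm_of_cyclic hm (finrank_cyc) (v := v) ?_ ?_
    · have hev : ∀ M : Module.End F (cyc h), aeval M h = M ^ o - algebraMap F _ a := fun M => by
        refine (congrArg (aeval M) hh).trans ?_
        rw [map_sub, map_pow, aeval_X, aeval_C]
      have : aeval (α • xMap h) h = aeval (xMap h) h := by
        rw [hev, hev, hpowB, ho', pow_orderOf_eq_one, one_smul]
      rw [this, hv]
    · intro y
      obtain ⟨p, rfl⟩ := hvs y
      refine ⟨p.comp (C α⁻¹ * X), ?_⟩
      rw [orbit_apply, orbit_apply, aeval_comp, map_mul, aeval_C, aeval_X, Algebra.algebraMap_eq_smul_one,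
        smul_mul_assoc, one_mul, smul_smul, inv_mul_cancel₀ hα, one_smul]
  have hT' : (T : cyc h →ₗ[F] cyc h) = xMap h := rfl
  have H : RealForm (Multiset.replicate o (X - C α)) {h} {h} := by
    refine RealForm.of_model B hBform T (by rw [hT']; exact hform) ?_
    rw [hT', hB, LinearMap.smul_comp, LinearMap.id_comp]
    exact hBT
  have hP : ({h} : Multiset F[X]) = (r * g) ::ₘ 0 := by rw [← hg]; rfl
  rw [hP] at H
  refine RealForm.comm ((H.split_left hcop).split_right hcop) ?_ ?_ (Multiset.mem_cons_self r _) hirr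
  · have h00 : r.coeff 0 * g.coeff 0 ≠ 0 := by
      rw [← mul_coeff_zero, ← hg, hh, coeff_sub, coeff_X_pow, coeff_C_zero, if_neg ho.ne, zero_sub]
      exact neg_ne_zero.2 ha
    exact good_cons hr (left_ne_zero_of_mul h00) (good_singleton hgm (right_ne_zero_of_mul h00))
  · rw [Multiset.map_cons, Multiset.map_cons, Multiset.map_zero, Multiset.prod_cons, Multiset.prod_cons,
      Multiset.prod_zero, mul_one, ← sgn_mul hr hgm, ← hg, hsgn]

end finite

lemma range_map_ite (j l : ℕ) (p r : F[X]) :
    (Multiset.range (j + l)).map (fun i => if i < j then p else r) =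
      Multiset.replicate j p + Multiset.replicate l r := by
  rw [Multiset.range_add, Multiset.map_add, Multiset.map_map]
  congr 1
  · rw [← range_map_const j p]
    exact Multiset.map_congr rfl fun i hi => if_pos (Multiset.mem_range.1 hi)
  · rw [← range_map_const l r]
    exact Multiset.map_congr rfl fun i _ => if_neg (by simp)

/-- Squares and simple factors of one eigenvalue, of total weight its order. -/
lemma comm_mixed_piece [Fintype F] {μ : F} (hμ : μ ≠ 0) {j l : ℕ} (hj : 1 ≤ j) (hl : 1 ≤ l)
    (ho : orderOf μ = 2 * j + l) :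
    CommForm (Multiset.replicate j ((X - C μ) ^ 2) + Multiset.replicate l (X - C μ)) := by
  classical
  rw [← range_map_ite]
  obtain ⟨m, hm⟩ : ∃ m, j + l = m + 1 := ⟨j + l - 1, by omega⟩
  rw [hm]
  have hpow : μ ^ (2 * j + l) = 1 := ho ▸ pow_orderOf_eq_one μ
  have hne1 : ∀ n, 0 < n → n < 2 * j + l → μ ^ n ≠ 1 := fun n hn hn' e => by
    have := Nat.le_of_dvd hn (orderOf_dvd_of_pow_eq_one e)
    omega
  -- exponents
  let x : ℕ → ℕ := fun i => if i ≤ j then 2 * i else j + i
  let ε : F := (∏ t ∈ Finset.range (2 * j + l), μ ^ t)⁻¹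
  have hε : ε ^ 2 = 1 := by
    rw [inv_pow, Finset.prod_pow_eq_pow_sum, ← pow_mul, Finset.sum_range_id_mul_two, pow_mul, hpow, one_pow,
      inv_one]
  have hε0 : ε ≠ 0 := fun e => by simp [e] at hε
  let e : ℕ → F := fun i => if i = 0 then ε * μ else μ ^ (2 * i + 1)
  have hsq : ((X - C μ) ^ 2).natDegree = 2 := by rw [natDegree_pow, natDegree_X_sub_C]
  refine comm_chain (fun i => if i < j then (X - C μ) ^ 2 else X - C μ) e (fun i => μ ^ x i) m
    (fun i _ => ?_) (fun i _ => ?_) (pow_ne_zero _ hμ) (fun i _ => ?_) (fun i _ => ?_) ?_ ?_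
  · split_ifs
    · exact ⟨(monic_X_sub_C μ).pow 2, coeff_pow_X_sub_C hμ 2, by omega⟩
    · exact ⟨monic_X_sub_C μ, by simpa using hμ, by rw [natDegree_X_sub_C]⟩
  · simp only [e]
    split_ifs
    · exact mul_ne_zero hε0 hμ
    · exact pow_ne_zero _ hμ
  · simp only [x]
    rcases Nat.lt_or_ge i j with h | h
    · rw [if_pos h, if_pos (by omega : i + 1 ≤ j), if_pos (by omega : i ≤ j), sgn_pow_X_sub_C, ← pow_add]
      congr 1
      omega
    · rw [if_neg (by omega : ¬ i < j), if_neg (by omega : ¬ i + 1 ≤ j), sgn_X_sub_C, ← pow_succ']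
      congr 1
      split_ifs <;> omega
  · rcases Nat.lt_or_ge i j with h | h
    · refine Or.inr ?_
      simp only [x, if_pos (by omega : i ≤ j), if_pos (by omega : i + 1 ≤ j)]
      rcases Nat.eq_zero_or_pos i with h0 | h0
      · subst h0
        simp only [e, if_pos rfl, mul_zero, pow_zero, zero_add, mul_one]
        have key : μ ≠ ε := fun e' => hne1 2 (by norm_num) (by omega) (e' ▸ hε)
        refine ⟨fun e' => ?_, fun e' => ?_⟩
        · exact key (mul_left_cancel₀ hε0 (e'.trans ((pow_two ε).symm.trans hε).symm))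
        · rw [pow_two] at e'
          exact key (mul_right_cancel₀ hμ e').symm
      · simp only [e, if_neg h0.ne']
        constructor <;> intro e'
        · rw [pow_succ, mul_eq_left₀ (pow_ne_zero _ hμ)] at e'
          exact hne1 1 one_pos (by omega) (by rw [pow_one, e'])
        · rw [show 2 * (i + 1) = (2 * i + 1) + 1 by omega, pow_succ μ (2 * i + 1),
            eq_comm, mul_eq_left₀ (pow_ne_zero _ hμ)] at e'
          exact hne1 1 one_pos (by omega) (by rw [pow_one, e'])
    · exact Or.inl (by rw [if_neg (by omega : ¬ i < j), natDegree_X_sub_C])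
  · simp only [x]
    rw [if_neg (by omega : ¬ m + 1 ≤ j), if_pos (Nat.zero_le j), mul_zero, pow_zero, ← hpow]
    congr 1
    omega
  · rw [← hm, Finset.prod_range_add]
    have e1 : ∀ i ∈ Finset.range j, μ ^ x i * e i ^ ((if i < j then (X - C μ) ^ 2 else X - C μ).natDegree - 1) =
        (if i = 0 then ε else 1) * (μ ^ (2 * i) * μ ^ (2 * i + 1)) := by
      intro i hi
      have hi' := Finset.mem_range.1 hi
      simp only [x, e, if_pos hi', if_pos hi'.le, hsq]
      split_ifs with h0
      · subst h0; simp
      · simp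
    have e2 : ∀ i ∈ Finset.range l, μ ^ x (j + i) *
        e (j + i) ^ ((if j + i < j then (X - C μ) ^ 2 else X - C μ).natDegree - 1) = μ ^ (2 * j + i) := by
      intro i _
      simp only [x, if_neg (by omega : ¬ j + i < j), natDegree_X_sub_C, Nat.sub_self, pow_zero, mul_one]
      congr 1
      split_ifs <;> omega
    rw [Finset.prod_congr rfl e1, Finset.prod_congr rfl e2, Finset.prod_mul_distrib, Finset.prod_ite_eq',
      if_pos (Finset.mem_range.2 (by omega))]
    have e3 : ∀ k, ∏ i ∈ Finset.range k, (μ ^ (2 * i) * μ ^ (2 * i + 1)) = ∏ t ∈ Finset.range (2 * k), μ ^ t := by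
      intro k
      induction k with
      | zero => simp
      | succ k ih =>
        rw [Finset.prod_range_succ, ih, show 2 * (k + 1) = 2 * k + 1 + 1 by omega, Finset.prod_range_succ,
          Finset.prod_range_succ]
        ring
    rw [e3, mul_assoc, ← Finset.prod_range_add]
    exact inv_mul_cancel₀ (Finset.prod_ne_zero_iff.2 fun t _ => pow_ne_zero _ hμ)

/-- Squares and simple factors of one eigenvalue. -/
lemma comm_mixed [Fintype F] (h4 : 4 ≤ Fintype.card F) {μ : F} (hμ : μ ≠ 0) :
    ∀ j l : ℕ, μ ^ (2 * j + l) = 1 →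
      CommForm (Multiset.replicate j ((X - C μ) ^ 2) + Multiset.replicate l (X - C μ)) := by
  set o := orderOf μ with ho'
  have ho : 0 < o := orderOf_pos_of_ne_zero hμ
  have hpow : μ ^ o = 1 := pow_orderOf_eq_one μ
  have g1 : ∀ k, Good (Multiset.replicate k ((X - C μ) ^ 2)) := fun k =>
    good_replicate ((monic_X_sub_C μ).pow 2) (coeff_pow_X_sub_C hμ 2) k
  have g2 : ∀ k, Good (Multiset.replicate k (X - C μ)) := fun k =>
    good_replicate (monic_X_sub_C μ) (by simpa using hμ) k
  suffices H : ∀ n j l : ℕ, 2 * j + l = n → μ ^ n = 1 →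
      CommForm (Multiset.replicate j ((X - C μ) ^ 2) + Multiset.replicate l (X - C μ)) from
    fun j l h => H _ j l rfl h
  intro n
  induction n using Nat.strong_induction_on with
  | _ n ih =>
    intro j l hn h
    rcases Nat.eq_zero_or_pos n with hn0 | hn0
    · obtain rfl : j = 0 := by omega
      obtain rfl : l = 0 := by omega
      simpa using CommForm.zero
    have hle : o ≤ n := Nat.le_of_dvd hn0 (orderOf_dvd_of_pow_eq_one h)
    have hsub : μ ^ (n - o) = 1 := by
      have := congrArg (μ ^ ·) (Nat.sub_add_cancel hle)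
      simp only [pow_add, hpow, mul_one, h] at this
      exact this
    rcases Nat.lt_or_ge l o with hl | hl
    · rcases Nat.eq_zero_or_pos l with hl0 | hl0
      · subst hl0
        rw [Multiset.replicate_zero, add_zero]
        refine comm_replicate_two h4 ((monic_X_sub_C μ).pow 2) (coeff_pow_X_sub_C hμ 2)
          (by rw [natDegree_pow, natDegree_X_sub_C]) ?_
        rw [sgn_pow_X_sub_C, ← pow_mul]
        rwa [show 2 * j = n by omega]
      · -- a piece of weight `o` with both kinds
        set j' := min j ((o - 1) / 2) with hj'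
        obtain ⟨k, hk⟩ := orderOf_dvd_of_pow_eq_one h
        rw [← ho'] at hk
        have hl' : o - 2 * j' ≤ l := by
          rcases Nat.le_total ((o - 1) / 2) j with hh | hh
          · rw [hj', min_eq_right hh]
            rcases Nat.even_or_odd o with ⟨w, hw⟩ | ⟨w, hw⟩
            · rcases Nat.even_or_odd l with ⟨w', hw'⟩ | ⟨w', hw'⟩
              · omega
              · exfalso
                have : n = 2 * (w * k) := by rw [hk, hw]; ring
                omega
            · omega
          · rw [hj', min_eq_left hh]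
            omega
        have hj1 : 1 ≤ j' := by omega
        have piece := comm_mixed_piece hμ (j := j') (l := o - 2 * j') hj1 (by omega) (by omega)
        have rest := ih (n - o) (by omega) (j - j') (l - (o - 2 * j')) (by omega) hsub
        have := CommForm.add ((g1 _).add (g2 _)) ((g1 _).add (g2 _)) piece rest
        rwa [add_add_add_comm, ← Multiset.replicate_add, ← Multiset.replicate_add,
          Nat.add_sub_cancel' (min_le_left _ _), Nat.add_sub_cancel' hl'] at this
    · have piece := comm_scalar (α := μ) hμ (k := o) hpow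
      have rest := ih (n - o) (by omega) j (l - o) (by omega) hsub
      have := CommForm.add (g2 _) ((g1 _).add (g2 _)) piece rest
      rwa [add_left_comm, ← Multiset.replicate_add, Nat.add_sub_cancel' hl] at this

lemma sgn_pair (α β : F) : sgn ((X - C α) * (X - C β)) = α * β := by
  rw [sgn_mul (monic_X_sub_C α) (monic_X_sub_C β), sgn_X_sub_C, sgn_X_sub_C]

lemma pair_facts {α β : F} (hα : α ≠ 0) (hβ : β ≠ 0) :
    ((X - C α) * (X - C β)).Monic ∧ ((X - C α) * (X - C β)).coeff 0 ≠ 0 ∧
      ((X - C α) * (X - C β)).natDegree = 2 := by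
  refine ⟨(monic_X_sub_C α).mul (monic_X_sub_C β), ?_, ?_⟩
  · simp [mul_coeff_zero, hα, hβ]
  · rw [(monic_X_sub_C α).natDegree_mul (monic_X_sub_C β), natDegree_X_sub_C, natDegree_X_sub_C]

/-- Two eigenvalues, one of them simple. -/
lemma comm_two_simple [Fintype F] {α β : F} (hα : α ≠ 0) (hβ : β ≠ 0) (hne : α ≠ β) (a : ℕ)
    (ha : a + 1 < orderOf α) (h : α ^ (a + 1) * β = 1) :
    CommForm (Multiset.replicate (a + 1) (X - C α) + {X - C β}) := by
  classical
  set P := (X - C α) * (X - C β) with hP
  obtain ⟨hPm, hP0, hPd⟩ := pair_facts hα hβ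
  set S : F := ∏ t ∈ Finset.range a, (α * β * α ^ t) with hS
  have hS0 : S ≠ 0 := Finset.prod_ne_zero_iff.2 fun t _ => mul_ne_zero (mul_ne_zero hα hβ) (pow_ne_zero _ hα)
  obtain ⟨c, hc, hA, hB⟩ : ∃ c : F, c ≠ 0 ∧ c ^ (a + 2) * S ≠ 1 ∧ c ^ (a + 2) * S * (α * β) ≠ 1 := by
    by_contra hh
    simp only [not_exists, not_and, not_not] at hh
    have k1 := hh 1 one_ne_zero
    have k2 := hh α hα
    have k3 := hh (α ^ 2) (pow_ne_zero _ hα)
    set γ := α ^ (a + 2) with hγ
    have hγ1 : γ ≠ 1 := fun e => hne (mul_left_cancel₀ (pow_ne_zero (a + 1) hα)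
      (((pow_succ α (a + 1)).symm.trans e).trans h.symm))
    have hγ0 : γ ≠ 0 := pow_ne_zero _ hα
    rw [one_pow, one_mul] at k1
    rw [show (α ^ 2) ^ (a + 2) = γ * γ by rw [hγ, ← pow_mul, ← pow_add]; congr 1; omega] at k3
    have fin : γ * γ = 1 → γ = α * β → False := by
      intro hg hab
      have h2a : α ^ (a + a + 2) = 1 := by
        calc α ^ (a + a + 2) = γ * α ^ a := by rw [hγ, ← pow_add]; congr 1; omega
        _ = α ^ (a + 1) * β := by rw [hab, pow_succ]; ring
        _ = 1 := h
      have h2 : α ^ 2 = 1 := by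
        have e : γ * γ = α ^ (a + a + 2) * α ^ 2 := by rw [hγ, ← pow_add, ← pow_add]; congr 1; omega
        rwa [hg, h2a, one_mul, eq_comm] at e
      have := Nat.le_of_dvd two_pos (orderOf_dvd_of_pow_eq_one h2)
      obtain rfl : a = 0 := by omega
      apply hne
      rw [zero_add, pow_one] at h
      refine (mul_left_cancel₀ hα ?_).symm
      rw [h, ← pow_two, h2]
    by_cases e1 : S = 1
    · -- the other two values agree
      have e2 := k2 (by rw [e1, mul_one]; exact hγ1)
      rw [e1, mul_one] at e2
      by_cases e3 : γ * γ = 1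
      · exact fin e3 (mul_left_cancel₀ hγ0 (e3.trans e2.symm))
      · have e4 := k3 (by rw [e1, mul_one]; exact e3)
        rw [e1, mul_one, mul_assoc, e2, mul_one] at e4
        exact hγ1 e4
    · have e2 : S * (α * β) = 1 := k1 e1
      have e3 : γ * S = 1 := by
        by_contra e3
        have := k2 e3
        rw [mul_assoc, e2, mul_one] at this
        exact hγ1 this
      by_cases e4 : γ * γ * S = 1
      · rw [mul_assoc, e3, mul_one] at e4
        exact hγ1 e4
      · have e5 := k3 e4
        rw [mul_assoc (γ * γ), e2, mul_one] at e5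
        exact fin e5 (mul_right_cancel₀ hS0 (e3.trans ((mul_comm _ _).trans e2).symm))
  let g : ℕ → F[X] := fun i => if i = 0 then P else X - C α
  let cs : ℕ → F := fun i => if i = 0 then c else c * (α * β * α ^ (i - 1))
  set e : F := (c ^ (a + 1) * S)⁻¹ with he
  have hee : e * (c ^ (a + 1) * S) = 1 := inv_mul_cancel₀ (mul_ne_zero (pow_ne_zero _ hc) hS0)
  have hcs : ∀ i, cs (i + 1) = sgn (g i) * cs i := by
    intro i
    rcases Nat.eq_zero_or_pos i with h0 | h0
    · subst h0
      simp only [g, cs, zero_add, if_pos, if_false, one_ne_zero, Nat.sub_self, pow_zero,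
        mul_one, hP, sgn_pair]
      ring
    · simp only [g, cs, if_neg h0.ne', Nat.succ_ne_zero, if_false, Nat.add_sub_cancel, sgn_X_sub_C]
      obtain ⟨k, rfl⟩ : ∃ k, i = k + 1 := ⟨i - 1, by omega⟩
      rw [Nat.add_sub_cancel, pow_succ]
      ring
  have H := comm_chain g (fun _ => e) cs a
    (fun i _ => by
      simp only [g]
      split_ifs
      · exact ⟨hPm, hP0, by rw [hPd]; norm_num⟩
      · exact ⟨monic_X_sub_C α, by simpa using hα, by rw [natDegree_X_sub_C]⟩)
    (fun _ _ => inv_ne_zero (mul_ne_zero (pow_ne_zero _ hc) hS0)) (by simpa [cs] using hc) (fun i _ => hcs i)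
    (fun i _ => by
      rcases Nat.eq_zero_or_pos i with h0 | h0
      · subst h0
        refine Or.inr ⟨fun e' => hA ?_, fun e' => hB ?_⟩
        · simp only [cs, if_pos] at e'
          rw [← hee, e', pow_succ]
          ring
        · simp only [cs, zero_add, one_ne_zero, if_false, Nat.sub_self, pow_zero, mul_one] at e'
          rw [← hee, e', pow_succ]
          ring
      · exact Or.inl (by simp only [g, if_neg h0.ne', natDegree_X_sub_C]))
    (by
      simp only [cs, Nat.succ_ne_zero, if_false, if_pos, Nat.add_sub_cancel]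
      rw [show α * β * α ^ a = α ^ (a + 1) * β by rw [pow_succ]; ring, h, mul_one])
    (by
      rw [Finset.prod_range_succ']
      have e1 : ∀ i ∈ Finset.range a, cs (i + 1) * e ^ ((g (i + 1)).natDegree - 1) = c * (α * β * α ^ i) := by
        intro i _
        simp only [cs, g, Nat.succ_ne_zero, if_false, Nat.add_sub_cancel, natDegree_X_sub_C, Nat.sub_self,
          pow_zero, mul_one]
      rw [Finset.prod_congr rfl e1, Finset.prod_mul_distrib, Finset.prod_const, Finset.card_range]
      simp only [cs, g, if_pos, show P.natDegree = 2 from hPd, show (2 : ℕ) - 1 = 1 from rfl, pow_one]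
      rw [← hS, show c ^ a * S * (c * e) = (c ^ (a + 1) * S) * e by rw [pow_succ]; ring, he,
        mul_inv_cancel₀ (mul_ne_zero (pow_ne_zero _ hc) hS0)])
  have e1 : (Multiset.range (a + 1)).map g = P ::ₘ Multiset.replicate a (X - C α) := by
    have := range_map_ite 1 a P (X - C α)
    rw [add_comm 1 a, Multiset.replicate_one, Multiset.singleton_add] at this
    rw [← this]
    exact Multiset.map_congr rfl fun i _ => by simp only [g, Nat.lt_one_iff]
  rw [e1] at H
  have H' := CommForm.split (isCoprime_X_sub_C_of_isUnit_sub (sub_ne_zero.2 hne).isUnit) H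
  rw [Multiset.replicate_succ, Multiset.cons_add, add_comm, Multiset.singleton_add]
  exact H'

/-- Two eigenvalues, neither simple. -/
lemma comm_two_double [Fintype F] {α β : F} (hα : α ≠ 0) (hβ : β ≠ 0) (hne : α ≠ β) (a b : ℕ)
    (ha : a + 2 < orderOf α) (hb : b + 2 < orderOf β) (hab : α * β ≠ 1) (h : α ^ (a + 2) * β ^ (b + 2) = 1) :
    CommForm (Multiset.replicate (a + 2) (X - C α) + Multiset.replicate (b + 2) (X - C β)) := by
  classical
  have h6 : 6 ≤ Fintype.card F := by
    have hA : ∀ {x : F} {k : ℕ}, k + 2 < orderOf x → x ^ 2 ≠ 1 := fun hk e => by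
      have := Nat.le_of_dvd two_pos (orderOf_dvd_of_pow_eq_one e)
      omega
    have h1 : ∀ {x : F}, x ^ 2 ≠ 1 → x ≠ 1 := fun hx e => hx (by rw [e, one_pow])
    have hi : ∀ {x : F}, x ≠ 0 → x ^ 2 ≠ 1 → x ≠ x⁻¹ := fun {x} h0 hx e =>
      hx (by rw [pow_two]; nth_rw 2 [e]; exact mul_inv_cancel₀ h0)
    have := hA ha
    have := hA hb
    have hcard : ({0, 1, α, α⁻¹, β, β⁻¹} : Finset F).card = 6 := by
      have n1 : α ≠ 1 := h1 (hA ha)
      have n2 : β ≠ 1 := h1 (hA hb)
      have n3 : α ≠ α⁻¹ := hi hα (hA ha)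
      have n4 : β ≠ β⁻¹ := hi hβ (hA hb)
      have n5 : α ≠ β⁻¹ := fun e => hab (by rw [e, inv_mul_cancel₀ hβ])
      have n6 : α⁻¹ ≠ β := fun e => hab (by rw [← e, mul_inv_cancel₀ hα])
      have n7 : α⁻¹ ≠ β⁻¹ := fun e => hne (inv_injective e)
      simp [n1.symm, n2.symm, n3, n4, n5, n6, n7, hne, hα.symm, hβ.symm, inv_eq_one, eq_comm (a := (1 : F)), n1, n2]
    exact hcard ▸ Finset.card_le_univ _
  set P := (X - C α) * (X - C β) with hP
  obtain ⟨hPm, hP0, hPd⟩ := pair_facts hα hβ
  set D := α * β with hD
  have hD0 : D ≠ 0 := mul_ne_zero hα hβ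
  let g : ℕ → F[X] := fun i => if i < 2 then P else if i < 2 + a then X - C α else X - C β
  let cs : ℕ → F := fun i => ∏ t ∈ Finset.range i, sgn (g t)
  have hg : ∀ i, (g i).Monic ∧ (g i).coeff 0 ≠ 0 ∧ 1 ≤ (g i).natDegree := fun i => by
    simp only [g]
    split_ifs
    · exact ⟨hPm, hP0, by rw [hPd]; norm_num⟩
    · exact ⟨monic_X_sub_C α, by simpa using hα, by rw [natDegree_X_sub_C]⟩
    · exact ⟨monic_X_sub_C β, by simpa using hβ, by rw [natDegree_X_sub_C]⟩
  have hcs0 : ∀ i, cs i ≠ 0 := fun i => Finset.prod_ne_zero_iff.2 fun t _ => sgn_ne_zero (hg t).2.1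
  have hmap : (Multiset.range (2 + a + b)).map g =
      Multiset.replicate 2 P + Multiset.replicate a (X - C α) + Multiset.replicate b (X - C β) := by
    rw [Multiset.range_add, Multiset.map_add, Multiset.map_map, ← range_map_ite 2 a, ← range_map_const b]
    congr 1
    · exact Multiset.map_congr rfl fun i hi => by
        simp only [g, if_pos (Multiset.mem_range.1 hi)]
    · exact Multiset.map_congr rfl fun i _ => by simp [g]; omega
  set S : F := ∏ i ∈ Finset.range (2 + a + b), cs i with hS
  have hS0 : S ≠ 0 := Finset.prod_ne_zero_iff.2 fun i _ => hcs0 i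
  obtain ⟨e0, he0, k1, k2, k3, k4⟩ := exists_avoid_four h6 1 D (1 / (S * D)) (1 / (S * (D * D)))
  set e1 : F := (S * e0)⁻¹ with he1
  have hcs2 : cs 1 = D ∧ cs 2 = D * D := by
    constructor <;> simp [cs, g, Finset.prod_range_succ, hP, sgn_pair, hD]
  have H := comm_chain g (fun i => if i = 0 then e0 else e1) cs (1 + a + b) (fun i _ => hg i)
    (fun i _ => by split_ifs; exacts [he0, inv_ne_zero (mul_ne_zero hS0 he0)]) (hcs0 0)
    (fun i _ => by simp only [cs]; rw [Finset.prod_range_succ, mul_comm])
    (fun i _ => by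
      rcases Nat.lt_or_ge i 2 with hi | hi
      · refine Or.inr ?_
        interval_cases i
        · rw [if_pos rfl]
          exact ⟨by simpa [cs] using k1, by rw [hcs2.1]; exact k2⟩
        · rw [if_neg one_ne_zero, hcs2.1, hcs2.2]
          have hee : e1 * (S * e0) = 1 := inv_mul_cancel₀ (mul_ne_zero hS0 he0)
          refine ⟨fun e => k3 ?_, fun e => k4 ?_⟩ <;> (rw [e] at hee; field_simp; linear_combination hee)
      · refine Or.inl ?_
        simp only [g, if_neg (by omega : ¬ i < 2)]
        split_ifs <;> rw [natDegree_X_sub_C])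
    (by
      have e2 := congrArg (fun s => (Multiset.map sgn s).prod) hmap
      simp only [Multiset.map_map, Multiset.map_add, Multiset.map_replicate, Multiset.prod_add,
        Multiset.prod_replicate, hP, sgn_pair, sgn_X_sub_C] at e2
      have e3 : cs (1 + a + b + 1) = ((Multiset.range (2 + a + b)).map (sgn ∘ g)).prod := by
        rw [show 1 + a + b + 1 = 2 + a + b by omega]; rfl
      rw [e3, e2]
      simp only [cs, Finset.range_zero, Finset.prod_empty]
      rw [← h, pow_add, pow_add]
      ring)
    (by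
      have e2 : ∀ i ∈ Finset.range (1 + a + b + 1), cs i * (if i = 0 then e0 else e1) ^ ((g i).natDegree - 1) =
          cs i * ((if i = 0 then e0 else 1) * (if i = 1 then e1 else 1)) := by
        intro i _
        congr 1
        rcases Nat.lt_or_ge i 2 with hi | hi
        · interval_cases i <;> simp [g, show P.natDegree = 2 from hPd]
        · simp only [g, if_neg (by omega : ¬ i < 2), if_neg (by omega : ¬ i = 0), if_neg (by omega : ¬ i = 1)]
          split_ifs <;> simp
      rw [Finset.prod_congr rfl e2, Finset.prod_mul_distrib, Finset.prod_mul_distrib, Finset.prod_ite_eq',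
        Finset.prod_ite_eq', if_pos (Finset.mem_range.2 (by omega)), if_pos (Finset.mem_range.2 (by omega)),
        show 1 + a + b + 1 = 2 + a + b by omega, ← hS, he1]
      field_simp)
  rw [show 1 + a + b + 1 = 2 + a + b by omega, hmap] at H
  have hcop : IsCoprime (X - C α) (X - C β) := isCoprime_X_sub_C_of_isUnit_sub (sub_ne_zero.2 hne).isUnit
  rw [show (Multiset.replicate 2 P : Multiset F[X]) = P ::ₘ P ::ₘ 0 from rfl, Multiset.cons_add, Multiset.cons_add] at H
  have H1 := CommForm.split hcop H
  rw [Multiset.cons_add, zero_add, Multiset.cons_add, Multiset.cons_swap (X - C β) P, Multiset.cons_swap (X - C α) P] at H1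
  have H2 := CommForm.split hcop H1
  convert H2 using 1
  simp only [Multiset.replicate_succ, ← Multiset.singleton_add]
  abel

/-- Two eigenvalues. -/
lemma comm_two [Fintype F] {α β : F} (hα : α ≠ 0) (hβ : β ≠ 0) (hne : α ≠ β) :
    ∀ a b : ℕ, α ^ a * β ^ b = 1 →
      CommForm (Multiset.replicate a (X - C α) + Multiset.replicate b (X - C β)) := by
  suffices H : ∀ n a b : ℕ, a + b = n → α ^ a * β ^ b = 1 →
      CommForm (Multiset.replicate a (X - C α) + Multiset.replicate b (X - C β)) from fun a b => H _ a b rfl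
  have gg : ∀ {x : F}, x ≠ 0 → ∀ k, Good (Multiset.replicate k (X - C x)) := fun hx k =>
    good_replicate (monic_X_sub_C _) (by simpa using hx) k
  intro n
  induction n using Nat.strong_induction_on with
  | _ n ih =>
    intro a b hn h
    rcases Nat.eq_zero_or_pos a with ha | ha
    · subst ha
      simpa using comm_scalar hβ (by simpa using h)
    rcases Nat.eq_zero_or_pos b with hb | hb
    · subst hb
      simpa using comm_scalar hα (by simpa using h)
    have oα := orderOf_pos_of_ne_zero hα
    have oβ := orderOf_pos_of_ne_zero hβ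
    rcases Nat.lt_or_ge a (orderOf α) with hao | hao
    swap
    · have rest := ih (n - orderOf α) (by omega) (a - orderOf α) b (by omega) (by
        rwa [← Nat.sub_add_cancel hao, pow_add, pow_orderOf_eq_one, mul_one] at h)
      have := CommForm.add (gg hα _) ((gg hα _).add (gg hβ _)) (comm_scalar hα (pow_orderOf_eq_one α)) rest
      rwa [← add_assoc, ← Multiset.replicate_add, Nat.add_sub_cancel' hao] at this
    rcases Nat.lt_or_ge b (orderOf β) with hbo | hbo
    swap
    · have rest := ih (n - orderOf β) (by omega) a (b - orderOf β) (by omega) (by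
        rwa [← Nat.sub_add_cancel hbo, pow_add, pow_orderOf_eq_one, mul_one] at h)
      have := CommForm.add (gg hβ _) ((gg hα _).add (gg hβ _)) (comm_scalar hβ (pow_orderOf_eq_one β)) rest
      rwa [add_left_comm, ← Multiset.replicate_add, Nat.add_sub_cancel' hbo] at this
    by_cases hb1 : b = 1
    · subst hb1
      obtain ⟨a, rfl⟩ : ∃ k, a = k + 1 := ⟨a - 1, by omega⟩
      rw [Multiset.replicate_one]
      exact comm_two_simple hα hβ hne a hao (by simpa using h)
    by_cases ha1 : a = 1
    · subst ha1
      obtain ⟨b, rfl⟩ : ∃ k, b = k + 1 := ⟨b - 1, by omega⟩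
      rw [Multiset.replicate_one, add_comm]
      exact comm_two_simple hβ hα hne.symm b hbo (by rw [mul_comm]; simpa using h)
    by_cases hab : α * β = 1
    · obtain ⟨a, rfl⟩ : ∃ k, a = k + 1 := ⟨a - 1, by omega⟩
      obtain ⟨b, rfl⟩ : ∃ k, b = k + 1 := ⟨b - 1, by omega⟩
      have piece := comm_two_simple hα hβ hne 0 (by omega) (by simpa using hab)
      have rest := ih (n - 2) (by omega) a b (by omega) (by
        rw [pow_succ, pow_succ, mul_mul_mul_comm, hab, mul_one] at h
        exact h)
      rw [← Multiset.replicate_one (X - C β)] at piece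
      have := CommForm.add ((gg hα _).add (gg hβ _)) ((gg hα _).add (gg hβ _)) piece rest
      rwa [add_add_add_comm, ← Multiset.replicate_add, ← Multiset.replicate_add, zero_add, add_comm 1 a,
        add_comm 1 b] at this
    obtain ⟨a, rfl⟩ : ∃ k, a = k + 2 := ⟨a - 2, by omega⟩
    obtain ⟨b, rfl⟩ : ∃ k, b = k + 2 := ⟨b - 2, by omega⟩
    exact comm_two_double hα hβ hne a b hao hbo hab h

end CfsgLib.SLCommutator
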