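import Cfsg.Agent.SLCommutator.Small
import Cfsg.Agent.SLCommutator.Cases

/-!
The field with two elements.
-/

set_option autoImplicit false

namespace CfsgLib.SLCommutator

open Polynomial Module CfsgLib.SLClassCount

universe u

variable {F : Type u} [Field F] [Fintype F]

lemma eq_one_of_ne_zero (h2 : Fintype.card F = 2) {a : F} (ha : a ≠ 0) : a = 1 := by
  have := FiniteField.pow_card_sub_one_eq_one a ha
  rwa [h2, pow_one] at this

lemma add_self_zero (h2 : Fintype.card F = 2) : (1 : F) + 1 = 0 := by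
  have := FiniteField.cast_card_eq_zero F
  rw [h2] at this
  exact_mod_cast this

lemma quad_irreducible_two (h2 : Fintype.card F = 2) : Irreducible (quad (1 : F) 1) := by
  obtain ⟨τ, hτ⟩ := exists_irreducible_quad (one_ne_zero (α := F))
  rcases eq_or_ne τ 0 with rfl | h
  · exfalso
    refine hτ.not_isRoot_of_natDegree_ne_one (by rw [quad_natDegree]; norm_num) (x := 1) ?_
    simpa [IsRoot, quad] using add_self_zero h2
  · rwa [eq_one_of_ne_zero h2 h] at hτ

/-- Members of degree one. -/
lemma comm_two_deg_one (h2 : Fintype.card F = 2) {f : F[X]} (hf : f.Monic) (hf0 : f.coeff 0 ≠ 0)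
    (hd : f.natDegree = 1) : CommForm {f} := by
  have h := bridge_leaf hf hf0 (l := 0) hd one_ne_zero one_ne_zero (e := (1 : F)) (c := 1) (Or.inl rfl)
  rw [eq_one_of_ne_zero h2 (sgn_ne_zero hf0), one_mul] at h
  exact comm_of_real_two h2 h

/-- Members of degree at least three. -/
lemma comm_two_big (h2 : Fintype.card F = 2) {f : F[X]} (hf : f.Monic) (hf0 : f.coeff 0 ≠ 0)
    (hd : 3 ≤ f.natDegree) : CommForm {f} := by
  obtain ⟨l, hl, hl'⟩ : ∃ l, f.natDegree = l + 1 + 1 ∧ 1 ≤ l := ⟨f.natDegree - 2, by omega, by omega⟩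
  have hQ := quad_irreducible_two h2
  have H := realForm_chain_quad hf hf0 hl' hl one_ne_zero one_ne_zero hQ
    (f' := (X - C 1) ^ l * quad 1 1) (((monic_X_sub_C (1 : F)).pow l).mul (quad_monic 1 1))
    (by rw [((monic_X_sub_C (1 : F)).pow l).natDegree_mul (quad_monic 1 1), natDegree_pow, natDegree_X_sub_C,
      quad_natDegree]; ring)
    (by rw [sgn_mul ((monic_X_sub_C (1 : F)).pow l) (quad_monic 1 1), sgn_pow_X_sub_C, sgn_quad,
      eq_one_of_ne_zero h2 (sgn_ne_zero hf0)]; ring)
  exact comm_of_real_two h2 (H.split_right (coprime_of_irreducible hQ 1).pow_left)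

lemma J_facts (h2 : Fintype.card F = 2) : ((X - C (1 : F)) ^ 2).Monic ∧ ((X - C (1 : F)) ^ 2).coeff 0 = 1 ∧
    ((X - C (1 : F)) ^ 2).coeff 1 = 0 ∧ ((X - C (1 : F)) ^ 2).natDegree = 2 := by
  have e : (X - C (1 : F)) ^ 2 = quad 0 1 := by
    rw [← quad_square, two_mul, add_self_zero h2, one_pow]
  rw [e]
  exact ⟨quad_monic _ _, by simp [quad], by simp [quad, coeff_X_pow, coeff_one], quad_natDegree _ _⟩

lemma real_J (h2 : Fintype.card F = 2) :
    RealForm {(X - C (1 : F)) ^ 2} {quad (1 : F) 1} {quad 0 1} ∧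
      RealForm {(X - C (1 : F)) ^ 2} {quad (0 : F) 1} {quad 1 1} := by
  obtain ⟨hm, h0, h1, hd⟩ := J_facts h2
  have e2 := add_self_zero h2
  have em : (-1 : F) = 1 := neg_eq_iff_add_eq_zero.2 e2
  constructor
  · have := realForm_two hm (by rw [h0]; exact one_ne_zero) hd 0 1 1 1 (Or.inl one_ne_zero) (Or.inr one_ne_zero)
      (by simp)
    rw [h0, h1] at this
    simpa [em, e2] using this
  · have := realForm_two hm (by rw [h0]; exact one_ne_zero) hd 1 1 0 1 (Or.inr one_ne_zero) (Or.inr one_ne_zero)
      (by simp)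
    rw [h0, h1] at this
    simpa [em, e2] using this

lemma comm_J_pair (h2 : Fintype.card F = 2) : CommForm (Multiset.replicate 2 ((X - C (1 : F)) ^ 2)) := by
  obtain ⟨a, b⟩ := real_J h2
  have h := a.add b
  rw [add_comm ({quad 0 1} : Multiset F[X])] at h
  exact comm_of_real_two h2 h

/-- The irreducible quadratic. -/
lemma comm_two_quad (h2 : Fintype.card F = 2) {f : F[X]} (hf : f.Monic) (hirr : Irreducible f)
    (hd : f.natDegree = 2) : CommForm {f} := by
  have e2 := add_self_zero h2
  have em : (-1 : F) = 1 := neg_eq_iff_add_eq_zero.2 e2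
  have h0 : f.coeff 0 = 1 := eq_one_of_ne_zero h2 fun h => by
    refine hirr.not_isRoot_of_natDegree_ne_one (by omega) (x := 0) ?_
    rwa [IsRoot, ← coeff_zero_eq_eval_zero]
  have hf2 : f.coeff 2 = 1 := by rw [← hd]; exact hf
  have h1 : f.coeff 1 = 1 := eq_one_of_ne_zero h2 fun h => by
    refine hirr.not_isRoot_of_natDegree_ne_one (by omega) (x := 1) ?_
    rw [IsRoot, eval_eq_sum_range, hd]
    simp [Finset.sum_range_succ, h0, h, hf2, e2]
  have H := realForm_two hf (by rw [h0]; exact one_ne_zero) hd 1 1 0 1 (Or.inr one_ne_zero) (Or.inr one_ne_zero)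
    (by simp)
  refine comm_of_real_two h2 (P := {quad 0 1}) ?_
  simpa [h0, h1, em, e2] using H

/-- Three unipotent planes. -/
lemma comm_J_triple (h2 : Fintype.card F = 2) : CommForm (Multiset.replicate 3 ((X - C (1 : F)) ^ 2)) := by
  have e2 := add_self_zero h2
  set h : F[X] := X ^ 3 + X + 1 with hh
  have hm : h.Monic := by rw [hh]; monicity!
  have hd : h.natDegree = 3 := by rw [hh]; compute_degree!
  have hev : h.eval 1 ≠ 0 := by simp [hh, e2]
  have hcop : IsCoprime (X - C (1 : F)) h :=
    (irreducible_X_sub_C (1 : F)).coprime_iff_not_dvd.2 fun hdvd => hev (dvd_iff_isRoot.1 hdvd)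
  have : Module.Finite F (cyc h) := hm.finite_quotient
  let g : cyc h →ₗ[F] cyc h := xMap h
  have hinj : Function.Injective ⇑(g - (LinearMap.id : cyc h →ₗ[F] cyc h)) := by
    rw [injective_iff_map_eq_zero]
    intro z hz
    obtain ⟨a, rfl⟩ := Submodule.Quotient.mk_surjective _ z
    have hz' : (Submodule.Quotient.mk ((X - C (1 : F)) * a) : cyc h) = 0 := by
      rw [sub_mul, map_one, one_mul, Submodule.Quotient.mk_sub]
      exact hz
    rw [Submodule.Quotient.mk_eq_zero] at hz' ⊢
    exact Ideal.mem_span_singleton.2 (hcop.symm.dvd_of_dvd_mul_left (Ideal.mem_span_singleton.1 hz'))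
  let G := LinearEquiv.ofInjectiveEndo _ hinj
  let H := G.symm
  have hH : ∀ y, g (H y) = H y + y := fun y => by
    have : g (H y) - H y = y := G.apply_symm_apply y
    exact sub_eq_iff_eq_add'.1 this
  have hg : LinearMap.det g ≠ 0 := by
    rw [det_xMap hm]
    exact mul_ne_zero (pow_ne_zero _ (neg_ne_zero.2 one_ne_zero)) (by simp [hh])
  let gE := LinearMap.equivOfDetNeZero g hg
  let B : cyc h × cyc h →ₗ[F] cyc h × cyc h :=
    (LinearMap.fst F _ _ + LinearMap.snd F _ _).prod (LinearMap.snd F _ _)
  let U : (cyc h × cyc h) ≃ₗ[F] (cyc h × cyc h) :=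
    { toFun := fun z => (z.1 + H z.2, z.2)
      map_add' := fun a b => by ext <;> simp; abel
      map_smul' := fun c a => by ext <;> simp
      invFun := fun z => (z.1 - H z.2, z.2)
      left_inv := fun z => by simp
      right_inv := fun z => by simp }
  have hform : HasForm B (Multiset.replicate 3 ((X - C (1 : F)) ^ 2)) := by
    let b := Module.finBasisOfFinrankEq F (cyc h) (finrank_cyc.trans hd)
    have hN : ∀ z, aeval B (X - C (1 : F)) z = (z.2, 0) := fun z => by
      simp [B, Prod.ext_iff]
    have := hasForm_of_generators (T := B) (fun _ : Fin 3 => (X - C (1 : F)) ^ 2) (fun i => ((0 : cyc h), b i))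
      (fun _ => (monic_X_sub_C 1).pow 2) (fun i => by rw [pow_two, aeval_mul_apply, hN, hN]; rfl) ?_ ?_
    · simpa [Fin.univ_val_map] using this
    · intro z _
      set S := ⨆ i, LinearMap.range (orbit B ((0 : cyc h), b i))
      have k1 : ∀ y, ((0 : cyc h), y) ∈ S ∧ (y, (0 : cyc h)) ∈ S := by
        have k : ∀ i, ((0 : cyc h), b i) ∈ S ∧ (b i, (0 : cyc h)) ∈ S := fun i =>
          ⟨le_iSup (fun i => LinearMap.range (orbit B ((0 : cyc h), b i))) i ⟨1, by simp⟩,
            le_iSup (fun i => LinearMap.range (orbit B ((0 : cyc h), b i))) i ⟨X - C 1, by rw [orbit_apply, hN]⟩⟩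
        intro y
        refine ⟨?_, ?_⟩
        · have : ⊤ ≤ S.comap (LinearMap.inr F (cyc h) (cyc h)) := by
            rw [← b.span_eq, Submodule.span_le]; rintro _ ⟨i, rfl⟩; exact (k i).1
          exact this Submodule.mem_top
        · have : ⊤ ≤ S.comap (LinearMap.inl F (cyc h) (cyc h)) := by
            rw [← b.span_eq, Submodule.span_le]; rintro _ ⟨i, rfl⟩; exact (k i).2
          exact this Submodule.mem_top
      have := S.add_mem (k1 z.1).2 (k1 z.2).1
      simpa using this
    · rw [finrank_prod, finrank_cyc, hd, Fin.sum_univ_three]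
      simp [natDegree_pow, -map_one]
  refine CommForm.of_model B hform (gE.prodCongr (LinearEquiv.refl F _)) U
    (eq_one_of_ne_zero h2 (LinearEquiv.isUnit_det' _).ne_zero)
    (eq_one_of_ne_zero h2 (LinearEquiv.isUnit_det' _).ne_zero) fun z => ?_
  refine Prod.ext ?_ rfl
  show g z.1 + H z.2 + z.2 = g (z.1 + H z.2)
  rw [map_add, hH]
  abel

/-- A unipotent plane and a fixed line. -/
lemma comm_J_line (h2 : Fintype.card F = 2) : CommForm ((X - C (1 : F)) ^ 2 ::ₘ {X - C (1 : F)}) := by
  let B : (F × F × F) →ₗ[F] (F × F × F) :=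
    { toFun := fun z => (z.1 + z.2.2, z.2.1, z.2.2)
      map_add' := fun a b => by simp [Prod.ext_iff]; ring
      map_smul' := fun c a => by simp [Prod.ext_iff]; ring }
  let T : (F × F × F) ≃ₗ[F] (F × F × F) :=
    { toFun := fun z => (z.1 + z.2.1, z.2.1, z.2.2)
      map_add' := fun a b => by simp [Prod.ext_iff]; ring
      map_smul' := fun c a => by simp [Prod.ext_iff]; ring
      invFun := fun z => (z.1 - z.2.1, z.2.1, z.2.2)
      left_inv := fun z => by simp
      right_inv := fun z => by simp }
  let U : (F × F × F) ≃ₗ[F] (F × F × F) :=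
    { toFun := fun z => (z.1, z.2.1 + z.2.2, z.2.2)
      map_add' := fun a b => by simp [Prod.ext_iff]; ring
      map_smul' := fun c a => by simp [Prod.ext_iff]; ring
      invFun := fun z => (z.1, z.2.1 - z.2.2, z.2.2)
      left_inv := fun z => by simp
      right_inv := fun z => by simp }
  have hN : ∀ z, aeval B (X - C (1 : F)) z = (z.2.2, 0, 0) := fun z => by
    simp [B, Prod.ext_iff]
  have hform : HasForm B ((X - C (1 : F)) ^ 2 ::ₘ {X - C (1 : F)}) := by
    have := hasForm_of_generators (T := B) ![(X - C (1 : F)) ^ 2, X - C (1 : F)] ![(0, 0, 1), (0, 1, 0)]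
      (fun i => by fin_cases i <;> [exact (monic_X_sub_C 1).pow 2; exact monic_X_sub_C 1])
      (fun i => by
        fin_cases i
        · show aeval B ((X - C (1 : F)) ^ 2) ((0 : F), (0 : F), (1 : F)) = 0
          rw [pow_two, aeval_mul_apply, hN, hN]; rfl
        · show aeval B (X - C (1 : F)) ((0 : F), (1 : F), (0 : F)) = 0
          rw [hN]; rfl) ?_ ?_
    · simp [Fin.univ_val_map] at this
      exact this
    · rintro ⟨a, b, c⟩ -
      set v : Fin 2 → F × F × F := ![(0, 0, 1), (0, 1, 0)]
      set S := ⨆ i, LinearMap.range (orbit B (v i))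
      have k1 : ((0 : F), (0 : F), (1 : F)) ∈ S :=
        le_iSup (fun i => LinearMap.range (orbit B (v i))) 0 ⟨1, by simp [v]⟩
      have k2 : ((1 : F), (0 : F), (0 : F)) ∈ S :=
        le_iSup (fun i => LinearMap.range (orbit B (v i))) 0 ⟨X - C 1, by rw [orbit_apply, hN]; rfl⟩
      have k3 : ((0 : F), (1 : F), (0 : F)) ∈ S :=
        le_iSup (fun i => LinearMap.range (orbit B (v i))) 1 ⟨1, by simp [v]⟩
      have := S.add_mem (S.add_mem (S.smul_mem a k2) (S.smul_mem b k3)) (S.smul_mem c k1)
      simpa using this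
    · rw [finrank_prod, finrank_prod, finrank_self, Fin.sum_univ_two]
      simp [natDegree_pow, -map_one]
  exact CommForm.of_model B hform T U (eq_one_of_ne_zero h2 (LinearEquiv.isUnit_det' T).ne_zero)
    (eq_one_of_ne_zero h2 (LinearEquiv.isUnit_det' U).ne_zero) fun z => by simp [B, T, U, Prod.ext_iff]; ring

section glue

variable {W : Type u} [AddCommGroup W] [Module F W] (A : W →ₗ[F] W) (Z : F × F →ₗ[F] W)
  (C2 : F × F →ₗ[F] F × F)

/-- A block triangular map. -/
def blockMap : W × (F × F) →ₗ[F] W × (F × F) :=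
  (A.comp (LinearMap.fst F W (F × F)) + Z.comp (LinearMap.snd F W (F × F))).prod
    (C2.comp (LinearMap.snd F W (F × F)))

omit [Fintype F] in
@[simp] lemma blockMap_apply (z : W × (F × F)) : blockMap A Z C2 z = (A z.1 + Z z.2, C2 z.2) := rfl

omit [Fintype F] in
lemma aeval_blockMap_inl (p : F[X]) (x : W) : aeval (blockMap A Z C2) p (x, 0) = (aeval A p x, 0) := by
  induction p using Polynomial.induction_on' with
  | add a c ha hc => simp [ha, hc]
  | monomial n c =>
    rw [← C_mul_X_pow_eq_monomial]
    simp only [map_mul, map_pow, aeval_C, aeval_X, Module.End.mul_apply, Module.algebraMap_end_apply]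
    have : ∀ n : ℕ, (blockMap A Z C2 ^ n) (x, 0) = ((A ^ n) x, 0) := by
      intro n
      induction n with
      | zero => simp
      | succ n ih => rw [pow_succ', Module.End.mul_apply, ih, pow_succ', Module.End.mul_apply]; simp
    simp [this]

omit [Fintype F] in
/-- A cyclic bottom glued to a cyclic top. -/
lemma hasForm_blockMap [Module.Finite F W] {fa : F[X]} (hfa : fa.Monic) (hd : finrank F W = fa.natDegree)
    {u : W} (hu : aeval A fa u = 0) (hus : Function.Surjective (orbit A u)) {τ δ : F} (v : F × F)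
    (hv : ⊤ ≤ Submodule.span F {v, C2 v}) (hC : C2 (C2 v) - τ • C2 v + δ • v = 0)
    (h : IsCoprime fa (quad τ δ) ∨ (Z v = 0 ∧ Z (C2 v) = u)) :
    HasForm (blockMap A Z C2) {fa * quad τ δ} := by
  set M := blockMap A Z C2
  have hk : aeval M (quad τ δ) ((0 : W), v) = (A (Z v) + Z (C2 v) - τ • Z v, 0) := by
    rw [aeval_quad]
    simp only [M, blockMap_apply, map_zero, zero_add, Prod.smul_mk, smul_zero, Prod.mk_sub_mk, Prod.mk_add_mk,
      add_zero, hC]
  have hleft : ∀ x : W, ((x, 0) : W × (F × F)) ∈ LinearMap.range (orbit M (u, 0)) := fun x => by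
    obtain ⟨a, rfl⟩ := hus x
    exact ⟨a, aeval_blockMap_inl A Z C2 a u⟩
  obtain ⟨w, hw, hwu, hwv⟩ : ∃ w, aeval M (fa * quad τ δ) w = 0 ∧
      ((u, 0) : W × (F × F)) ∈ LinearMap.range (orbit M w) ∧ ((0 : W), v) ∈ LinearMap.range (orbit M w) := by
    rcases h with hcop | ⟨h1, h2⟩
    · obtain ⟨w, e1, e2, e3, -⟩ := exists_cyclic_ext (T := M) (v1 := (u, 0)) (v2 := ((0 : W), v)) (g := fa)
        (h := quad τ δ) (by rw [aeval_blockMap_inl, hu]; rfl) (hk ▸ hleft _) hcop
      exact ⟨w, e1, e2, e3⟩
    · rw [h1, h2, map_zero, zero_add, smul_zero, sub_zero] at hk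
      refine ⟨((0 : W), v), ?_, ⟨quad τ δ, hk⟩, ⟨1, by simp⟩⟩
      rw [aeval_mul_apply, hk, aeval_blockMap_inl, hu]
      rfl
  refine hasForm_of_cyclic (hfa.mul (quad_monic τ δ)) ?_ hw ?_
  · rw [finrank_prod, finrank_prod, finrank_self, hd, hfa.natDegree_mul (quad_monic τ δ), quad_natDegree]
  · rw [← LinearMap.range_eq_top, eq_top_iff]
    set R := LinearMap.range (orbit M w)
    have hstep : ∀ z ∈ R, ∀ a : F[X], aeval M a z ∈ R := by
      rintro _ ⟨c, rfl⟩ a
      exact ⟨a * c, aeval_mul_apply _ _ _ _⟩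
    have hl : ∀ x : W, ((x, 0) : W × (F × F)) ∈ R := fun x => by
      obtain ⟨a, ha⟩ := hleft x
      exact ha ▸ hstep _ hwu a
    have hr : ∀ y : F × F, ((0 : W), y) ∈ R := by
      intro y
      have : ⊤ ≤ R.comap (LinearMap.inr F W (F × F)) := by
        refine hv.trans (Submodule.span_le.2 ?_)
        rintro _ (rfl | rfl)
        · exact hwv
        · have e := R.sub_mem (hstep _ hwv X) (hl (Z v))
          show ((0 : W), C2 v) ∈ R
          simpa [M] using e
      exact this Submodule.mem_top
    rintro ⟨x, y⟩ -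
    simpa using R.add_mem (hl x) (hr y)

end glue

/-- A unipotent plane and a large block. -/
lemma comm_J_big (h2 : Fintype.card F = 2) {f : F[X]} (hf : f.Monic) (hf0 : f.coeff 0 ≠ 0)
    (hd : 3 ≤ f.natDegree) : CommForm ((X - C (1 : F)) ^ 2 ::ₘ {f}) := by
  obtain ⟨l, hl, hl'⟩ : ∃ l, f.natDegree = l + 1 + 1 ∧ 1 ≤ l := ⟨f.natDegree - 2, by omega, by omega⟩
  have e2 := add_self_zero h2
  have em : (-1 : F) = 1 := neg_eq_iff_add_eq_zero.2 e2
  have hQ := quad_irreducible_two h2
  set fT := (X - C (1 : F)) ^ l * quad 1 1 with hfT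
  set fM := (X - C (1 : F)) ^ (l + 2) with hfM
  have hTm : fT.Monic := ((monic_X_sub_C (1 : F)).pow l).mul (quad_monic 1 1)
  have hMm : fM.Monic := (monic_X_sub_C (1 : F)).pow _
  have hTd : fT.natDegree = f.natDegree := by
    rw [hfT, ((monic_X_sub_C (1 : F)).pow l).natDegree_mul (quad_monic 1 1), natDegree_pow, natDegree_X_sub_C,
      quad_natDegree, hl]
    ring
  have hMd : fM.natDegree = f.natDegree := by
    rw [hfM, natDegree_pow, natDegree_X_sub_C, hl]
    ring
  have H := realForm_chain_quad hf hf0 hl' hl one_ne_zero one_ne_zero hQ hMm (hMd.trans hl)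
    (by rw [hfM, sgn_pow_X_sub_C, eq_one_of_ne_zero h2 (sgn_ne_zero hf0)]; simp)
  obtain ⟨T, hT, hBT⟩ := H (cyc f) (xMap f) (hasForm_single (LinearEquiv.refl F _) fun _ => rfl)
  have hT' : HasForm (T : cyc f →ₗ[F] cyc f) {fT} :=
    (hasForm_mul_iff (coprime_of_irreducible hQ 1).pow_left 0).2 hT
  have : Module.Finite F (cyc f) := hf.finite_quotient
  obtain ⟨u, hu, hus⟩ := hT'.exists_generator
  obtain ⟨u', hu', hus'⟩ := hBT.exists_generator
  let B2 : F × F →ₗ[F] F × F := (LinearMap.snd F F F).prod (LinearMap.fst F F F)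
  let T2 : F × F →ₗ[F] F × F := (LinearMap.fst F F F + LinearMap.snd F F F).prod (LinearMap.snd F F F)
  let Z : F × F →ₗ[F] cyc f := (LinearMap.toSpanSingleton F (cyc f) u).comp (LinearMap.fst F F F)
  have sT : HasForm (blockMap (T : cyc f →ₗ[F] cyc f) Z T2) {fT * quad 0 1} := by
    refine hasForm_blockMap _ _ _ hTm (finrank_cyc.trans hTd.symm) hu hus ((0 : F), (1 : F)) ?_ ?_
      (Or.inr ⟨by simp [Z], by simp [Z, T2]⟩)
    · rintro ⟨a, b⟩ -
      refine Submodule.mem_span_pair.2 ⟨b - a, a, ?_⟩
      simp [T2]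
    · simp [T2, e2]
  have sM : HasForm (blockMap (xMap f ∘ₗ (T : cyc f →ₗ[F] cyc f)) (xMap f ∘ₗ Z) (B2 ∘ₗ T2))
      {fM * quad 1 1} := by
    refine hasForm_blockMap _ _ _ hMm (finrank_cyc.trans hMd.symm) hu' hus' ((1 : F), (0 : F)) ?_ ?_
      (Or.inl (coprime_of_irreducible hQ 1).pow_left)
    · rintro ⟨a, b⟩ -
      refine Submodule.mem_span_pair.2 ⟨a, b, ?_⟩
      simp [B2, T2]
    · simp [B2, T2, Prod.ext_iff, e2]
  have heq : fT * quad 0 1 = fM * quad 1 1 := by
    rw [hfT, hfM, show quad (0 : F) 1 = (X - C 1) ^ 2 by rw [← quad_square, two_mul, e2, one_pow], pow_add]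
    ring
  rw [heq] at sT
  have hdetT : LinearMap.det (blockMap (T : cyc f →ₗ[F] cyc f) Z T2) ≠ 0 := by
    rw [sT.det (by simpa using hMm.mul (quad_monic 1 1)), Multiset.map_singleton, Multiset.prod_singleton,
      sgn_mul hMm (quad_monic 1 1), hfM, sgn_pow_X_sub_C, sgn_quad]
    simp
  refine comm_of_real_two h2 (P := {fM * quad 1 1})
    (RealForm.of_model ((xMap f).prodMap B2) ?_ (LinearMap.equivOfDetNeZero _ hdetT) sT ?_)
  · rw [← Multiset.singleton_add, add_comm]
    refine (hasForm_single (T := xMap f) (LinearEquiv.refl F _) fun _ => rfl).prod ?_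
    have := hasForm_plane (Basis.finTwoProd F) B2 (x := 0) (y := 1) (p := 1) (r := 0) (by simp [B2]) (by simp [B2])
      (Or.inl one_ne_zero)
    rw [show ((X - C (1 : F)) ^ 2) = quad 0 1 by rw [← quad_square, two_mul, e2, one_pow]]
    simpa [em] using this
  · convert sM using 1
    refine LinearMap.ext fun z => ?_
    show ((xMap f).prodMap B2) (blockMap (T : cyc f →ₗ[F] cyc f) Z T2 z) = _
    simp [map_add]

/-- Every form over two elements. -/
theorem comm_two_elements (h2 : Fintype.card F = 2) {s : Multiset F[X]} (hs : PrimePow s)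
    (hn : 3 ≤ (s.map natDegree).sum) : CommForm s := by
  classical
  set J := (X - C (1 : F)) ^ 2 with hJ
  have hgood : ∀ t, PrimePow t → Good (t : Multiset F[X]) := fun t ht => ht.good
  have hJpow : J.coeff 0 ≠ 0 := coeff_pow_X_sub_C one_ne_zero 2
  have single : ∀ p ∈ s, p ≠ J → CommForm {p} := by
    intro p hp hne
    obtain ⟨hm, h0⟩ := hs.good p hp
    have hpos := hs.natDegree_pos p hp
    obtain ⟨r, k, hr, hri, hr0, hk, rfl⟩ := hs p hp
    rcases Nat.lt_or_ge (r ^ k).natDegree 3 with h | h
    · interval_cases hdeg : (r ^ k).natDegree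
      · exact comm_two_deg_one h2 hm h0 hdeg
      · rw [natDegree_pow] at hdeg
        have hrd := hri.natDegree_pos
        rcases Nat.lt_or_ge r.natDegree 2 with hr1 | hr2
        · exfalso
          have hr1' : r.natDegree = 1 := by omega
          rw [hr1', mul_one] at hdeg
          subst hdeg
          apply hne
          rw [hr.eq_X_add_C hr1', eq_one_of_ne_zero h2 hr0, hJ, sub_eq_add_neg, ← map_neg,
            neg_eq_iff_add_eq_zero.2 (add_self_zero h2)]
        · obtain rfl : k = 1 := by
            have : k * 2 ≤ k * r.natDegree := Nat.mul_le_mul_left k hr2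
            omega
          rw [pow_one]
          exact comm_two_quad h2 hr hri (by omega)
    · exact comm_two_big h2 hm h0 h
  have pure : ∀ t, t ≤ s → J ∉ t → CommForm t := by
    intro t
    induction t using Multiset.induction with
    | empty => exact fun _ _ => CommForm.zero
    | cons p t ih =>
      intro hle hJt
      rw [← Multiset.singleton_add]
      exact CommForm.add (hgood _ (hs.of_le (Multiset.singleton_le.2 (Multiset.mem_of_le hle (Multiset.mem_cons_self p t)))))
        (hgood _ (hs.of_le ((Multiset.le_cons_self _ _).trans hle)))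
        (single p (Multiset.mem_of_le hle (Multiset.mem_cons_self p t))
          (fun e => hJt (e ▸ Multiset.mem_cons_self p t)))
        (ih ((Multiset.le_cons_self _ _).trans hle) (fun h => hJt (Multiset.mem_cons_of_mem h)))
  have many : ∀ j, j ≠ 1 → CommForm (Multiset.replicate j J) := by
    intro j
    induction j using Nat.strong_induction_on with
    | _ j ih =>
      intro hj
      have g := fun i => good_replicate ((monic_X_sub_C (1 : F)).pow 2) hJpow i
      match j, hj with
      | 0, _ => exact CommForm.zero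
      | 2, _ => exact comm_J_pair h2
      | 3, _ => exact comm_J_triple h2
      | k + 4, _ =>
        rw [show k + 4 = 2 + (k + 2) by omega, Multiset.replicate_add]
        exact CommForm.add (g 2) (g (k + 2)) (comm_J_pair h2) (ih (k + 2) (by omega) (by omega))
  have hsplit : s = Multiset.replicate (s.count J) J + s.filter (· ≠ J) := by
    conv_lhs => rw [← Multiset.filter_add_not (p := fun x => x = J) s]
    rw [Multiset.filter_eq']
  set t := s.filter (· ≠ J) with ht
  have htle : t ≤ s := Multiset.filter_le _ _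
  have htJ : J ∉ t := fun h => (Multiset.mem_filter.1 h).2 rfl
  by_cases hj : s.count J = 1
  · rcases Multiset.empty_or_exists_mem t with h0 | ⟨p, hp⟩
    · exfalso
      rw [hsplit, hj, h0, add_zero, Multiset.replicate_one, Multiset.map_singleton, Multiset.sum_singleton,
        hJ, natDegree_pow, natDegree_X_sub_C] at hn
      omega
    obtain ⟨t', ht'⟩ := Multiset.exists_cons_of_mem hp
    have hps : p ∈ s := Multiset.mem_of_le htle hp
    obtain ⟨hm, h0⟩ := hs.good p hps
    have piece : CommForm (J ::ₘ {p}) := by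
      rcases Nat.lt_or_ge p.natDegree 3 with h | h
      · obtain ⟨r, k, hr, hri, hr0, hk, rfl⟩ := hs p hps
        have hpj : r ^ k ≠ J := fun e => htJ (e ▸ hp)
        rcases Nat.lt_or_ge r.natDegree 2 with hr1 | hr2
        · have hr1' : r.natDegree = 1 := by have := hri.natDegree_pos; omega
          have hrX : r = X - C (1 : F) := by
            rw [hr.eq_X_add_C hr1', eq_one_of_ne_zero h2 hr0, sub_eq_add_neg, ← map_neg,
              neg_eq_iff_add_eq_zero.2 (add_self_zero h2)]
          subst hrX
          rw [natDegree_pow, natDegree_X_sub_C, mul_one] at h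
          interval_cases k
          · rw [pow_one]; exact comm_J_line h2
          · exact absurd rfl hpj
        · have hcop : IsCoprime J (r ^ k) := by
            refine IsCoprime.pow ((irreducible_X_sub_C (1 : F)).coprime_iff_not_dvd.2 fun hd => ?_)
            have := congrArg natDegree
              (eq_of_monic_of_associated hr (monic_X_sub_C 1) ((irreducible_X_sub_C 1).associated_of_dvd hri hd).symm)
            rw [natDegree_X_sub_C] at this
            omega
          refine CommForm.split hcop (comm_two_big h2 (((monic_X_sub_C 1).pow 2).mul hm) ?_ ?_)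
          · rw [mul_coeff_zero]; exact mul_ne_zero hJpow h0
          · rw [((monic_X_sub_C 1).pow 2).natDegree_mul hm, natDegree_pow, natDegree_X_sub_C]
            have := hs.natDegree_pos _ hps
            omega
      · exact comm_J_big h2 hm h0 h
    rw [hsplit, hj, Multiset.replicate_one, ht', ← Multiset.singleton_add p, ← add_assoc, Multiset.singleton_add J {p}]
    have hle' : t' ≤ s := (Multiset.le_cons_self _ _).trans (ht' ▸ htle)
    exact CommForm.add (good_cons ((monic_X_sub_C 1).pow 2) hJpow (good_singleton hm h0)) (hs.of_le hle').good piece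
      (pure t' hle' (fun h => htJ (ht' ▸ Multiset.mem_cons_of_mem h)))
  · rw [hsplit]
    exact CommForm.add (good_replicate ((monic_X_sub_C 1).pow 2) hJpow _) (hs.of_le htle).good (many _ hj)
      (pure t htle htJ)

end CfsgLib.SLCommutator
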