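import Cfsg.Agent.SLCommutator.Leaves

/-!
Chains of blocks joined along eigenvalues.
-/

set_option autoImplicit false

namespace CfsgLib.SLCommutator

open Polynomial Module CfsgLib.SLClassCount

universe u

variable {F : Type u} [Field F]

lemma good_cons {p : F[X]} {s : Multiset F[X]} (hp : p.Monic) (h0 : p.coeff 0 ≠ 0) (hs : Good s) :
    Good (p ::ₘ s) :=
  fun r hr => (Multiset.mem_cons.1 hr).elim (fun h => h ▸ ⟨hp, h0⟩) (hs r)

lemma good_singleton {p : F[X]} (hp : p.Monic) (h0 : p.coeff 0 ≠ 0) : Good ({p} : Multiset F[X]) :=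
  good_cons hp h0 fun _ h => absurd h (Multiset.notMem_zero _)

lemma coeff_pow_X_sub_C {c : F} (hc : c ≠ 0) (k : ℕ) : ((X - C c) ^ k).coeff 0 ≠ 0 := by
  rw [coeff_zero_eq_eval_zero]; simp [hc]

lemma good_linear {c : F} (hc : c ≠ 0) (k : ℕ) : Good ({(X - C c) ^ k} : Multiset F[X]) :=
  good_singleton ((monic_X_sub_C c).pow k) (coeff_pow_X_sub_C hc k)

lemma good_quad {τ δ : F} (hδ : δ ≠ 0) : Good ({quad τ δ} : Multiset F[X]) :=
  good_singleton (quad_monic τ δ) (by simpa [quad] using hδ)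

lemma coprime_linear {a b : F} (h : a ≠ b) (k : ℕ) : IsCoprime ((X - C a) ^ k) (X - C b) :=
  (isCoprime_X_sub_C_of_isUnit_sub (sub_ne_zero.2 h).isUnit).pow_left

/-- A pair of forms which only moves one eigenvalue. -/
def Bridge (s E : Multiset F[X]) (c c' : F) : Prop :=
  RealForm s ((X - C c) ::ₘ E) ((X - C c') ::ₘ E)

lemma Bridge.trans {s t E E' : Multiset F[X]} {c c' c'' : F} (h : Bridge s E c c')
    (h' : Bridge t E' c' c'') : Bridge (s + t) ((X - C c') ::ₘ (E + E')) c c'' := by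
  have := RealForm.add h h'
  unfold Bridge
  have e1 : (X - C c) ::ₘ (X - C c') ::ₘ (E + E') = ((X - C c) ::ₘ E) + ((X - C c') ::ₘ E') := by
    simp only [← Multiset.singleton_add]; abel
  have e2 : (X - C c'') ::ₘ (X - C c') ::ₘ (E + E') = ((X - C c') ::ₘ E) + ((X - C c'') ::ₘ E') := by
    simp only [← Multiset.singleton_add]; abel
  rwa [e1, e2]

lemma bridge_leaf {f : F[X]} (hf : f.Monic) (hf0 : f.coeff 0 ≠ 0) {l : ℕ} (hd : f.natDegree = l + 1)
    {e c : F} (he : e ≠ 0) (hc : c ≠ 0) (hl : l = 0 ∨ (e ≠ c ∧ e ≠ sgn f * c)) :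
    Bridge {f} {(X - C e) ^ l} c (sgn f * c) := by
  have h1 : IsCoprime ((X - C e) ^ l) (X - C c) := by
    rcases hl with rfl | h
    · rw [pow_zero]; exact isCoprime_one_left
    · exact coprime_linear h.1 l
  have h2 : IsCoprime ((X - C e) ^ l) (X - C (sgn f * c)) := by
    rcases hl with rfl | h
    · rw [pow_zero]; exact isCoprime_one_left
    · exact coprime_linear h.2 l
  have H := realForm_chain_linear hf hf0 hd he hc h1
    (f' := (X - C e) ^ l * (X - C (sgn f * c))) (((monic_X_sub_C e).pow l).mul (monic_X_sub_C _))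
    (by rw [((monic_X_sub_C e).pow l).natDegree_mul (monic_X_sub_C _), natDegree_pow, natDegree_X_sub_C,
      natDegree_X_sub_C]; ring)
    (by rw [sgn_mul ((monic_X_sub_C e).pow l) (monic_X_sub_C _), sgn_pow_X_sub_C, sgn_X_sub_C]; ring)
  have H' : RealForm {f} ((X - C e) ^ l ::ₘ {X - C c})
      ((X - C e) ^ l ::ₘ (X - C (sgn f * c)) ::ₘ 0) := H.split_right h2
  unfold Bridge
  have e1 : ∀ p : F[X], p ::ₘ {(X - C e) ^ l} = (X - C e) ^ l ::ₘ p ::ₘ 0 := fun p => Multiset.cons_swap _ _ _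
  rw [e1, e1]
  exact H'

lemma bridge_absorber {f : F[X]} (hf : f.Monic) (hf0 : f.coeff 0 ≠ 0) {k : ℕ}
    (hd : f.natDegree = k + 1 + 1 + 1) {e c τ δ : F} (he : e ≠ 0) (hc : c ≠ 0) (hδ : δ ≠ 0)
    (hQ : Irreducible (quad τ δ)) (hec : k = 0 ∨ e ≠ sgn f * c) :
    Bridge {f} ((X - C e) ^ k ::ₘ {quad τ δ}) c (sgn f * c) := by
  have h1 : IsCoprime ((X - C e) ^ k) ((X - C (sgn f * c)) * quad τ δ) := by
    refine IsCoprime.mul_right ?_ (coprime_of_irreducible hQ e).pow_left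
    rcases hec with rfl | h
    · rw [pow_zero]; exact isCoprime_one_left
    · exact coprime_linear h k
  have h2 : IsCoprime (X - C (sgn f * c)) (quad τ δ) := coprime_of_irreducible hQ _
  have hm := (monic_X_sub_C (sgn f * c)).mul (quad_monic τ δ)
  have H := realForm_chain_linear_quad hf hf0 hd he hc hδ hQ
    (f' := (X - C e) ^ k * ((X - C (sgn f * c)) * quad τ δ)) (((monic_X_sub_C e).pow k).mul hm)
    (by rw [((monic_X_sub_C e).pow k).natDegree_mul hm, (monic_X_sub_C _).natDegree_mul (quad_monic τ δ),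
          natDegree_pow, natDegree_X_sub_C, natDegree_X_sub_C, quad_natDegree]
        ring)
    (by rw [sgn_mul ((monic_X_sub_C e).pow k) hm, sgn_mul (monic_X_sub_C _) (quad_monic τ δ),
          sgn_pow_X_sub_C, sgn_X_sub_C, sgn_quad]
        ring)
  have H' : RealForm {f} ((X - C e) ^ k ::ₘ (X - C c) ::ₘ {quad τ δ})
      (((X - C (sgn f * c)) * quad τ δ) ::ₘ (X - C e) ^ k ::ₘ 0) :=
    Multiset.cons_swap ((X - C e) ^ k) _ 0 ▸ H.split_right h1
  have H'' := H'.split_right h2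
  unfold Bridge
  have e1 : (X - C c) ::ₘ (X - C e) ^ k ::ₘ {quad τ δ} =
      (X - C e) ^ k ::ₘ (X - C c) ::ₘ {quad τ δ} := Multiset.cons_swap _ _ _
  have e2 : (X - C (sgn f * c)) ::ₘ (X - C e) ^ k ::ₘ {quad τ δ} =
      (X - C (sgn f * c)) ::ₘ quad τ δ ::ₘ (X - C e) ^ k ::ₘ 0 := by
    simp only [← Multiset.singleton_add, add_zero]; abel
  rw [e1, e2]
  exact H''

section finite

variable [Fintype F]

lemma exists_avoid_four (h : 6 ≤ Fintype.card F) (a b c d : F) :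
    ∃ e : F, e ≠ 0 ∧ e ≠ a ∧ e ≠ b ∧ e ≠ c ∧ e ≠ d := by
  classical
  have h1 : ({0, a, b, c, d} : Finset F).card < Fintype.card F := Finset.card_le_five.trans_lt (by omega)
  obtain ⟨e, he⟩ : ∃ e, e ∉ ({0, a, b, c, d} : Finset F) := by
    by_contra hh
    simp only [not_exists, not_not] at hh
    rw [Finset.eq_univ_of_forall hh, Finset.card_univ] at h1
    exact lt_irrefl _ h1
  simp only [Finset.mem_insert, Finset.mem_singleton, not_or] at he
  exact ⟨e, he⟩

lemma exists_avoid_two (h : 4 ≤ Fintype.card F) (a b : F) : ∃ e : F, e ≠ 0 ∧ e ≠ a ∧ e ≠ b := by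
  classical
  have h1 : ({0, a, b} : Finset F).card < Fintype.card F := Finset.card_le_three.trans_lt (by omega)
  obtain ⟨e, he⟩ : ∃ e, e ∉ ({0, a, b} : Finset F) := by
    by_contra hh
    simp only [not_exists, not_not] at hh
    rw [Finset.eq_univ_of_forall hh, Finset.card_univ] at h1
    exact lt_irrefl _ h1
  simp only [Finset.mem_insert, Finset.mem_singleton, not_or] at he
  exact ⟨e, he⟩

/-- An irreducible quadratic of every norm. -/
lemma exists_irreducible_quad {δ : F} (hδ : δ ≠ 0) : ∃ τ : F, Irreducible (quad τ δ) := by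
  classical
  obtain ⟨τ, hτ⟩ : ∃ τ : F, ∀ r : F, r ≠ 0 → r + δ / r ≠ τ := by
    by_contra hh
    simp only [not_exists, not_forall, not_not] at hh
    have hs : Function.Surjective fun r : {r : F // r ≠ 0} => (r : F) + δ / r := fun τ => by
      obtain ⟨r, hr, e⟩ := hh τ
      exact ⟨⟨r, hr⟩, e⟩
    have := Fintype.card_le_of_surjective _ hs
    have := Fintype.card_subtype_lt (p := fun r : F => r ≠ 0) (x := 0) (by simp)
    omega
  refine ⟨τ, (Monic.irreducible_iff_roots_eq_zero_of_degree_le_three (quad_monic τ δ) ?_ ?_).2 ?_⟩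
  · rw [quad_natDegree]
  · rw [quad_natDegree]; norm_num
  · refine Multiset.eq_zero_of_forall_notMem fun r hr => ?_
    rw [mem_roots (quad_monic τ δ).ne_zero, IsRoot] at hr
    simp [quad] at hr
    have hr0 : r ≠ 0 := fun h => hδ (by simpa [h] using hr)
    refine hτ r hr0 ?_
    field_simp
    linear_combination hr

lemma exists_bridge_big (h4 : 4 ≤ Fintype.card F) {f : F[X]} (hf : f.Monic) (hf0 : f.coeff 0 ≠ 0)
    (hd : 3 ≤ f.natDegree) :
    ∀ (rest : Multiset F[X]), Good rest → (∀ p ∈ rest, 1 ≤ p.natDegree) → ∀ c a : F, c ≠ 0 → a ≠ 0 →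
      ∃ E, Good E ∧ (E.map sgn).prod = a ∧ Bridge (f ::ₘ rest) E c (((f ::ₘ rest).map sgn).prod * c) := by
  intro rest
  induction rest using Multiset.induction with
  | empty =>
    intro _ _ c a hc ha
    obtain ⟨k, hk⟩ : ∃ k, f.natDegree = k + 1 + 1 + 1 := ⟨f.natDegree - 3, by omega⟩
    obtain ⟨e, he, he1, -⟩ := exists_avoid_two h4 (sgn f * c) 0
    have hδ : a / e ^ k ≠ 0 := div_ne_zero ha (pow_ne_zero _ he)
    obtain ⟨τ, hτ⟩ := exists_irreducible_quad hδ
    refine ⟨(X - C e) ^ k ::ₘ {quad τ (a / e ^ k)},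
      good_cons ((monic_X_sub_C e).pow k) (coeff_pow_X_sub_C he k) (good_quad hδ), ?_, ?_⟩
    · rw [Multiset.map_cons, Multiset.map_singleton, Multiset.prod_cons, Multiset.prod_singleton,
        sgn_pow_X_sub_C, sgn_quad, mul_div_cancel₀ _ (pow_ne_zero _ he)]
    · simpa using bridge_absorber hf hf0 hk he hc hδ hτ (Or.inr he1)
  | cons g rest ih =>
    intro hgood hdeg c a hc ha
    obtain ⟨hg, hg0⟩ := hgood g (Multiset.mem_cons_self g rest)
    obtain ⟨l, hl⟩ : ∃ l, g.natDegree = l + 1 :=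
      ⟨g.natDegree - 1, by have := hdeg g (Multiset.mem_cons_self g rest); omega⟩
    obtain ⟨e, he, he1, he2⟩ := exists_avoid_two h4 c (sgn g * c)
    have hc' : sgn g * c ≠ 0 := mul_ne_zero (sgn_ne_zero hg0) hc
    have hne : sgn g * c * e ^ l ≠ 0 := mul_ne_zero hc' (pow_ne_zero _ he)
    obtain ⟨E, hE, hEs, hEb⟩ := ih (hgood.of_le (Multiset.le_cons_self _ _))
      (fun p hp => hdeg p (Multiset.mem_cons_of_mem hp)) (sgn g * c) (a / (sgn g * c * e ^ l)) hc'
      (div_ne_zero ha hne)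
    refine ⟨(X - C (sgn g * c)) ::ₘ ({(X - C e) ^ l} + E), ?_, ?_, ?_⟩
    · exact good_cons (monic_X_sub_C _) (by simpa using coeff_pow_X_sub_C hc' 1) ((good_linear he l).add hE)
    · rw [Multiset.map_cons, Multiset.map_add, Multiset.map_singleton, Multiset.prod_cons, Multiset.prod_add,
        Multiset.prod_singleton, sgn_X_sub_C, sgn_pow_X_sub_C, hEs, ← mul_assoc, mul_div_cancel₀ _ hne]
    · have h := (bridge_leaf hg hg0 hl he hc (Or.inr ⟨he1, he2⟩)).trans hEb
      rw [Multiset.singleton_add, Multiset.cons_swap] at h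
      convert h using 1
      simp only [Multiset.map_cons, Multiset.prod_cons]
      ring

/-- A member of degree at least three suffices. -/
lemma comm_of_big (h4 : 4 ≤ Fintype.card F) {f : F[X]} {rest : Multiset F[X]} (hs : Good (f ::ₘ rest))
    (hdeg : ∀ p ∈ rest, 1 ≤ p.natDegree) (hd : 3 ≤ f.natDegree) (hdet : ((f ::ₘ rest).map sgn).prod = 1) :
    CommForm (f ::ₘ rest) := by
  obtain ⟨hf, hf0⟩ := hs f (Multiset.mem_cons_self f rest)
  obtain ⟨E, hE, hEs, hEb⟩ := exists_bridge_big h4 hf hf0 hd rest (hs.of_le (Multiset.le_cons_self _ _)) hdeg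
    1 1 one_ne_zero one_ne_zero
  rw [hdet, one_mul] at hEb
  refine RealForm.comm hEb (good_cons (monic_X_sub_C 1) (by simp) hE) ?_ (Multiset.mem_cons_self _ _)
    (irreducible_X_sub_C 1)
  rw [Multiset.map_cons, Multiset.prod_cons, sgn_X_sub_C, hEs, one_mul]

end finite

/-- A chain of blocks. -/
lemma exists_bridge_chain (g : ℕ → F[X]) (e : ℕ → F) (cs : ℕ → F) (m : ℕ)
    (hg : ∀ i ≤ m, (g i).Monic ∧ (g i).coeff 0 ≠ 0 ∧ 1 ≤ (g i).natDegree) (he : ∀ i ≤ m, e i ≠ 0)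
    (hc : cs 0 ≠ 0) (hcs : ∀ i ≤ m, cs (i + 1) = sgn (g i) * cs i)
    (hne : ∀ i ≤ m, (g i).natDegree = 1 ∨ (e i ≠ cs i ∧ e i ≠ cs (i + 1))) :
    ∃ E, Good E ∧ cs 0 * (E.map sgn).prod =
        ∏ i ∈ Finset.range (m + 1), (cs i * e i ^ ((g i).natDegree - 1)) ∧
      cs (m + 1) ≠ 0 ∧ Bridge ((Multiset.range (m + 1)).map g) E (cs 0) (cs (m + 1)) := by
  induction m with
  | zero =>
    obtain ⟨h1, h2, h3⟩ := hg 0 le_rfl
    obtain ⟨l, hl⟩ : ∃ l, (g 0).natDegree = l + 1 := ⟨(g 0).natDegree - 1, by omega⟩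
    have hb := bridge_leaf h1 h2 hl (he 0 le_rfl) hc (by
      rcases hne 0 le_rfl with h | h
      · exact Or.inl (by omega)
      · exact Or.inr ⟨h.1, hcs 0 le_rfl ▸ h.2⟩)
    rw [← hcs 0 le_rfl] at hb
    refine ⟨_, good_linear (he 0 le_rfl) l, ?_, hcs 0 le_rfl ▸ mul_ne_zero (sgn_ne_zero h2) hc, by simpa using hb⟩
    simp [sgn_pow_X_sub_C, hl]
  | succ m ih =>
    obtain ⟨E, hE, hEs, hc', hEb⟩ := ih (fun i hi => hg i (by omega)) (fun i hi => he i (by omega))
      (fun i hi => hcs i (by omega)) (fun i hi => hne i (by omega))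
    obtain ⟨h1, h2, h3⟩ := hg (m + 1) le_rfl
    obtain ⟨l, hl⟩ : ∃ l, (g (m + 1)).natDegree = l + 1 := ⟨(g (m + 1)).natDegree - 1, by omega⟩
    have hb := bridge_leaf h1 h2 hl (he _ le_rfl) hc' (by
      rcases hne _ le_rfl with h | h
      · exact Or.inl (by omega)
      · exact Or.inr ⟨h.1, hcs _ le_rfl ▸ h.2⟩)
    rw [← hcs _ le_rfl] at hb
    refine ⟨_, good_cons (monic_X_sub_C (cs (m + 1))) (by simpa using coeff_pow_X_sub_C hc' 1)
      (hE.add (good_linear (he _ le_rfl) l)), ?_, hcs _ le_rfl ▸ mul_ne_zero (sgn_ne_zero h2) hc', ?_⟩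
    · rw [Multiset.map_cons, Multiset.map_add, Multiset.map_singleton, Multiset.prod_cons, Multiset.prod_add,
        Multiset.prod_singleton, sgn_X_sub_C, sgn_pow_X_sub_C, Finset.prod_range_succ, ← hEs, hl,
        Nat.add_sub_cancel]
      ring
    · have h := hEb.trans hb
      rw [Multiset.range_succ (m + 1), Multiset.map_cons, ← Multiset.singleton_add, add_comm]
      exact h

lemma comm_chain [Finite F] (g : ℕ → F[X]) (e : ℕ → F) (cs : ℕ → F) (m : ℕ)
    (hg : ∀ i ≤ m, (g i).Monic ∧ (g i).coeff 0 ≠ 0 ∧ 1 ≤ (g i).natDegree) (he : ∀ i ≤ m, e i ≠ 0)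
    (hc : cs 0 ≠ 0) (hcs : ∀ i ≤ m, cs (i + 1) = sgn (g i) * cs i)
    (hne : ∀ i ≤ m, (g i).natDegree = 1 ∨ (e i ≠ cs i ∧ e i ≠ cs (i + 1)))
    (hclose : cs (m + 1) = cs 0)
    (hdet : ∏ i ∈ Finset.range (m + 1), (cs i * e i ^ ((g i).natDegree - 1)) = 1) :
    CommForm ((Multiset.range (m + 1)).map g) := by
  obtain ⟨E, hE, hEs, -, hEb⟩ := exists_bridge_chain g e cs m hg he hc hcs hne
  rw [hclose] at hEb
  refine RealForm.comm hEb (good_cons (monic_X_sub_C _) (by simpa using coeff_pow_X_sub_C hc 1) hE) ?_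
    (Multiset.mem_cons_self _ _) (irreducible_X_sub_C _)
  rw [Multiset.map_cons, Multiset.prod_cons, sgn_X_sub_C, hEs, hdet]

end CfsgLib.SLCommutator
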