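import Cfsg.Agent.SLCommutator.Real
import Mathlib.RingTheory.Trace.Basic

/-!
Cyclic maps with given almost triangular images.
-/

set_option autoImplicit false

namespace CfsgLib.SLCommutator

open Polynomial Module CfsgLib.SLClassCount

universe u v

variable {F : Type u} [Field F]
variable {V : Type v} [AddCommGroup V] [Module F V]

lemma trace_xMap {f : F[X]} (hf : f.Monic) (hd : 0 < f.natDegree) :
    LinearMap.trace F (cyc f) (xMap f) = -f.coeff (f.natDegree - 1) := by
  have : Nontrivial (AdjoinRoot f) := AdjoinRoot.nontrivial f (fun h => by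
    have := natDegree_eq_zero_iff_degree_le_zero.2 h.le
    omega)
  have h := PowerBasis.trace_gen_eq_nextCoeff_minpoly (AdjoinRoot.powerBasis hf.ne_zero)
  rw [AdjoinRoot.minpoly_powerBasis_gen_of_monic hf, Algebra.trace_apply, nextCoeff_of_natDegree_pos hd] at h
  rw [← h]
  congr 1

lemma HasForm.trace {T : V →ₗ[F] V} {f : F[X]} (hT : HasForm T {f}) (hf : f.Monic) (hd : 0 < f.natDegree) :
    LinearMap.trace F V T = -f.coeff (f.natDegree - 1) := by
  obtain ⟨e, he⟩ := hT.similar (hasForm_single (T := xMap f) (LinearEquiv.refl F _) fun _ => rfl)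
  have h : xMap f = e.conj T := by
    refine LinearMap.ext fun x => ?_
    rw [LinearEquiv.conj_apply_apply, he, LinearEquiv.apply_symm_apply]
  rw [← trace_xMap hf hd, h, LinearMap.trace_conj']

/-- A cyclic map with prescribed images of all but the last basis vector. -/
lemma exists_companion_ext {n : ℕ} (b : Basis (Fin (n + 1)) F V) (φ : Fin n → V) (c : Fin n → F)
    (hc : ∀ j, c j ≠ 0)
    (hφ : ∀ j : Fin n, φ j - c j • b j.succ ∈ Submodule.span F (b '' {i | i ≤ j.castSucc}))
    {f : F[X]} (hf : f.Monic) (hd : f.natDegree = n + 1) :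
    ∃ M : V →ₗ[F] V, (∀ j : Fin n, M (b j.castSucc) = φ j) ∧ HasForm M {f} := by
  classical
  have : Module.Finite F V := Module.Finite.of_basis b
  have hdimV : finrank F V = n + 1 := by rw [finrank_eq_card_basis b, Fintype.card_fin]
  let M₀ : V →ₗ[F] V := b.constr F (Fin.snoc φ 0)
  have hM₀ : ∀ j : Fin n, M₀ (b j.castSucc) = φ j := fun j => by simp [M₀, Fin.snoc_castSucc]
  let O := orbit M₀ (b 0)
  let S : ℕ → Submodule F V := fun k => (degreeLT F (k + 1)).map O
  have hmono : ∀ k, S k ≤ S (k + 1) := fun k => Submodule.map_mono (fun a ha => by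
    rw [mem_degreeLT] at ha ⊢
    exact ha.trans_le (by exact_mod_cast Nat.le_succ _))
  have hstep : ∀ k, ∀ x ∈ S k, M₀ x ∈ S (k + 1) := by
    rintro k _ ⟨a, ha, rfl⟩
    refine ⟨X * a, ?_, ?_⟩
    · rw [SetLike.mem_coe, mem_degreeLT] at ha ⊢
      rcases eq_or_ne a 0 with rfl | h0
      · simp
      rw [degree_mul, degree_X, degree_eq_natDegree h0]
      rw [degree_eq_natDegree h0] at ha
      have : a.natDegree < k + 1 := by exact_mod_cast ha
      exact_mod_cast (by omega : 1 + a.natDegree < k + 1 + 1)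
    · show orbit M₀ (b 0) (X * a) = M₀ (orbit M₀ (b 0) a)
      rw [orbit_apply, orbit_apply, map_mul, aeval_X]
      rfl
  have hb : ∀ k, ∀ i : Fin (n + 1), (i : ℕ) ≤ k → b i ∈ S k := by
    intro k
    induction k with
    | zero =>
      intro i hi
      obtain rfl : i = 0 := Fin.ext (Nat.le_zero.1 hi)
      exact ⟨1, by rw [SetLike.mem_coe, mem_degreeLT, degree_one]; exact_mod_cast Nat.one_pos,
        by simp [O]⟩
    | succ k ih =>
      intro i hi
      rcases Nat.lt_or_ge (i : ℕ) (k + 1) with h | h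
      · exact hmono k (ih i (by omega))
      have hk : k < n := by have := i.isLt; omega
      obtain rfl : i = (⟨k, hk⟩ : Fin n).succ := Fin.ext (by simp; omega)
      have h1 : φ ⟨k, hk⟩ ∈ S (k + 1) := hM₀ ⟨k, hk⟩ ▸ hstep k _ (ih _ le_rfl)
      have h2 : φ ⟨k, hk⟩ - c ⟨k, hk⟩ • b (⟨k, hk⟩ : Fin n).succ ∈ S (k + 1) := by
        refine Submodule.span_le.2 ?_ (hφ ⟨k, hk⟩)
        rintro _ ⟨l, hl, rfl⟩
        exact hmono k (ih l hl)
      exact ((S (k + 1)).smul_mem_iff (hc ⟨k, hk⟩)).1 (by simpa using sub_mem h1 h2)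
  let R : degreeLT F (n + 1) →ₗ[F] V := O.comp (degreeLT F (n + 1)).subtype
  have : FiniteDimensional F (degreeLT F (n + 1)) :=
    Module.Finite.equiv (degreeLTEquiv F (n + 1)).symm
  have hdimR : finrank F (degreeLT F (n + 1)) = n + 1 := by
    rw [(degreeLTEquiv F (n + 1)).finrank_eq, finrank_fintype_fun_eq_card, Fintype.card_fin]
  have hRs : Function.Surjective R := by
    rw [← LinearMap.range_eq_top, eq_top_iff, ← b.span_eq, Submodule.span_le]
    rintro _ ⟨i, rfl⟩
    obtain ⟨a, ha, hax⟩ := hb n i (by have := i.isLt; omega)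
    exact ⟨⟨a, ha⟩, hax⟩
  have hRb : Function.Bijective R := ⟨(LinearMap.injective_iff_surjective_of_finrank_eq_finrank
    (hdimR.trans hdimV.symm)).2 hRs, hRs⟩
  let Q : degreeLT F (n + 1) →ₗ[F] cyc f :=
    ((Submodule.mkQ (Submodule.span F[X] ({f} : Set F[X]))).restrictScalars F).comp
      (degreeLT F (n + 1)).subtype
  have : Module.Finite F (cyc f) := hf.finite_quotient
  have hQi : Function.Injective Q := by
    rw [injective_iff_map_eq_zero]
    rintro ⟨a, ha⟩ h0
    have hdvd : f ∣ a := Ideal.mem_span_singleton.1 ((Submodule.Quotient.mk_eq_zero _).1 h0)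
    rw [mem_degreeLT] at ha
    refine Subtype.ext (eq_zero_of_dvd_of_degree_lt hdvd ?_)
    rw [degree_eq_natDegree hf.ne_zero, hd]
    exact_mod_cast ha
  have hQb : Function.Bijective Q := ⟨hQi, (LinearMap.injective_iff_surjective_of_finrank_eq_finrank
    (hdimR.trans (by rw [finrank_cyc, hd]))).1 hQi⟩
  let L : V ≃ₗ[F] cyc f := (LinearEquiv.ofBijective R hRb).symm.trans (LinearEquiv.ofBijective Q hQb)
  have hL : ∀ (a : F[X]) (ha : a ∈ degreeLT F (n + 1)), L (O a) = Submodule.Quotient.mk a := fun a ha => by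
    have : (LinearEquiv.ofBijective R hRb).symm (O a) = ⟨a, ha⟩ :=
      (LinearEquiv.symm_apply_eq _).2 rfl
    show (LinearEquiv.ofBijective Q hQb) ((LinearEquiv.ofBijective R hRb).symm (O a)) = _
    rw [this]
    rfl
  refine ⟨L.symm.toLinearMap ∘ₗ xMap f ∘ₗ L.toLinearMap, fun j => ?_, hasForm_single L fun x => ?_⟩
  · obtain ⟨a, ha, hax⟩ := hb j j.castSucc le_rfl
    have hXa : X * a ∈ degreeLT F (n + 1) := by
      rw [SetLike.mem_coe, mem_degreeLT] at ha
      rw [mem_degreeLT]
      rcases eq_or_ne a 0 with rfl | h0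
      · simp
      rw [degree_mul, degree_X, degree_eq_natDegree h0]
      rw [degree_eq_natDegree h0] at ha
      have h1 : a.natDegree < (j : ℕ) + 1 := by exact_mod_cast ha
      exact_mod_cast (by have := j.isLt; omega : 1 + a.natDegree < n + 1)
    have ha1 : a ∈ degreeLT F (n + 1) :=
      degreeLT_mono (by have := j.isLt; omega : (j : ℕ) + 1 ≤ n + 1) ha
    show L.symm (xMap f (L (b j.castSucc))) = φ j
    rw [← hax, hL a ha1, LinearEquiv.symm_apply_eq, ← hM₀ j, ← hax]
    show (X : F[X]) • (Submodule.Quotient.mk a : cyc f) = _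
    rw [← Submodule.Quotient.mk_smul, smul_eq_mul, show M₀ (O a) = O (X * a) by
      show M₀ (aeval M₀ a (b 0)) = aeval M₀ (X * a) (b 0)
      rw [map_mul, aeval_X]; rfl, hL _ hXa]
  · simp [LinearEquiv.apply_symm_apply]
    rfl

end CfsgLib.SLCommutator
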