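import Cfsg.Agent.SLClassCount.Realise

/-!
Cyclic forms of linear maps, as multisets of polynomials.
-/

set_option autoImplicit false

namespace CfsgLib.SLCommutator

open Polynomial Module CfsgLib.SLClassCount

universe u v

variable {F : Type u} [Field F]
variable {V : Type v} [AddCommGroup V] [Module F V]
variable {W : Type*} [AddCommGroup W] [Module F W]

/-- The signed constant term: the determinant of a cyclic map. -/
noncomputable abbrev sgn (h : F[X]) : F := CfsgLib.SLClassCount.sgnConst h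

/-- A sum of cyclic modules. -/
abbrev CycPi {ι : Type} (h : ι → F[X]) : Type u := (i : ι) → cyc (h i)

/-- Multiplication by `X` on a sum of cyclic modules. -/
noncomputable def xCyc {ι : Type} (h : ι → F[X]) : CycPi h →ₗ[F] CycPi h :=
  (LinearMap.lsmul F[X] (CycPi h) X).restrictScalars F

/-- `T` is a sum of cyclic maps with the polynomials `s`. -/
def HasForm (T : V →ₗ[F] V) (s : Multiset F[X]) : Prop :=
  ∃ (k : ℕ) (h : Fin k → F[X]), (Finset.univ : Finset (Fin k)).val.map h = s ∧
    ∃ e : V ≃ₗ[F] CycPi h, ∀ x, e (T x) = (X : F[X]) • e x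

/-- Equal multisets give equivalent sums. -/
lemma exists_reindex {ι κ : Type} [Fintype ι] [Fintype κ] (h : ι → F[X]) (h' : κ → F[X])
    (e : (Finset.univ : Finset ι).val.map h = (Finset.univ : Finset κ).val.map h') :
    Nonempty (CycPi h ≃ₗ[F[X]] CycPi h') := by
  classical
  have hcard : ∀ c, Fintype.card {i // h i = c} = Fintype.card {j // h' j = c} := by
    intro c
    have := congrArg (Multiset.count c) e
    rw [Multiset.count_map, Multiset.count_map, ← Finset.filter_val, ← Finset.filter_val] at this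
    simp only [Fintype.card_subtype]
    simp only [Finset.card_val] at this
    convert this using 2 <;> (ext; simp [eq_comm])
  let π : ι ≃ κ := Equiv.ofFiberEquiv (f := h) (g := h') fun c => Fintype.equivOfCardEq (hcard c)
  have hπ : ∀ i, h' (π i) = h i := fun i => Equiv.ofFiberEquiv_map _ i
  exact ⟨(LinearEquiv.piCongrRight fun i => Submodule.quotEquivOfEq _ _ (by rw [hπ i])).trans
    (LinearEquiv.piCongrLeft F[X] (fun j => cyc (h' j)) π)⟩

/-- A form from any finite index type. -/
lemma HasForm.mk {T : V →ₗ[F] V} {ι : Type} [Fintype ι] (h : ι → F[X]) (e : V ≃ₗ[F] CycPi h)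
    (he : ∀ x, e (T x) = (X : F[X]) • e x) : HasForm T ((Finset.univ : Finset ι).val.map h) := by
  classical
  have hmap : (Finset.univ : Finset (Fin (Fintype.card ι))).val.map (h ∘ (Fintype.equivFin ι).symm) =
      (Finset.univ : Finset ι).val.map h := by
    rw [← Multiset.map_map, ← Finset.univ_map_equiv_to_embedding (Fintype.equivFin ι).symm]
    rfl
  obtain ⟨r⟩ := exists_reindex h (h ∘ (Fintype.equivFin ι).symm) hmap.symm
  refine ⟨_, _, hmap, e.trans (r.restrictScalars F), fun x => ?_⟩
  show r (e (T x)) = (X : F[X]) • r (e x)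
  rw [he, map_smul]

lemma HasForm.congr {T : V →ₗ[F] V} {U : W →ₗ[F] W} {s : Multiset F[X]} (h : HasForm U s)
    (e : V ≃ₗ[F] W) (he : ∀ x, e (T x) = U (e x)) : HasForm T s := by
  obtain ⟨k, p, hp, d, hd⟩ := h
  exact ⟨k, p, hp, e.trans d, fun x => by simp [he, hd]⟩

/-- Same forms, similar maps. -/
lemma HasForm.similar {T : V →ₗ[F] V} {U : W →ₗ[F] W} {s : Multiset F[X]} (hT : HasForm T s)
    (hU : HasForm U s) : ∃ e : V ≃ₗ[F] W, ∀ x, e (T x) = U (e x) := by
  obtain ⟨k, h, hs, d, hd⟩ := hT
  obtain ⟨k', h', hs', d', hd'⟩ := hU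
  obtain ⟨r⟩ := exists_reindex h h' (hs.trans hs'.symm)
  refine ⟨(d.trans (r.restrictScalars F)).trans d'.symm, fun x => d'.injective ?_⟩
  rw [hd']
  simp [hd]

lemma hasForm_xCyc {ι : Type} [Fintype ι] (h : ι → F[X]) :
    HasForm (xCyc h) ((Finset.univ : Finset ι).val.map h) :=
  HasForm.mk h (LinearEquiv.refl F _) fun _ => rfl

/-- A form with no part. -/
lemma hasForm_zero [Subsingleton V] (T : V →ₗ[F] V) : HasForm T 0 := by
  let h : Fin 0 → F[X] := fun i => i.elim0
  exact ⟨0, h, rfl,
    { toFun := fun _ => 0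
      map_add' := fun _ _ => by simp
      map_smul' := fun _ _ => by simp
      invFun := fun _ => 0
      left_inv := fun _ => Subsingleton.elim _ _
      right_inv := fun _ => funext fun i => i.elim0 }, fun _ => funext fun i => i.elim0⟩

/-- Sums of forms. -/
lemma HasForm.prod {T : V →ₗ[F] V} {U : W →ₗ[F] W} {s t : Multiset F[X]} (hT : HasForm T s)
    (hU : HasForm U t) : HasForm (T.prodMap U) (s + t) := by
  classical
  obtain ⟨k, h, hs, d, hd⟩ := hT
  obtain ⟨k', h', hs', d', hd'⟩ := hU
  have key := HasForm.mk (T := T.prodMap U) (Sum.elim h h')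
    ((d.prodCongr d').trans ((LinearEquiv.sumPiEquivProdPi F (Fin k) (Fin k') (fun i => cyc (Sum.elim h h' i))).symm))
    (fun x => funext fun i => by
      cases i with
      | inl j => exact congrFun (hd x.1) j
      | inr j => exact congrFun (hd' x.2) j)
  rw [Finset.univ_disjSum_univ.symm, Finset.val_disjSum, Multiset.map_disjSum] at key
  simp only [Sum.elim_inl, Sum.elim_inr] at key
  rwa [hs, hs'] at key

/-- A form of one part. -/
lemma hasForm_single {T : V →ₗ[F] V} {f : F[X]} (e : V ≃ₗ[F] cyc f) (he : ∀ x, e (T x) = (X : F[X]) • e x) :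
    HasForm T {f} := by
  have := HasForm.mk (T := T) (fun _ : Fin 1 => f)
    (e.trans (LinearEquiv.funUnique (Fin 1) F (cyc f)).symm) (fun x => funext fun i => by simp [he])
  simpa using this

/-- Coprime parts may be merged or split. -/
lemma hasForm_mul_iff {T : V →ₗ[F] V} {g h : F[X]} (hgh : IsCoprime g h) (s : Multiset F[X]) :
    HasForm T ((g * h) ::ₘ s) ↔ HasForm T (g ::ₘ h ::ₘ s) := by
  classical
  have hk : ∀ (p a : F[X]), (Submodule.Quotient.mk a : cyc p) = 0 ↔ p ∣ a := fun p a => by
    rw [Submodule.Quotient.mk_eq_zero]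
    exact Ideal.mem_span_singleton
  let φ : cyc (g * h) →ₗ[F[X]] cyc g × cyc h := Submodule.liftQ _
    ((Submodule.mkQ (Submodule.span F[X] ({g} : Set F[X]))).prod
      (Submodule.mkQ (Submodule.span F[X] ({h} : Set F[X])))) (by
      intro a ha
      obtain ⟨d, rfl⟩ := Submodule.mem_span_singleton.1 ha
      rw [LinearMap.mem_ker, LinearMap.prod_apply]
      exact Prod.ext ((hk g _).2 ⟨d * h, by rw [smul_eq_mul]; ring⟩) ((hk h _).2 ⟨d * g, by rw [smul_eq_mul]; ring⟩))
  have hbij : Function.Bijective φ := by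
    refine ⟨(injective_iff_map_eq_zero φ).2 fun x hx => ?_, fun y => ?_⟩
    · obtain ⟨a, rfl⟩ := Submodule.Quotient.mk_surjective _ x
      exact (hk _ _).2 (hgh.mul_dvd ((hk g a).1 (congrArg Prod.fst hx)) ((hk h a).1 (congrArg Prod.snd hx)))
    · obtain ⟨p, q⟩ := y
      obtain ⟨a, rfl⟩ := Submodule.Quotient.mk_surjective _ p
      obtain ⟨b, rfl⟩ := Submodule.Quotient.mk_surjective _ q
      obtain ⟨x, y, hxy⟩ := hgh
      refine ⟨Submodule.Quotient.mk (a * (y * h) + b * (x * g)), Prod.ext ?_ ?_⟩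
      · exact (Submodule.Quotient.eq _).2 (Submodule.mem_span_singleton.2 ⟨(b - a) * x, by
          rw [smul_eq_mul]; linear_combination (-a) * hxy⟩)
      · exact (Submodule.Quotient.eq _).2 (Submodule.mem_span_singleton.2 ⟨(a - b) * y, by
          rw [smul_eq_mul]; linear_combination (-b) * hxy⟩)
  let E : cyc (g * h) ≃ₗ[F] cyc g × cyc h := (LinearEquiv.ofBijective φ hbij).restrictScalars F
  have hE : ∀ x, E ((X : F[X]) • x) = (X : F[X]) • E x := fun x => φ.map_smul X x
  -- the canonical sums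
  let f1 : Fin 1 → F[X] := fun _ => g * h
  let f2 : Fin 2 → F[X] := ![g, h]
  have hmodel : ∃ e : CycPi f1 ≃ₗ[F] CycPi f2, ∀ x, e ((X : F[X]) • x) = (X : F[X]) • e x := by
    refine ⟨(LinearEquiv.funUnique (Fin 1) F (cyc (g * h))).trans (E.trans
      (LinearEquiv.piFinTwo F (fun i => cyc (f2 i))).symm), fun x => ?_⟩
    have : E (X • x 0) = (X : F[X]) • E (x 0) := hE _
    funext i
    fin_cases i
    · exact congrArg Prod.fst this
    · exact congrArg Prod.snd this
  obtain ⟨e, he⟩ := hmodel
  obtain ⟨l, hl⟩ : ∃ l : List F[X], (l : Multiset F[X]) = s := ⟨s.toList, s.coe_toList⟩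
  have hls : (Finset.univ : Finset (Fin l.length)).val.map l.get = s := by
    rw [← hl, Fin.univ_val_map, List.ofFn_get]
  have h1 : HasForm ((xCyc f1).prodMap (xCyc l.get)) ((g * h) ::ₘ s) := by
    have := (hasForm_xCyc f1).prod (hasForm_xCyc l.get)
    rwa [hls, Fin.univ_val_map, show List.ofFn f1 = [g * h] by simp [f1], Multiset.coe_singleton,
      Multiset.singleton_add] at this
  have h2 : HasForm ((xCyc f1).prodMap (xCyc l.get)) (g ::ₘ h ::ₘ s) := by
    have h' : HasForm (xCyc f1) (g ::ₘ h ::ₘ 0) := by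
      refine HasForm.congr (U := xCyc f2) ?_ e (fun x => he x)
      have := hasForm_xCyc f2
      rwa [Fin.univ_val_map, show List.ofFn f2 = [g, h] by simp [f2]] at this
    have := h'.prod (hasForm_xCyc l.get)
    rwa [hls, Multiset.cons_add, Multiset.cons_add, zero_add] at this
  constructor
  · intro hT
    obtain ⟨d, hd⟩ := hT.similar h1
    exact h2.congr d hd
  · intro hT
    obtain ⟨d, hd⟩ := hT.similar h2
    exact h1.congr d hd

/-- Merging a coprime pair. -/
lemma HasForm.split {T : V →ₗ[F] V} {g h : F[X]} (hgh : IsCoprime g h)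
    (hT : HasForm T {g * h}) : HasForm T ({g} + {h}) := by
  rw [Multiset.singleton_add]
  exact (hasForm_mul_iff hgh 0).1 hT

/-- Evaluation at a vector. -/
noncomputable def orbit (T : V →ₗ[F] V) (v : V) : F[X] →ₗ[F] V :=
  (LinearMap.applyₗ v).comp (aeval T).toLinearMap

@[simp] lemma orbit_apply (T : V →ₗ[F] V) (v : V) (a : F[X]) : orbit T v a = aeval T a v := rfl

lemma finrank_cyc {f : F[X]} : finrank F (cyc f) = f.natDegree :=
  CfsgLib.GLClassCount.finrank_span_quotient f

/-- A cyclic vector with annihilator `f`. -/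
lemma exists_equiv_of_cyclic [Module.Finite F V] {T : V →ₗ[F] V} {v : V} {f : F[X]} (hf : f.Monic)
    (hdim : finrank F V = f.natDegree) (hv : aeval T f v = 0) (hspan : Function.Surjective (orbit T v)) :
    ∃ e : V ≃ₗ[F] cyc f, (∀ x, e (T x) = (X : F[X]) • e x) ∧
      ∀ a : F[X], e (aeval T a v) = Submodule.Quotient.mk a := by
  have hker : (Submodule.span F[X] ({f} : Set F[X])).restrictScalars F ≤ LinearMap.ker (orbit T v) := by
    intro a ha
    obtain ⟨b, rfl⟩ := Submodule.mem_span_singleton.1 ha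
    simp [hv]
  let Φ : cyc f →ₗ[F] V :=
    (Submodule.liftQ _ (orbit T v) hker).comp
      (Submodule.Quotient.restrictScalarsEquiv F (Submodule.span F[X] ({f} : Set F[X]))).symm.toLinearMap
  have hΦ : ∀ a : F[X], Φ (Submodule.Quotient.mk a) = aeval T a v := fun a => rfl
  have hsurj : Function.Surjective Φ := fun x => by
    obtain ⟨a, ha⟩ := hspan x
    exact ⟨Submodule.Quotient.mk a, ha⟩
  have : Module.Finite F (cyc f) := hf.finite_quotient
  have hinj : Function.Injective Φ := by
    rw [← LinearMap.ker_eq_bot, ← Submodule.finrank_eq_zero]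
    have h := LinearMap.finrank_range_add_finrank_ker Φ
    rw [LinearMap.range_eq_top.2 hsurj, finrank_top, hdim, finrank_cyc] at h
    omega
  refine ⟨(LinearEquiv.ofBijective Φ ⟨hinj, hsurj⟩).symm, fun x => ?_, fun a => ?_⟩
  · obtain ⟨y, rfl⟩ := (LinearEquiv.ofBijective Φ ⟨hinj, hsurj⟩).surjective x
    rw [LinearEquiv.symm_apply_apply, LinearEquiv.symm_apply_eq]
    obtain ⟨a, rfl⟩ := Submodule.Quotient.mk_surjective _ y
    show T (Φ (Submodule.Quotient.mk a)) = Φ (X • Submodule.Quotient.mk a)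
    rw [← Submodule.Quotient.mk_smul, smul_eq_mul, hΦ, hΦ, map_mul, aeval_X]
    rfl
  · rw [LinearEquiv.symm_apply_eq]
    exact (hΦ a).symm

lemma hasForm_of_cyclic [Module.Finite F V] {T : V →ₗ[F] V} {v : V} {f : F[X]} (hf : f.Monic)
    (hdim : finrank F V = f.natDegree) (hv : aeval T f v = 0) (hspan : Function.Surjective (orbit T v)) :
    HasForm T {f} := by
  obtain ⟨e, he, -⟩ := exists_equiv_of_cyclic hf hdim hv hspan
  exact hasForm_single e he

/-- Extending a cyclic subspace by a coprime cyclic quotient. -/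
lemma exists_cyclic_ext {T : V →ₗ[F] V} {v1 v2 : V} {g h : F[X]} (hg : aeval T g v1 = 0)
    (hh : aeval T h v2 ∈ LinearMap.range (orbit T v1)) (hgh : IsCoprime g h) :
    ∃ v, aeval T (g * h) v = 0 ∧ v1 ∈ LinearMap.range (orbit T v) ∧ v2 ∈ LinearMap.range (orbit T v) ∧
      LinearMap.range (orbit T v1) ≤ LinearMap.range (orbit T v) := by
  obtain ⟨a, ha⟩ := hh
  obtain ⟨x, y, hxy⟩ := hgh
  rw [orbit_apply] at ha
  have hmul : ∀ (p r : F[X]) (z : V), aeval T (p * r) z = aeval T p (aeval T r z) := fun p r z => by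
    rw [map_mul]; rfl
  set w := v2 - aeval T (y * a) v1 with hw
  have hw0 : aeval T h w = 0 := by
    rw [hw, map_sub, ← ha, ← hmul]
    have e : h * (y * a) = a + g * (-(x * a)) := by linear_combination a * hxy
    rw [e, map_add, LinearMap.add_apply, mul_comm g, hmul, hg, map_zero, add_zero, sub_self]
  have e1 : v1 = aeval T (y * h) (v1 + w) := by
    conv_rhs => rw [map_add, hmul y h w, hw0, map_zero, add_zero]
    have e : y * h = 1 + g * (-x) := by linear_combination hxy
    rw [e, map_add, LinearMap.add_apply, mul_comm g, hmul, hg, map_zero, add_zero, map_one]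
    rfl
  refine ⟨v1 + w, ?_, ⟨y * h, e1.symm⟩, ⟨(1 - y * h) + y * a * (y * h), ?_⟩, ?_⟩
  · rw [map_add, mul_comm g h, hmul, hg, map_zero, zero_add, mul_comm h g, hmul, hw0, map_zero]
  · rw [orbit_apply, map_add (aeval T), LinearMap.add_apply, hmul (y * a) (y * h), ← e1, map_sub, map_one,
      LinearMap.sub_apply, Module.End.one_apply, ← e1, hw]
    abel
  · rintro _ ⟨b, rfl⟩
    exact ⟨b * (y * h), by rw [orbit_apply, hmul, ← e1, orbit_apply]⟩

/-- The determinant of a map with a form. -/
lemma HasForm.det {T : V →ₗ[F] V} {s : Multiset F[X]} (hT : HasForm T s) (hs : ∀ p ∈ s, p.Monic) :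
    LinearMap.det T = (s.map sgn).prod := by
  classical
  obtain ⟨k, h, hh, e, he⟩ := hT
  have hm : ∀ i, (h i).Monic := fun i =>
    hs _ (hh ▸ Multiset.mem_map_of_mem h (Finset.mem_univ i))
  have : ∀ i, Module.Finite F (cyc (h i)) := fun i => (hm i).finite_quotient
  have e1 : xCyc h = LinearMap.pi fun i => (CfsgLib.SLClassCount.xMap (h i)).comp (LinearMap.proj i) := rfl
  rw [← hh, Multiset.map_map, ← LinearMap.det_conj T e]
  have : (e : V →ₗ[F] CycPi h) ∘ₗ T ∘ₗ (e.symm : CycPi h →ₗ[F] V) = xCyc h := by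
    refine LinearMap.ext fun x => ?_
    show e (T (e.symm x)) = (X : F[X]) • x
    rw [he, LinearEquiv.apply_symm_apply]
  rw [this, e1, det_piMap]
  exact Finset.prod_congr rfl fun i _ => det_xMap (hm i)

/-- An irreducible part gives commuting maps of every determinant. -/
lemma HasForm.exists_commute_det [Finite F] {T : V →ₗ[F] V} {s : Multiset F[X]} (hT : HasForm T s)
    (hs : ∀ p ∈ s, p.Monic) {r : F[X]} (hr : r ∈ s) (hirr : Irreducible r) {a : F} (ha : a ≠ 0) :
    ∃ w : V ≃ₗ[F] V, LinearMap.det (w : V →ₗ[F] V) = a ∧ ∀ x, w (T x) = T (w x) := by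
  classical
  obtain ⟨k, h, hh, e, he⟩ := hT
  have hm : ∀ i, (h i).Monic := fun i =>
    hs _ (hh ▸ Multiset.mem_map_of_mem h (Finset.mem_univ i))
  have : ∀ i, Module.Finite F (cyc (h i)) := fun i => (hm i).finite_quotient
  rw [← hh] at hr
  obtain ⟨i0, -, rfl⟩ := Multiset.mem_map.1 hr
  have : Fact (Irreducible (h i0)) := ⟨hirr⟩
  have : Module.Finite F (AdjoinRoot (h i0)) := (hm i0).finite_adjoinRoot
  have : Finite (AdjoinRoot (h i0)) := Module.finite_of_finite F
  obtain ⟨y, hy⟩ := FiniteField.norm_surjective F (AdjoinRoot (h i0)) a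
  have hy0 : y ≠ 0 := fun h0 => ha (by rw [← hy, h0, Algebra.norm_zero])
  obtain ⟨b, hb⟩ := AdjoinRoot.mk_surjective y
  obtain ⟨b', hb'⟩ := AdjoinRoot.mk_surjective y⁻¹
  let mulBy : F[X] → (i : Fin k) → cyc (h i) →ₗ[F] cyc (h i) := fun b i =>
    if i = i0 then (LinearMap.lsmul F[X] (cyc (h i)) b).restrictScalars F else LinearMap.id
  have hcomm : ∀ b i (z : cyc (h i)), mulBy b i ((X : F[X]) • z) = (X : F[X]) • mulBy b i z := by
    intro b i z
    simp only [mulBy]
    split_ifs
    · simp
    · simp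
  let P : F[X] → (CycPi h →ₗ[F] CycPi h) := fun b => LinearMap.pi fun i => (mulBy b i).comp (LinearMap.proj i)
  have hinv : ∀ b b', AdjoinRoot.mk (h i0) b * AdjoinRoot.mk (h i0) b' = 1 → ∀ z, P b (P b' z) = z := by
    intro b b' hbb z
    funext i
    simp only [P, mulBy, LinearMap.pi_apply, LinearMap.comp_apply, LinearMap.proj_apply]
    split_ifs with hi
    · subst hi
      obtain ⟨c, hc⟩ := Submodule.Quotient.mk_surjective _ (z i)
      rw [← hc]
      show b • b' • (Submodule.Quotient.mk c : cyc (h i)) = _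
      rw [← mul_smul, ← Submodule.Quotient.mk_smul, smul_eq_mul]
      rw [← map_mul] at hbb
      have h0 : AdjoinRoot.mk (h i) (b * b' * c - c) = 0 := by rw [map_sub, map_mul, hbb, one_mul, sub_self]
      rw [AdjoinRoot.mk_eq_zero] at h0
      exact (Submodule.Quotient.eq _).2 (Submodule.mem_span_singleton.2 (by
        obtain ⟨d, hd⟩ := h0; exact ⟨d, by rw [hd, smul_eq_mul, mul_comm]⟩))
    · simp
  let w0 : CycPi h ≃ₗ[F] CycPi h := LinearEquiv.ofLinearMap (P b) (P b')
    (LinearMap.ext (hinv b b' (by rw [hb, hb', mul_inv_cancel₀ hy0])))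
    (LinearMap.ext (hinv b' b (by rw [hb, hb', inv_mul_cancel₀ hy0])))
  refine ⟨(e.trans w0).trans e.symm, ?_, fun x => e.injective ?_⟩
  · have e1 : ((e.trans w0).trans e.symm : V →ₗ[F] V) =
        (e.symm : CycPi h →ₗ[F] V) ∘ₗ P b ∘ₗ (e.symm.symm : V →ₗ[F] CycPi h) := rfl
    rw [e1, LinearMap.det_conj, det_piMap, Finset.prod_eq_single i0]
    · have e2 : mulBy b i0 = Algebra.lmul F (AdjoinRoot (h i0)) y := by
        refine LinearMap.ext fun z => ?_
        simp only [mulBy, if_pos]
        obtain ⟨c, rfl⟩ := Submodule.Quotient.mk_surjective _ z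
        rw [← hb]
        rfl
      rw [e2]
      exact (Algebra.norm_apply F y).symm.trans hy
    · intro i _ hi
      simp [mulBy, hi]
    · simp
  · simp only [LinearEquiv.trans_apply, LinearEquiv.apply_symm_apply, he]
    funext i
    exact hcomm b i (e x i)

/-- A multiset of polynomials comes from a family. -/
lemma exists_model (s : Multiset F[X]) :
    ∃ (k : ℕ) (h : Fin k → F[X]), (Finset.univ : Finset (Fin k)).val.map h = s :=
  ⟨_, s.toList.get, by rw [Fin.univ_val_map, List.ofFn_get, Multiset.coe_toList]⟩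

/-- Generators of cyclic parts. -/
lemma hasForm_of_generators [Module.Finite F V] {T : V →ₗ[F] V} {k : ℕ} (h : Fin k → F[X]) (v : Fin k → V)
    (hm : ∀ i, (h i).Monic) (hv : ∀ i, aeval T (h i) (v i) = 0)
    (hspan : ⊤ ≤ ⨆ i, LinearMap.range (orbit T (v i))) (hdim : finrank F V = ∑ i, (h i).natDegree) :
    HasForm T ((Finset.univ : Finset (Fin k)).val.map h) := by
  classical
  have hker : ∀ i, (Submodule.span F[X] ({h i} : Set F[X])).restrictScalars F ≤
      LinearMap.ker (orbit T (v i)) := by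
    intro i a ha
    obtain ⟨b, rfl⟩ := Submodule.mem_span_singleton.1 ha
    simp [hv]
  let φ : (i : Fin k) → cyc (h i) →ₗ[F] V := fun i =>
    (Submodule.liftQ _ (orbit T (v i)) (hker i)).comp
      (Submodule.Quotient.restrictScalarsEquiv F (Submodule.span F[X] ({h i} : Set F[X]))).symm.toLinearMap
  have hφ : ∀ i (a : F[X]), φ i (Submodule.Quotient.mk a) = aeval T a (v i) := fun i a => rfl
  let Φ : CycPi h →ₗ[F] V := LinearMap.lsum F (fun i => cyc (h i)) F φ
  have hΦ : ∀ z, Φ z = ∑ i, φ i (z i) := fun z => by simp [Φ]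
  have hsurj : Function.Surjective Φ := by
    rw [← LinearMap.range_eq_top, eq_top_iff]
    refine hspan.trans (iSup_le fun i => ?_)
    rintro _ ⟨a, rfl⟩
    refine ⟨Pi.single i (Submodule.Quotient.mk a), ?_⟩
    rw [hΦ, Finset.sum_eq_single i (fun j _ hj => by simp [Pi.single_eq_of_ne hj])
      (fun hi => absurd (Finset.mem_univ i) hi), Pi.single_eq_same, hφ, orbit_apply]
  have : ∀ i, Module.Finite F (cyc (h i)) := fun i => (hm i).finite_quotient
  have hinj : Function.Injective Φ := (LinearMap.injective_iff_surjective_of_finrank_eq_finrank (by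
    rw [finrank_pi_fintype, hdim]
    exact Finset.sum_congr rfl fun i _ => finrank_cyc)).2 hsurj
  refine HasForm.mk h (LinearEquiv.ofBijective Φ ⟨hinj, hsurj⟩).symm fun x => ?_
  obtain ⟨y, rfl⟩ := (LinearEquiv.ofBijective Φ ⟨hinj, hsurj⟩).surjective x
  rw [LinearEquiv.symm_apply_apply, LinearEquiv.symm_apply_eq]
  show T (Φ y) = Φ ((X : F[X]) • y)
  rw [hΦ, hΦ, map_sum]
  refine Finset.sum_congr rfl fun i _ => ?_
  obtain ⟨a, ha⟩ := Submodule.Quotient.mk_surjective _ (y i)
  rw [Pi.smul_apply, ← ha, ← Submodule.Quotient.mk_smul, smul_eq_mul, hφ, hφ, map_mul, aeval_X]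
  rfl

/-- Moving a vector inside an invariant complement. -/
lemma exists_adjust {T : V →ₗ[F] V} {L : Submodule F V} (hL : ∀ x ∈ L, T x ∈ L) {g h : F[X]}
    (hgh : IsCoprime g h) {v : V} (hv : aeval T h v ∈ L) (hg : aeval T g (aeval T h v) = 0) :
    ∃ w, aeval T h w = 0 ∧ w - v ∈ L := by
  obtain ⟨x, y, hxy⟩ := hgh
  have hmul : ∀ (p r : F[X]) (z : V), aeval T (p * r) z = aeval T p (aeval T r z) := fun p r z => by
    rw [map_mul]; rfl
  have hmem : ∀ (a : F[X]) z, z ∈ L → aeval T a z ∈ L := by
    intro a z hz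
    induction a using Polynomial.induction_on' with
    | add a c ha hc => rw [map_add]; exact L.add_mem ha hc
    | monomial k c =>
      rw [← C_mul_X_pow_eq_monomial, map_mul, aeval_C, map_pow, aeval_X]
      refine L.smul_mem c ?_
      induction k with
      | zero => simpa
      | succ k ih => rw [pow_succ']; exact hL _ ih
  refine ⟨v - aeval T y (aeval T h v), ?_, ?_⟩
  · have e : aeval T h (aeval T y (aeval T h v)) = aeval T h v := by
      have e' : h * y = 1 + (-x) * g := by linear_combination hxy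
      rw [← hmul h y, e', map_add, LinearMap.add_apply, hmul (-x) g, hg, map_zero, map_one,
        Module.End.one_apply, add_zero]
    rw [map_sub, e, sub_self]
  · rw [sub_sub_cancel_left]
    exact L.neg_mem (hmem _ _ hv)

/-- A form of one part has a generator. -/
lemma HasForm.exists_generator {T : V →ₗ[F] V} {f : F[X]} (hT : HasForm T {f}) :
    ∃ u, aeval T f u = 0 ∧ Function.Surjective (orbit T u) := by
  obtain ⟨e, he⟩ := hT.similar (hasForm_single (T := CfsgLib.SLClassCount.xMap f) (LinearEquiv.refl F _) fun _ => rfl)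
  have key : ∀ a : F[X], e (aeval T a (e.symm (Submodule.Quotient.mk 1))) = Submodule.Quotient.mk a := by
    intro a
    induction a using Polynomial.induction_on' with
    | add a c ha hc => rw [map_add, LinearMap.add_apply, map_add, ha, hc]; rfl
    | monomial n c =>
      rw [← C_mul_X_pow_eq_monomial, map_mul, aeval_C, map_pow, aeval_X, Module.End.mul_apply,
        Module.algebraMap_end_apply, map_smul]
      have : ∀ n : ℕ, e ((T ^ n) (e.symm (Submodule.Quotient.mk 1))) = Submodule.Quotient.mk (X ^ n) := by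
        intro n
        induction n with
        | zero => simp
        | succ n ih =>
          rw [pow_succ', Module.End.mul_apply, he, ih, pow_succ']
          rfl
      rw [this, ← Submodule.Quotient.mk_smul, smul_eq_C_mul]
  refine ⟨e.symm (Submodule.Quotient.mk 1), e.injective ?_, fun x => ?_⟩
  · rw [key, map_zero]; exact (Submodule.Quotient.mk_eq_zero _).2 (Submodule.mem_span_singleton_self f)
  · obtain ⟨a, ha⟩ := Submodule.Quotient.mk_surjective _ (e x)
    exact ⟨a, e.injective ((key a).trans ha)⟩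

end CfsgLib.SLCommutator
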