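import Cfsg.Agent.SLCommutator.Companion

/-!
The basic realised pairs for one cyclic map.
-/

set_option autoImplicit false

namespace CfsgLib.SLCommutator

open Polynomial Module CfsgLib.SLClassCount

universe u v

variable {F : Type u} [Field F]

/-- The standard basis of a cyclic module. -/
lemma exists_basis {f : F[X]} (hf : f.Monic) {n : ℕ} (hd : f.natDegree = n + 1) :
    ∃ b : Basis (Fin (n + 1)) F (cyc f),
      (∀ i : Fin n, xMap f (b i.castSucc) = b i.succ) ∧
        xMap f (b (Fin.last n)) = -∑ i : Fin (n + 1), f.coeff i • b i := by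
  let Q := (Submodule.mkQ (Submodule.span F[X] ({f} : Set F[X]))).restrictScalars F
  have : Module.Finite F (cyc f) := hf.finite_quotient
  have hspan : ⊤ ≤ Submodule.span F (Set.range fun i : Fin (n + 1) => Q (X ^ (i : ℕ))) := by
    intro y _
    obtain ⟨a, rfl⟩ := Submodule.Quotient.mk_surjective _ y
    have e : (Submodule.Quotient.mk a : cyc f) = Q (a %ₘ f) := by
      refine (Submodule.Quotient.eq _).2 (Submodule.mem_span_singleton.2 ⟨a /ₘ f, ?_⟩)
      rw [smul_eq_mul]
      linear_combination modByMonic_add_div a f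
    have hlt : (a %ₘ f).natDegree < n + 1 := by
      rw [← hd]
      exact natDegree_modByMonic_lt a hf (fun h => by simp [h] at hd)
    rw [e, (a %ₘ f).as_sum_range' (n + 1) hlt, map_sum]
    refine Submodule.sum_mem _ fun i hi => ?_
    rw [← smul_X_eq_monomial, map_smul]
    exact Submodule.smul_mem _ _ (Submodule.subset_span ⟨⟨i, Finset.mem_range.1 hi⟩, rfl⟩)
  refine ⟨basisOfTopLeSpanOfCardEqFinrank _ hspan (by rw [finrank_cyc, hd, Fintype.card_fin]), ?_, ?_⟩
  · intro i
    rw [coe_basisOfTopLeSpanOfCardEqFinrank]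
    show Submodule.Quotient.mk (X * X ^ (i : ℕ)) = Submodule.Quotient.mk (X ^ ((i : ℕ) + 1))
    rw [pow_succ']
  · rw [coe_basisOfTopLeSpanOfCardEqFinrank]
    show Q (X * X ^ n) = -∑ i : Fin (n + 1), f.coeff i • Q (X ^ (i : ℕ))
    have e : ∑ i : Fin (n + 1), f.coeff i • Q (X ^ (i : ℕ)) = Q (f - X ^ (n + 1)) := by
      rw [Fin.sum_univ_eq_sum_range (fun i => f.coeff i • Q (X ^ i))]
      simp only [← map_smul, ← map_sum]
      congr 1
      conv_rhs => rw [hf.as_sum, hd, add_sub_cancel_left]
      simp [smul_eq_C_mul]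
    rw [e, map_sub, neg_sub, ← pow_succ']
    have h0 : Q f = 0 := (Submodule.Quotient.mk_eq_zero _).2 (Submodule.mem_span_singleton_self f)
    rw [h0, sub_zero]

lemma span_stable {V : Type v} [AddCommGroup V] [Module F V] {T : V →ₗ[F] V} {s : Set V}
    (h : ∀ x ∈ s, T x ∈ Submodule.span F s) : ∀ x ∈ Submodule.span F s, T x ∈ Submodule.span F s :=
  fun x hx => by
    have : Submodule.span F s ≤ (Submodule.span F s).comap T := Submodule.span_le.2 h
    exact this hx

/-- The quadratic with trace `τ` and norm `δ`. -/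
noncomputable def quad (τ δ : F) : F[X] := X ^ 2 - C τ * X + C δ

lemma quad_monic (τ δ : F) : (quad τ δ).Monic := by
  unfold quad; monicity!

lemma quad_natDegree (τ δ : F) : (quad τ δ).natDegree = 2 := by
  unfold quad; compute_degree!

lemma sgn_quad (τ δ : F) : sgn (quad τ δ) = δ := by
  rw [sgn, sgnConst, quad_natDegree]; simp [quad]

/-- The construction behind the second leaf: `T` is given below two top vectors. -/
lemma exists_top {f : F[X]} (hf : f.Monic) (hf0 : f.coeff 0 ≠ 0) {l : ℕ} (hl : 1 ≤ l)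
    (hd : f.natDegree = l + 1 + 1) (b : Basis (Fin (l + 1 + 1)) F (cyc f))
    (hb : ∀ i : Fin (l + 1), xMap f (b i.castSucc) = b i.succ)
    (hb' : xMap f (b (Fin.last (l + 1))) = -∑ i : Fin (l + 1 + 1), f.coeff i • b i)
    (t : Fin l → cyc f) (c : Fin l → F) (hc : ∀ j, c j ≠ 0)
    (ht : ∀ j : Fin l, t j - c j • b j.castSucc.castSucc ∈
      Submodule.span F (b '' {i | i < j.castSucc.castSucc}))
    {f' : F[X]} (hf' : f'.Monic) (hd' : f'.natDegree = l + 1 + 1) (τ δ : F) (hδ : δ ≠ 0)
    (hs : sgn f' = sgn f * ((∏ j, c j) * δ)) :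
    ∃ T : cyc f ≃ₗ[F] cyc f, (∀ j, T (b j.castSucc.castSucc) = t j) ∧
      aeval (T : cyc f →ₗ[F] cyc f) (quad τ δ) (b (Fin.last l).castSucc) ∈
        Submodule.span F (b '' {i | i < (Fin.last l).castSucc}) ∧
      b (Fin.last (l + 1)) ∈ Submodule.span F (b '' {i | i < (Fin.last l).castSucc}) ⊔
        LinearMap.range (orbit (T : cyc f →ₗ[F] cyc f) (b (Fin.last l).castSucc)) ∧
      HasForm (xMap f ∘ₗ (T : cyc f →ₗ[F] cyc f)) {f'} := by
  classical
  have : Module.Finite F (cyc f) := hf.finite_quotient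
  set B := xMap f with hB
  set i1 : Fin (l + 1 + 1) := (Fin.last l).castSucc with hi1
  set i2 : Fin (l + 1 + 1) := Fin.last (l + 1) with hi2
  set i0 : Fin (l + 1 + 1) := (⟨l - 1, by omega⟩ : Fin (l + 1)).castSucc with hi0
  set L := Submodule.span F (b '' {i | i < i1}) with hL
  have hi12 : i1 ≠ i2 := Fin.ne_of_val_ne (by simp [hi1, hi2])
  have hlow : ∀ j : Fin l, (j.castSucc.castSucc : Fin (l + 1 + 1)) < i1 := fun j => by
    simp [hi1, Fin.lt_def]
  have hi01 : i0 < i1 := by simp [hi0, hi1, Fin.lt_def]; omega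
  have hdetB : LinearMap.det B = sgn f := det_xMap hf
  have hB0 : LinearMap.det B ≠ 0 := hdetB ▸ sgn_ne_zero hf0
  have hBi0 : B (b i0) = b i1 := by
    rw [hi0, hb]
    exact congrArg b (Fin.ext (by simp [hi1]; omega))
  have hBi1 : B (b i1) = b i2 := by
    rw [hi1, hb]
    exact congrArg b (Fin.ext (by simp [hi2]))
  set x : F := 1 + f.coeff (l + 1) with hx
  set r : F := τ - x with hr
  set p : F := x * r - δ with hp
  set w : F := -f'.coeff (l + 1) - (∑ j : Fin l, b.repr (B (t j)) j.castSucc.castSucc) + f.coeff l + δ - r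
    with hw
  set tl : cyc f := w • b i0 + x • b i1 + b i2 with htl
  let φ : Fin (l + 1) → cyc f := Fin.snoc (fun j => B (t j)) (B tl)
  let cc : Fin (l + 1) → F := Fin.snoc c 1
  have hsum : ∀ v : cyc f, v = ∑ j : Fin l, b.repr v j.castSucc.castSucc • b j.castSucc.castSucc +
      b.repr v i1 • b i1 + b.repr v i2 • b i2 := fun v => by
    conv_lhs => rw [← b.sum_repr v]
    rw [Fin.sum_univ_castSucc, Fin.sum_univ_castSucc]
  obtain ⟨M, hM, hMf⟩ := exists_companion_ext b φ cc
    (fun j => by induction j using Fin.lastCases <;> simp [cc, hc])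
    (fun j => by
      induction j using Fin.lastCases with
      | last =>
        simp only [φ, cc, Fin.snoc_last, htl, map_add, map_smul, hBi0, hBi1, one_smul]
        rw [Fin.succ_last, ← hi2, ← hi1]
        have e : w • b i1 + x • b i2 + B (b i2) - b i2 =
            w • b i1 - ∑ i : Fin (l + 1), f.coeff i • b i.castSucc := by
          rw [hi2, hb', Fin.sum_univ_castSucc, hx, Fin.val_last, add_smul, one_smul]
          simp only [Fin.val_castSucc]
          abel
        rw [e]
        refine sub_mem (Submodule.smul_mem _ _ (Submodule.subset_span ⟨i1, le_refl i1, rfl⟩))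
          (Submodule.sum_mem _ fun i _ => Submodule.smul_mem _ _ (Submodule.subset_span ⟨_, ?_, rfl⟩))
        exact Fin.castSucc_le_castSucc_iff.2 (Fin.le_last i)
      | cast j =>
        simp only [φ, cc, Fin.snoc_castSucc]
        have h1 : B (t j - c j • b j.castSucc.castSucc) ∈
            Submodule.span F (b '' {i | i ≤ j.castSucc.castSucc}) := by
          refine Submodule.span_le (p := (Submodule.span F _).comap B) |>.2 ?_ (ht j)
          rintro _ ⟨i, hi, rfl⟩
          have hi' : (i : ℕ) < (j : ℕ) := by simpa [Fin.lt_def] using hi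
          obtain ⟨k, rfl⟩ : ∃ k : Fin (l + 1), i = k.castSucc := ⟨⟨i, by omega⟩, rfl⟩
          simp only [Fin.val_castSucc] at hi'
          refine Submodule.subset_span ⟨_, ?_, (hb _).symm⟩
          simp only [Set.mem_ofPred_eq, Fin.le_def, Fin.val_succ, Fin.val_castSucc]
          omega
        rwa [map_sub, map_smul, hb] at h1)
    hf' hd'
  have hdetM : LinearMap.det M = sgn f' := by
    rw [hMf.det (by simpa using hf')]
    simp
  have hTM : LinearMap.det ((LinearMap.equivOfDetNeZero B hB0).symm.toLinearMap ∘ₗ M) ≠ 0 := by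
    rw [LinearMap.det_comp, hdetM]
    refine mul_ne_zero (LinearEquiv.isUnit_det' _).ne_zero ?_
    rw [hs]
    exact mul_ne_zero (sgn_ne_zero hf0) (mul_ne_zero (Finset.prod_ne_zero_iff.2 fun j _ => hc j) hδ)
  set T := LinearMap.equivOfDetNeZero _ hTM with hT
  have hBT : B ∘ₗ (T : cyc f →ₗ[F] cyc f) = M := LinearMap.ext fun v => by
    show (LinearMap.equivOfDetNeZero B hB0) ((LinearMap.equivOfDetNeZero B hB0).symm (M v)) = M v
    rw [LinearEquiv.apply_symm_apply]
  have hBinj : Function.Injective B := (LinearMap.equivOfDetNeZero B hB0).injective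
  have hTlow : ∀ j : Fin l, T (b j.castSucc.castSucc) = t j := fun j => hBinj (by
    have := LinearMap.congr_fun hBT (b j.castSucc.castSucc)
    rw [hM] at this
    simpa [φ] using this)
  have hTl : T (b i1) = tl := hBinj (by
    have := LinearMap.congr_fun hBT (b i1)
    rw [hi1, hM] at this
    simpa [φ] using this)
  -- the coordinates of the last image
  set v2 := T (b i2) with hv2
  have htj : ∀ j : Fin l, t j ∈ L := fun j => by
    have h := add_mem (Submodule.span_mono (Set.image_mono fun i (hi : i < _) => hi.trans (hlow j)) (ht j))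
      (Submodule.smul_mem L (c j) (Submodule.subset_span ⟨_, hlow j, rfl⟩))
    rwa [sub_add_cancel] at h
  have hTL : ∀ v ∈ L, T v ∈ L := span_stable (T := (T : cyc f →ₗ[F] cyc f)) (by
    rintro _ ⟨i, hi, rfl⟩
    have hi' : (i : ℕ) < l := by simpa [hi1, Fin.lt_def] using hi
    obtain ⟨k, rfl⟩ : ∃ k : Fin l, i = k.castSucc.castSucc := ⟨⟨i, hi'⟩, rfl⟩
    show T _ ∈ L
    rw [hTlow]; exact htj _)
  have hreprL : ∀ v ∈ L, b.repr v i1 = 0 ∧ b.repr v i2 = 0 := fun v hv => by
    have h := b.mem_span_image.1 hv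
    refine ⟨?_, ?_⟩ <;> by_contra h0
    · exact lt_irrefl i1 (h (Finsupp.mem_support_iff.2 h0))
    · have : i2 < i1 := h (Finsupp.mem_support_iff.2 h0)
      simp [hi1, hi2, Fin.lt_def] at this
  have hdetT : LinearMap.det (T : cyc f →ₗ[F] cyc f) =
      (∏ j, c j) * (x * b.repr v2 i2 - b.repr v2 i1) := by
    let e : Fin l ⊕ Fin 2 ≃ Fin (l + 1 + 1) := finSumFinEquiv
    rw [← LinearMap.det_toMatrix b, ← Matrix.det_submatrix_equiv_self e]
    set A := ((LinearMap.toMatrix b b) (T : cyc f →ₗ[F] cyc f)).submatrix e e with hA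
    have e1 : ∀ j : Fin l, e (Sum.inl j) = j.castSucc.castSucc := fun j => Fin.ext (by simp [e])
    have e2 : e (Sum.inr 0) = i1 := Fin.ext (by simp [e, hi1])
    have e3 : e (Sum.inr 1) = i2 := Fin.ext (by simp [e, hi2])
    have hAe : ∀ i j, A i j = b.repr (T (b (e j))) (e i) := fun i j => by
      rw [hA, Matrix.submatrix_apply, LinearMap.toMatrix_apply]
      rfl
    rw [← Matrix.fromBlocks_toBlocks A]
    have h21 : A.toBlocks₂₁ = 0 := by
      ext i j
      have h := hreprL _ (htj j)
      show A (Sum.inr i) (Sum.inl j) = 0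
      rw [hAe, e1, hTlow]
      fin_cases i
      · exact e2.symm ▸ h.1
      · exact e3.symm ▸ h.2
    rw [h21, Matrix.det_fromBlocks_zero₂₁, Matrix.det_fin_two]
    have hd1 : A.toBlocks₁₁.det = ∏ j, c j := by
      rw [Matrix.det_of_isUpperTriangular]
      · refine Finset.prod_congr rfl fun j _ => ?_
        show A (Sum.inl j) (Sum.inl j) = c j
        rw [hAe, e1, hTlow]
        have h0 : b.repr (t j - c j • b j.castSucc.castSucc) j.castSucc.castSucc = 0 := by
          by_contra h0
          have : j.castSucc.castSucc < (j.castSucc.castSucc : Fin (l + 1 + 1)) :=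
            b.mem_span_image.1 (ht j) (Finsupp.mem_support_iff.2 h0)
          exact lt_irrefl _ this
        simpa [sub_eq_zero] using h0
      · intro i j hij
        show A (Sum.inl i) (Sum.inl j) = 0
        have hij' : (j : ℕ) < i := hij
        rw [hAe, e1, e1, hTlow]
        have h0 : b.repr (t j - c j • b j.castSucc.castSucc) i.castSucc.castSucc = 0 := by
          by_contra h0
          have : i.castSucc.castSucc < (j.castSucc.castSucc : Fin (l + 1 + 1)) :=
            b.mem_span_image.1 (ht j) (Finsupp.mem_support_iff.2 h0)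
          have h1 : (i : ℕ) < j := this
          omega
        have hne : (i.castSucc.castSucc : Fin (l + 1 + 1)) ≠ j.castSucc.castSucc :=
          Fin.ne_of_val_ne (by simp; omega)
        simpa [hne.symm] using h0
    rw [hd1]
    congr 1
    show A (Sum.inr 0) (Sum.inr 0) * A (Sum.inr 1) (Sum.inr 1) -
      A (Sum.inr 0) (Sum.inr 1) * A (Sum.inr 1) (Sum.inr 0) = _
    simp only [hAe]
    rw [e2, e3, hTl, ← hv2, htl]
    have h02 : i0 ≠ i2 := (hi01.trans_le (Fin.le_last i1)).ne
    simp [hi12, hi12.symm, hi01.ne.symm, h02.symm]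
  have hpr : x * b.repr v2 i2 - b.repr v2 i1 = δ := by
    have h := congrArg LinearMap.det hBT
    rw [LinearMap.det_comp, hdetB, hdetT, hdetM, hs] at h
    exact mul_left_cancel₀ (Finset.prod_ne_zero_iff.2 fun j _ => hc j) (mul_left_cancel₀ (sgn_ne_zero hf0) h)
  have hrepr : ∀ v : cyc f, b.repr (B v) i2 = b.repr v i1 - f.coeff (l + 1) * b.repr v i2 := fun v => by
    have : (b.coord i2).comp B = b.coord i1 - f.coeff (l + 1) • b.coord i2 := b.ext fun i => by
      induction i using Fin.lastCases with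
      | last =>
        simp only [LinearMap.coe_comp, Function.comp_apply, ← hi2, hb']
        simp [Finsupp.single_apply, mul_comm, show Fin.last (l + 1) ≠ i1 from hi12.symm, hi2]
      | cast i =>
        simp only [LinearMap.coe_comp, Function.comp_apply, hb]
        have h1 : (i.succ = i2) ↔ (i.castSucc = i1) := by
          simp [hi1, hi2, Fin.ext_iff]
        have h2 : i.castSucc ≠ i2 := by simp [hi2]
        simp [Finsupp.single_apply, h1, h2]
    exact LinearMap.congr_fun this v
  have hr2 : b.repr v2 i2 = r := by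
    have h := hMf.trace hf' (by omega)
    rw [hd', Nat.add_sub_cancel, LinearMap.trace_eq_matrix_trace F b, Matrix.trace] at h
    simp only [Matrix.diag_apply, LinearMap.toMatrix_apply] at h
    rw [Fin.sum_univ_castSucc, Fin.sum_univ_castSucc] at h
    simp only [← hBT, LinearMap.coe_comp, Function.comp_apply, LinearEquiv.coe_coe, hTlow, ← hi1, ← hi2,
      ← hv2, hrepr, hTl] at h
    have h1 : b.repr (B tl) i1 = w - f.coeff l := by
      rw [htl, map_add B, map_add B, map_smul B, map_smul B, hBi0, hBi1, hb']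
      simp [Finsupp.single_apply, hi12.symm]
      simp [hi1, sub_eq_add_neg]
    rw [h1, hw] at h
    rw [hx] at hpr
    linear_combination h + hpr
  have hp1 : b.repr v2 i1 = p := by rw [hp, ← hr2]; linear_combination -hpr
  refine ⟨T, hTlow, ?_, ?_, hBT ▸ hMf⟩
  · have hb0 : b i0 ∈ L := Submodule.subset_span ⟨i0, hi01, rfl⟩
    have hv : v2 = ∑ j : Fin l, b.repr v2 j.castSucc.castSucc • b j.castSucc.castSucc + p • b i1 + r • b i2 := by
      rw [← hp1, ← hr2]
      exact hsum v2
    set y := ∑ j : Fin l, b.repr v2 j.castSucc.castSucc • b j.castSucc.castSucc with hy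
    have hyL : y ∈ L := Submodule.sum_mem _ fun j _ => Submodule.smul_mem _ _
      (Submodule.subset_span ⟨_, hlow j, rfl⟩)
    have e : aeval (T : cyc f →ₗ[F] cyc f) (quad τ δ) (b i1) =
        w • T (b i0) + ((x - τ) * w) • b i0 + y := by
      simp only [quad, map_add, map_sub, map_mul, aeval_X, aeval_C, pow_two, LinearMap.add_apply,
        LinearMap.sub_apply, Module.End.mul_apply, Module.algebraMap_end_apply, LinearEquiv.coe_coe, hTl]
      rw [htl, map_add, map_add, map_smul, map_smul, hTl, ← hv2, hv, htl, hp, hr]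
      module
    rw [e]
    exact add_mem (add_mem (Submodule.smul_mem _ _ (hTL _ hb0)) (Submodule.smul_mem _ _ hb0)) hyL
  · have hb0 : b i0 ∈ L := Submodule.subset_span ⟨i0, hi01, rfl⟩
    refine Submodule.mem_sup.2 ⟨-(w • b i0), neg_mem (Submodule.smul_mem _ _ hb0),
      T (b i1) - x • b i1, ⟨X - C x, ?_⟩, ?_⟩
    · simp [Module.algebraMap_end_apply]
    · rw [hTl, htl]; abel

lemma aeval_mul_apply {V : Type v} [AddCommGroup V] [Module F V] (T : V →ₗ[F] V) (p r : F[X]) (z : V) :
    aeval T (p * r) z = aeval T p (aeval T r z) := by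
  rw [map_mul]; rfl

/-- A Jordan chain. -/
lemma exists_chain {V : Type v} [AddCommGroup V] [Module F V] (T : V →ₗ[F] V) (e : F) {k : ℕ}
    (u : Fin k → V) (h0 : ∀ j : Fin k, (j : ℕ) = 0 → T (u j) = e • u j)
    (h1 : ∀ i j : Fin k, (j : ℕ) = i + 1 → T (u j) = e • u j + u i) :
    ∃ v, aeval T ((X - C e) ^ k) v = 0 ∧ ∀ i, u i ∈ LinearMap.range (orbit T v) := by
  have step : ∀ (z : V), aeval T (X - C e) z = T z - e • z := fun z => by
    simp [Module.algebraMap_end_apply]
  have key : ∀ (n : ℕ) (hn : n < k), aeval T ((X - C e) ^ (n + 1)) (u ⟨n, hn⟩) = 0 ∧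
      ∀ i : Fin k, (i : ℕ) ≤ n → u i ∈ LinearMap.range (orbit T (u ⟨n, hn⟩)) := by
    intro n
    induction n with
    | zero =>
      intro hn
      refine ⟨by rw [pow_one, step, h0 _ rfl, sub_self], fun i hi => ⟨1, ?_⟩⟩
      obtain rfl : i = ⟨0, hn⟩ := Fin.ext (Nat.le_zero.1 hi)
      simp
    | succ n ih =>
      intro hn
      obtain ⟨ha, hb⟩ := ih (by omega)
      have hs : aeval T (X - C e) (u ⟨n + 1, hn⟩) = u ⟨n, by omega⟩ := by
        rw [step, h1 ⟨n, by omega⟩ ⟨n + 1, hn⟩ rfl, add_sub_cancel_left]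
      refine ⟨by rw [pow_succ, aeval_mul_apply, hs, ha], fun i hi => ?_⟩
      rcases eq_or_lt_of_le hi with h | h
      · exact ⟨1, by obtain rfl : i = ⟨n + 1, hn⟩ := Fin.ext h; simp⟩
      · obtain ⟨a, ha'⟩ := hb i (by omega)
        exact ⟨a * (X - C e), by rw [orbit_apply, aeval_mul_apply, hs, ← ha', orbit_apply]⟩
  cases k with
  | zero => exact ⟨0, map_zero _, fun i => i.elim0⟩
  | succ k => exact ⟨u ⟨k, k.lt_succ_self⟩, (key k _).1, fun i => (key k _).2 i (Nat.le_of_lt_succ i.isLt)⟩

lemma coprime_of_irreducible {τ δ : F} (h : Irreducible (quad τ δ)) (e : F) :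
    IsCoprime (X - C e) (quad τ δ) := by
  refine ((Irreducible.coprime_iff_not_dvd h).2 fun hd => ?_).symm
  have := natDegree_le_of_dvd hd (X_sub_C_ne_zero e)
  rw [quad_natDegree, natDegree_X_sub_C] at this
  omega

lemma aeval_comm {V : Type v} [AddCommGroup V] [Module F V] {T : V →ₗ[F] V} {g : F[X]} {v z : V}
    (hg : aeval T g v = 0) (hz : z ∈ LinearMap.range (orbit T v)) : aeval T g z = 0 := by
  obtain ⟨a, rfl⟩ := hz
  rw [orbit_apply, ← aeval_mul_apply, mul_comm, aeval_mul_apply, hg, map_zero]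

lemma top_le_sup {V : Type v} [AddCommGroup V] [Module F V] {T : V →ₗ[F] V} {m : ℕ}
    (b : Basis (Fin (m + 1 + 1)) F V) {L : Submodule F V} {w : V}
    (hw : w - b (Fin.last m).castSucc ∈ L) (hLT : ∀ x ∈ L, T x ∈ L)
    (hlow : ∀ j : Fin m, b j.castSucc.castSucc ∈ L)
    (htop : b (Fin.last (m + 1)) ∈ L ⊔ LinearMap.range (orbit T (b (Fin.last m).castSucc))) :
    ⊤ ≤ L ⊔ LinearMap.range (orbit T w) := by
  set M := L ⊔ LinearMap.range (orbit T w)
  have h1 : b (Fin.last m).castSucc ∈ M := Submodule.mem_sup.2 ⟨_, L.neg_mem hw, w, ⟨1, by simp⟩, by abel⟩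
  have hMT : ∀ x ∈ M, T x ∈ M := by
    intro x hx
    obtain ⟨y, hy, _, ⟨a, rfl⟩, rfl⟩ := Submodule.mem_sup.1 hx
    rw [map_add]
    exact Submodule.add_mem_sup (hLT y hy) ⟨X * a, by rw [orbit_apply, aeval_mul_apply, aeval_X]; rfl⟩
  have h2 : LinearMap.range (orbit T (b (Fin.last m).castSucc)) ≤ M := by
    rintro _ ⟨a, rfl⟩
    rw [orbit_apply]
    induction a using Polynomial.induction_on' with
    | add a c ha hc => rw [map_add]; exact M.add_mem ha hc
    | monomial k c =>
      rw [← C_mul_X_pow_eq_monomial, map_mul, aeval_C, map_pow, aeval_X]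
      refine M.smul_mem c ?_
      induction k with
      | zero => simpa
      | succ k ih => rw [pow_succ']; exact hMT _ ih
  rw [← b.span_eq, Submodule.span_le]
  rintro _ ⟨i, rfl⟩
  induction i using Fin.lastCases with
  | last => exact sup_le le_sup_left h2 htop
  | cast i =>
    induction i using Fin.lastCases with
    | last => exact h1
    | cast i => exact Submodule.mem_sup_left (hlow i)

/-- The leaf with a chain and a quadratic. -/
lemma realForm_chain_quad {f f' : F[X]} (hf : f.Monic) (hf0 : f.coeff 0 ≠ 0) {l : ℕ} (hl : 1 ≤ l)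
    (hd : f.natDegree = l + 1 + 1) {e τ δ : F} (he : e ≠ 0) (hδ : δ ≠ 0) (hQ : Irreducible (quad τ δ))
    (hf' : f'.Monic) (hd' : f'.natDegree = l + 1 + 1) (hs : sgn f' = sgn f * (e ^ l * δ)) :
    RealForm {f} ((X - C e) ^ l ::ₘ {quad τ δ}) {f'} := by
  have : Module.Finite F (cyc f) := hf.finite_quotient
  obtain ⟨b, hb, hb'⟩ := exists_basis hf hd
  let u : Fin l → cyc f := fun j => b j.castSucc.castSucc
  let t : Fin l → cyc f := fun j =>
    e • u j + if h : 0 < (j : ℕ) then u ⟨j - 1, by omega⟩ else 0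
  obtain ⟨T, hT, hquad, htop, hBT⟩ := exists_top hf hf0 hl hd b hb hb' t (fun _ => e) (fun _ => he)
    (fun j => by
      simp only [t, u, add_sub_cancel_left]
      split_ifs with h
      · exact Submodule.subset_span ⟨_, by simp [Fin.lt_def]; omega, rfl⟩
      · exact zero_mem _)
    hf' hd' τ δ hδ (by simpa using hs)
  obtain ⟨v, hv, hvu⟩ := exists_chain (T : cyc f →ₗ[F] cyc f) e u
    (fun j hj => by
      show T (u j) = _
      rw [hT]; simp [t, hj])
    (fun i j hij => by
      show T (u j) = _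
      rw [hT]
      simp only [t, dif_pos (show 0 < (j : ℕ) by omega)]
      congr 2
      exact Fin.ext (by simp; omega))
  set L := Submodule.span F (b '' {i | i < (Fin.last l).castSucc}) with hL
  have hLgen : ∀ i : Fin (l + 1 + 1), i < (Fin.last l).castSucc → ∃ j : Fin l, b i = u j := fun i hi =>
    ⟨⟨i, by simpa [Fin.lt_def] using hi⟩, rfl⟩
  have hLv : L ≤ LinearMap.range (orbit (T : cyc f →ₗ[F] cyc f) v) := Submodule.span_le.2 (by
    rintro _ ⟨i, hi, rfl⟩
    obtain ⟨j, hj⟩ := hLgen i hi
    exact hj ▸ hvu j)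
  have hLT : ∀ x ∈ L, (T : cyc f →ₗ[F] cyc f) x ∈ L := span_stable (by
    rintro _ ⟨i, hi, rfl⟩
    obtain ⟨j, hj⟩ := hLgen i hi
    rw [hj]
    show T (u j) ∈ L
    rw [hT]
    refine add_mem (Submodule.smul_mem _ _ (Submodule.subset_span ⟨_, by simp [Fin.lt_def], rfl⟩)) ?_
    split_ifs with h
    · exact Submodule.subset_span ⟨_, by simp [Fin.lt_def]; omega, rfl⟩
    · exact zero_mem _)
  obtain ⟨w, hw, hwv⟩ := exists_adjust hLT ((coprime_of_irreducible hQ e).pow_left (m := l)) hquad
    (aeval_comm hv (hLv hquad))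
  refine RealForm.of_model (xMap f) (hasForm_single (LinearEquiv.refl F _) fun _ => rfl) T ?_ hBT
  have := hasForm_of_generators (T := (T : cyc f →ₗ[F] cyc f)) ![(X - C e) ^ l, quad τ δ] ![v, w]
    (fun i => by fin_cases i <;> [exact (monic_X_sub_C e).pow l; exact quad_monic τ δ])
    (fun i => by fin_cases i <;> [exact hv; exact hw]) ?_ ?_
  · simp [Fin.univ_val_map] at this
    exact this
  · refine (top_le_sup b hwv hLT (fun j => Submodule.subset_span ⟨_, by simp [Fin.lt_def], rfl⟩)
      htop).trans (sup_le (hLv.trans ?_) ?_)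
    · exact le_iSup_of_le (0 : Fin 2) le_rfl
    · exact le_iSup_of_le (1 : Fin 2) le_rfl
  · rw [finrank_cyc, hd, Fin.sum_univ_two]
    simp [quad_natDegree]

/-- The leaf with a chain, an eigenvector and a quadratic. -/
lemma realForm_chain_linear_quad {f f' : F[X]} (hf : f.Monic) (hf0 : f.coeff 0 ≠ 0) {k : ℕ}
    (hd : f.natDegree = k + 1 + 1 + 1) {e c τ δ : F} (he : e ≠ 0) (hc : c ≠ 0) (hδ : δ ≠ 0)
    (hQ : Irreducible (quad τ δ)) (hf' : f'.Monic) (hd' : f'.natDegree = k + 1 + 1 + 1)
    (hs : sgn f' = sgn f * (e ^ k * c * δ)) :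
    RealForm {f} ((X - C e) ^ k ::ₘ (X - C c) ::ₘ {quad τ δ}) {f'} := by
  have : Module.Finite F (cyc f) := hf.finite_quotient
  obtain ⟨b, hb, hb'⟩ := exists_basis hf hd
  let u : Fin k → cyc f := fun j => b j.castSucc.castSucc.castSucc
  let z : cyc f := b (Fin.last k).castSucc.castSucc
  let t : Fin (k + 1) → cyc f := Fin.snoc
    (fun j => e • u j + if h : 0 < (j : ℕ) then u ⟨j - 1, by omega⟩ else 0) (c • z)
  obtain ⟨T, hT, hquad, htop, hBT⟩ := exists_top hf hf0 (Nat.succ_pos k) hd b hb hb' t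
    (Fin.snoc (fun _ => e) c) (fun j => by induction j using Fin.lastCases <;> simp [he, hc])
    (fun j => by
      induction j using Fin.lastCases with
      | last => simp [t, z]
      | cast j =>
        simp only [t, u, Fin.snoc_castSucc, add_sub_cancel_left]
        split_ifs with h
        · exact Submodule.subset_span ⟨_, by simp [Fin.lt_def]; omega, rfl⟩
        · exact zero_mem _)
    hf' hd' τ δ hδ (by
      rw [hs, Fin.prod_univ_castSucc]
      simp)
  have hTz : T z = c • z := (hT (Fin.last k)).trans (by simp [t])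
  have hTu : ∀ j : Fin k, T (u j) = e • u j + if h : 0 < (j : ℕ) then u ⟨j - 1, by omega⟩ else 0 := fun j =>
    (hT j.castSucc).trans (by simp [t])
  obtain ⟨v, hv, hvu⟩ := exists_chain (T : cyc f →ₗ[F] cyc f) e u
    (fun j hj => by
      show T (u j) = _
      rw [hTu]; simp [hj])
    (fun i j hij => by
      show T (u j) = _
      rw [hTu, dif_pos (show 0 < (j : ℕ) by omega)]
      congr 2
      exact Fin.ext (by simp; omega))
  set L := Submodule.span F (b '' {i | i < (Fin.last (k + 1)).castSucc}) with hL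
  have hLgen : ∀ i : Fin (k + 1 + 1 + 1), i < (Fin.last (k + 1)).castSucc →
      (∃ j : Fin k, b i = u j) ∨ b i = z := fun i hi => by
    have hi' : (i : ℕ) < k + 1 := by simpa [Fin.lt_def] using hi
    rcases Nat.lt_or_ge (i : ℕ) k with h | h
    · exact Or.inl ⟨⟨i, h⟩, rfl⟩
    · exact Or.inr (congrArg b (Fin.ext (by simp; omega)))
  have huL : ∀ j : Fin k, u j ∈ L := fun j => Submodule.subset_span ⟨_, by simp [Fin.lt_def], rfl⟩
  have hzL : z ∈ L := Submodule.subset_span ⟨_, by simp [Fin.lt_def], rfl⟩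
  have hz : aeval (T : cyc f →ₗ[F] cyc f) (X - C c) z = 0 := by
    simp [Module.algebraMap_end_apply, hTz]
  have hLv : L ≤ LinearMap.range (orbit (T : cyc f →ₗ[F] cyc f) v) ⊔
      LinearMap.range (orbit (T : cyc f →ₗ[F] cyc f) z) := Submodule.span_le.2 (by
    rintro _ ⟨i, hi, rfl⟩
    rcases hLgen i hi with ⟨j, hj⟩ | hj
    · exact hj ▸ Submodule.mem_sup_left (hvu j)
    · exact hj ▸ Submodule.mem_sup_right ⟨1, by simp⟩)
  have hLT : ∀ x ∈ L, (T : cyc f →ₗ[F] cyc f) x ∈ L := span_stable (by
    rintro _ ⟨i, hi, rfl⟩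
    rcases hLgen i hi with ⟨j, hj⟩ | hj
    · rw [hj]
      show T (u j) ∈ L
      rw [hTu]
      refine add_mem (Submodule.smul_mem _ _ (huL j)) ?_
      split_ifs with h
      · exact huL _
      · exact zero_mem _
    · rw [hj]
      show T z ∈ L
      rw [hTz]
      exact Submodule.smul_mem _ _ hzL)
  have hg : ∀ y ∈ L, aeval (T : cyc f →ₗ[F] cyc f) ((X - C e) ^ k * (X - C c)) y = 0 := by
    intro y hy
    obtain ⟨y1, h1, y2, h2, rfl⟩ := Submodule.mem_sup.1 (hLv hy)
    rw [map_add, aeval_comm (v := v) ?_ h1, aeval_comm (v := z) ?_ h2, add_zero]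
    · rw [aeval_mul_apply, hz, map_zero]
    · rw [mul_comm, aeval_mul_apply, hv, map_zero]
  obtain ⟨w, hw, hwv⟩ := exists_adjust hLT
    ((coprime_of_irreducible hQ e).pow_left.mul_left (coprime_of_irreducible hQ c)) hquad (hg _ hquad)
  refine RealForm.of_model (xMap f) (hasForm_single (LinearEquiv.refl F _) fun _ => rfl) T ?_ hBT
  have := hasForm_of_generators (T := (T : cyc f →ₗ[F] cyc f)) ![(X - C e) ^ k, X - C c, quad τ δ] ![v, z, w]
    (fun i => by fin_cases i <;> [exact (monic_X_sub_C e).pow k; exact monic_X_sub_C c; exact quad_monic τ δ])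
    (fun i => by fin_cases i <;> [exact hv; exact hz; exact hw]) ?_ ?_
  · simp [Fin.univ_val_map] at this
    exact this
  · refine (top_le_sup b hwv hLT (fun j => Submodule.subset_span ⟨_, (by simp [Fin.lt_def]; omega), rfl⟩)
      htop).trans (sup_le (hLv.trans (sup_le ?_ ?_)) ?_)
    · exact le_iSup_of_le (0 : Fin 3) le_rfl
    · exact le_iSup_of_le (1 : Fin 3) le_rfl
    · exact le_iSup_of_le (2 : Fin 3) le_rfl
  · rw [finrank_cyc, hd, Fin.sum_univ_three]
    simp [quad_natDegree]

/-- The leaf with a chain and one eigenvalue. -/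
lemma realForm_chain_linear {f f' : F[X]} (hf : f.Monic) (hf0 : f.coeff 0 ≠ 0) {l : ℕ}
    (hd : f.natDegree = l + 1) {e c : F} (he : e ≠ 0) (hc : c ≠ 0)
    (hec : IsCoprime ((X - C e) ^ l) (X - C c))
    (hf' : f'.Monic) (hd' : f'.natDegree = l + 1) (hs : sgn f' = sgn f * (e ^ l * c)) :
    RealForm {f} ((X - C e) ^ l ::ₘ {X - C c}) {f'} := by
  classical
  have : Module.Finite F (cyc f) := hf.finite_quotient
  obtain ⟨b, hb, -⟩ := exists_basis hf hd
  set B := xMap f with hB
  let u : Fin l → cyc f := fun j => b j.castSucc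
  let t : Fin l → cyc f := fun j => e • u j + if h : 0 < (j : ℕ) then u ⟨j - 1, by omega⟩ else 0
  have hdetB : LinearMap.det B = sgn f := det_xMap hf
  have hB0 : LinearMap.det B ≠ 0 := hdetB ▸ sgn_ne_zero hf0
  obtain ⟨M, hM, hMf⟩ := exists_companion_ext b (fun j => B (t j)) (fun _ => e) (fun _ => he) (fun j => by
    simp only [t, u, map_add, map_smul, hb, add_sub_cancel_left]
    split_ifs with h
    · rw [hb]
      exact Submodule.subset_span ⟨_, by simp [Fin.le_def]; omega, rfl⟩
    · rw [map_zero]; exact zero_mem _) hf' hd'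
  have hdetM : LinearMap.det M = sgn f' := by
    rw [hMf.det (by simpa using hf')]
    simp
  have hTM : LinearMap.det ((LinearMap.equivOfDetNeZero B hB0).symm.toLinearMap ∘ₗ M) ≠ 0 := by
    rw [LinearMap.det_comp, hdetM, hs]
    exact mul_ne_zero (LinearEquiv.isUnit_det' _).ne_zero
      (mul_ne_zero (sgn_ne_zero hf0) (mul_ne_zero (pow_ne_zero _ he) hc))
  set T := LinearMap.equivOfDetNeZero _ hTM with hT'
  have hBT : B ∘ₗ (T : cyc f →ₗ[F] cyc f) = M := LinearMap.ext fun v => by
    show (LinearMap.equivOfDetNeZero B hB0) ((LinearMap.equivOfDetNeZero B hB0).symm (M v)) = M v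
    rw [LinearEquiv.apply_symm_apply]
  have hT : ∀ j, T (u j) = t j := fun j => (LinearMap.equivOfDetNeZero B hB0).injective (by
    show B (T (b j.castSucc)) = B (t j)
    rw [← hM j, ← hBT]; rfl)
  obtain ⟨v, hv, hvu⟩ := exists_chain (T : cyc f →ₗ[F] cyc f) e u
    (fun j hj => by
      show T (u j) = _
      rw [hT]; simp [t, hj])
    (fun i j hij => by
      show T (u j) = _
      rw [hT]
      simp only [t, dif_pos (show 0 < (j : ℕ) by omega)]
      congr 2
      exact Fin.ext (by simp; omega))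
  set L := Submodule.span F (Set.range u) with hL
  have hLv : L ≤ LinearMap.range (orbit (T : cyc f →ₗ[F] cyc f) v) :=
    Submodule.span_le.2 (by rintro _ ⟨j, rfl⟩; exact hvu j)
  have hLT : ∀ x ∈ L, (T : cyc f →ₗ[F] cyc f) x ∈ L := span_stable (by
    rintro _ ⟨j, rfl⟩
    show T (u j) ∈ L
    rw [hT]
    refine add_mem (Submodule.smul_mem _ _ (Submodule.subset_span ⟨j, rfl⟩)) ?_
    split_ifs with h
    · exact Submodule.subset_span ⟨_, rfl⟩
    · exact zero_mem _)
  have hrepr : ∀ y ∈ L, ∀ i : Fin (l + 1), i = Fin.last l → b.repr y i = 0 := fun y hy i hi => by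
    have hy' : y ∈ Submodule.span F (b '' {i | i < Fin.last l}) := by
      refine Submodule.span_mono ?_ hy
      rintro _ ⟨j, rfl⟩
      exact ⟨_, Fin.castSucc_lt_last j, rfl⟩
    by_contra h0
    exact (ne_of_lt (show i < Fin.last l from b.mem_span_image.1 hy' (Finsupp.mem_support_iff.2 h0))) hi
  set i2 := Fin.last l with hi2
  have hdetT : LinearMap.det (T : cyc f →ₗ[F] cyc f) = e ^ l * b.repr (T (b i2)) i2 := by
    rw [← LinearMap.det_toMatrix b, Matrix.det_of_isUpperTriangular, Fin.prod_univ_castSucc]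
    · congr 1
      · rw [Finset.prod_eq_pow_card (b := e) fun j _ => ?_, Finset.card_univ, Fintype.card_fin]
        rw [LinearMap.toMatrix_apply]
        show b.repr (T (u j)) j.castSucc = e
        rw [hT]
        simp only [t, u, map_add, map_smul, Basis.repr_self, Finsupp.add_apply, Finsupp.smul_apply,
          Finsupp.single_eq_same, smul_eq_mul, mul_one, add_eq_left]
        split_ifs with h
        · rw [Basis.repr_self]
          exact Finsupp.single_eq_of_ne (Fin.ne_of_val_ne (by simp; omega))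
        · simp
      · rw [LinearMap.toMatrix_apply]; rfl
    · intro i j hij
      rw [LinearMap.toMatrix_apply]
      have hij' : j < i := hij
      induction j using Fin.lastCases with
      | last => exact absurd hij' (not_lt.2 (Fin.le_last i))
      | cast j =>
        show b.repr (T (u j)) i = 0
        rw [hT]
        simp only [t, u, map_add, map_smul, Basis.repr_self, Finsupp.add_apply, Finsupp.smul_apply]
        rw [Finsupp.single_eq_of_ne hij'.ne', smul_zero, zero_add]
        split_ifs with h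
        · rw [Basis.repr_self]
          refine Finsupp.single_eq_of_ne (Fin.ne_of_val_ne ?_)
          have : (j : ℕ) < i := hij'
          simp
          omega
        · simp
  have hc2 : b.repr (T (b i2)) i2 = c := by
    have h := congrArg LinearMap.det hBT
    rw [LinearMap.det_comp, hdetB, hdetT, hdetM, hs] at h
    exact mul_left_cancel₀ (pow_ne_zero _ he) (mul_left_cancel₀ (sgn_ne_zero hf0) h)
  have hlast : aeval (T : cyc f →ₗ[F] cyc f) (X - C c) (b i2) ∈ L := by
    have e1 : aeval (T : cyc f →ₗ[F] cyc f) (X - C c) (b i2) = T (b i2) - c • b i2 := by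
      simp [Module.algebraMap_end_apply]
    rw [e1, ← b.sum_repr (T (b i2)), Fin.sum_univ_castSucc, ← hi2, hc2, add_sub_cancel_right]
    exact Submodule.sum_mem _ fun j _ => Submodule.smul_mem _ _ (Submodule.subset_span ⟨j, rfl⟩)
  obtain ⟨w, hw, hwv⟩ := exists_adjust hLT hec hlast (aeval_comm hv (hLv hlast))
  refine RealForm.of_model B (hasForm_single (LinearEquiv.refl F _) fun _ => rfl) T ?_ (hBT ▸ hMf)
  have := hasForm_of_generators (T := (T : cyc f →ₗ[F] cyc f)) ![(X - C e) ^ l, X - C c] ![v, w]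
    (fun i => by fin_cases i <;> [exact (monic_X_sub_C e).pow l; exact monic_X_sub_C c])
    (fun i => by fin_cases i <;> [exact hv; exact hw]) ?_ ?_
  · simp [Fin.univ_val_map] at this
    exact this
  · rw [← b.span_eq, Submodule.span_le]
    rintro _ ⟨i, rfl⟩
    induction i using Fin.lastCases with
    | cast j =>
      exact le_iSup (fun i => LinearMap.range (orbit (T : cyc f →ₗ[F] cyc f) (![v, w] i))) 0 (hvu j)
    | last =>
      rw [← hi2, show b i2 = w - (w - b i2) by abel]
      exact sub_mem (le_iSup (fun i => LinearMap.range (orbit (T : cyc f →ₗ[F] cyc f) (![v, w] i))) 1 ⟨1, by simp⟩)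
        (le_iSup (fun i => LinearMap.range (orbit (T : cyc f →ₗ[F] cyc f) (![v, w] i))) 0 (hLv hwv))
  · rw [finrank_cyc, hd, Fin.sum_univ_two]
    simp

end CfsgLib.SLCommutator
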