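import Cfsg.Agent.SLCommutator.Forms

/-!
Pairs of forms realised by `T` and `B * T`, and commutators.
-/

set_option autoImplicit false

namespace CfsgLib.SLCommutator

open Polynomial Module CfsgLib.SLClassCount

universe u

variable {F : Type u} [Field F]

/-- Every map `B` with form `s` has `T` of form `P` with `B * T` of form `P'`. -/
def RealForm (s P P' : Multiset F[X]) : Prop :=
  ∀ (V : Type u) [AddCommGroup V] [Module F V] (B : V →ₗ[F] V), HasForm B s →
    ∃ T : V ≃ₗ[F] V, HasForm (T : V →ₗ[F] V) P ∧ HasForm (B ∘ₗ (T : V →ₗ[F] V)) P'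

/-- Monic polynomials with nonzero constant term. -/
def Good (s : Multiset F[X]) : Prop := ∀ p ∈ s, p.Monic ∧ p.coeff 0 ≠ 0

lemma Good.monic {s : Multiset F[X]} (h : Good s) : ∀ p ∈ s, p.Monic := fun p hp => (h p hp).1

lemma Good.add {s t : Multiset F[X]} (hs : Good s) (ht : Good t) : Good (s + t) := fun p hp =>
  (Multiset.mem_add.1 hp).elim (hs p) (ht p)

lemma Good.of_le {s t : Multiset F[X]} (ht : Good t) (h : s ≤ t) : Good s := fun p hp =>
  ht p (Multiset.mem_of_le h hp)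

lemma sgn_ne_zero {p : F[X]} (h : p.coeff 0 ≠ 0) : sgn p ≠ 0 :=
  mul_ne_zero (pow_ne_zero _ (neg_ne_zero.2 one_ne_zero)) h

lemma sgn_mul {p r : F[X]} (hp : p.Monic) (hr : r.Monic) : sgn (p * r) = sgn p * sgn r := by
  have := sgnConst_prod (Finset.univ : Finset Bool) (fun b => cond b p r) (fun b _ => by cases b <;> assumption)
  simpa using this

lemma sgn_X_sub_C (c : F) : sgn (X - C c) = c := by
  simp [sgn, sgnConst]

lemma sgn_one : sgn (1 : F[X]) = 1 := by simp [sgn, sgnConst]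

lemma sgn_pow_X_sub_C (c : F) (k : ℕ) : sgn ((X - C c) ^ k) = c ^ k := by
  rw [sgn, sgnConst_pow (monic_X_sub_C c) k]
  exact congrArg (· ^ k) (sgn_X_sub_C c)

lemma sgnProd_pos {s : Multiset F[X]} (hs : Good s) : (s.map sgn).prod ≠ 0 :=
  Multiset.prod_ne_zero fun h => by
    obtain ⟨p, hp, h0⟩ := Multiset.mem_map.1 h
    exact sgn_ne_zero (hs p hp).2 h0

/-- A single model is enough. -/
lemma RealForm.of_model {s P P' : Multiset F[X]} {W : Type u} [AddCommGroup W] [Module F W]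
    (B₀ : W →ₗ[F] W) (hB : HasForm B₀ s) (T₀ : W ≃ₗ[F] W) (h1 : HasForm (T₀ : W →ₗ[F] W) P)
    (h2 : HasForm (B₀ ∘ₗ (T₀ : W →ₗ[F] W)) P') : RealForm s P P' := by
  intro V _ _ B hV
  obtain ⟨e, he⟩ := hV.similar hB
  refine ⟨(e.trans T₀).trans e.symm, h1.congr e fun x => by simp, h2.congr e fun x => ?_⟩
  simp [he]

lemma RealForm.add {s s' P Q P' Q' : Multiset F[X]} (h : RealForm s P Q) (h' : RealForm s' P' Q') :
    RealForm (s + s') (P + P') (Q + Q') := by
  obtain ⟨k, p, hp⟩ := exists_model s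
  obtain ⟨k', p', hp'⟩ := exists_model s'
  obtain ⟨T, hT, hBT⟩ := h _ (xCyc p) (hp ▸ hasForm_xCyc p)
  obtain ⟨T', hT', hBT'⟩ := h' _ (xCyc p') (hp' ▸ hasForm_xCyc p')
  refine RealForm.of_model ((xCyc p).prodMap (xCyc p')) ((hp ▸ hasForm_xCyc p).prod (hp' ▸ hasForm_xCyc p'))
    (T.prodCongr T') (hT.prod hT') ?_
  exact hBT.prod hBT'

/-- Splitting a coprime product. -/
lemma RealForm.split {g h : F[X]} (hgh : IsCoprime g h) {s P P' : Multiset F[X]}
    (H : RealForm ((g * h) ::ₘ s) P P') : RealForm (g ::ₘ h ::ₘ s) P P' :=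
  fun V _ _ B hB => H V B ((hasForm_mul_iff hgh s).2 hB)

lemma RealForm.split_left {g h : F[X]} (hgh : IsCoprime g h) {s P P' : Multiset F[X]}
    (H : RealForm s ((g * h) ::ₘ P) P') : RealForm s (g ::ₘ h ::ₘ P) P' := fun V _ _ B hB => by
  obtain ⟨T, h1, h2⟩ := H V B hB
  exact ⟨T, (hasForm_mul_iff hgh P).1 h1, h2⟩

lemma RealForm.split_right {g h : F[X]} (hgh : IsCoprime g h) {s P P' : Multiset F[X]}
    (H : RealForm s P ((g * h) ::ₘ P')) : RealForm s P (g ::ₘ h ::ₘ P') := fun V _ _ B hB => by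
  obtain ⟨T, h1, h2⟩ := H V B hB
  exact ⟨T, h1, (hasForm_mul_iff hgh P').1 h2⟩

/-- Every map with form `s` is a commutator of maps of determinant one. -/
def CommForm (s : Multiset F[X]) : Prop :=
  ∀ (V : Type u) [AddCommGroup V] [Module F V] (B : V →ₗ[F] V), HasForm B s →
    ∃ T U : V ≃ₗ[F] V, LinearMap.det (T : V →ₗ[F] V) = 1 ∧ LinearMap.det (U : V →ₗ[F] V) = 1 ∧
      ∀ x, B (U (T x)) = T (U x)

lemma CommForm.of_model {s : Multiset F[X]} {W : Type u} [AddCommGroup W] [Module F W]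
    (B₀ : W →ₗ[F] W) (hB : HasForm B₀ s) (T U : W ≃ₗ[F] W) (hT : LinearMap.det (T : W →ₗ[F] W) = 1)
    (hU : LinearMap.det (U : W →ₗ[F] W) = 1) (h : ∀ x, B₀ (U (T x)) = T (U x)) : CommForm s := by
  intro V _ _ B hV
  obtain ⟨e, he⟩ := hV.similar hB
  refine ⟨(e.trans T).trans e.symm, (e.trans U).trans e.symm, ?_, ?_, fun x => e.injective ?_⟩
  · exact (LinearMap.det_conj (T : W →ₗ[F] W) e.symm).trans hT
  · exact (LinearMap.det_conj (U : W →ₗ[F] W) e.symm).trans hU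
  · simp [he, h]

lemma CommForm.zero : CommForm (0 : Multiset F[X]) := by
  refine CommForm.of_model (xCyc fun i : Fin 0 => (i.elim0 : F[X])) ?_ (LinearEquiv.refl F _)
    (LinearEquiv.refl F _) ?_ ?_ fun x => funext fun i => i.elim0
  · exact hasForm_xCyc fun i : Fin 0 => (i.elim0 : F[X])
  · exact LinearMap.det_id
  · exact LinearMap.det_id

lemma CommForm.add {s t : Multiset F[X]} (hs : Good s) (ht : Good t) (h : CommForm s) (h' : CommForm t) :
    CommForm (s + t) := by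
  obtain ⟨k, p, hp⟩ := exists_model s
  obtain ⟨k', p', hp'⟩ := exists_model t
  have hm : ∀ i, (p i).Monic := fun i => hs.monic _ (hp ▸ Multiset.mem_map_of_mem p (Finset.mem_univ i))
  have hm' : ∀ i, (p' i).Monic := fun i => ht.monic _ (hp' ▸ Multiset.mem_map_of_mem p' (Finset.mem_univ i))
  have : ∀ i, Module.Finite F (cyc (p i)) := fun i => (hm i).finite_quotient
  have : ∀ i, Module.Finite F (cyc (p' i)) := fun i => (hm' i).finite_quotient
  obtain ⟨T, U, hT, hU, hc⟩ := h _ (xCyc p) (hp ▸ hasForm_xCyc p)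
  obtain ⟨T', U', hT', hU', hc'⟩ := h' _ (xCyc p') (hp' ▸ hasForm_xCyc p')
  refine CommForm.of_model ((xCyc p).prodMap (xCyc p')) ((hp ▸ hasForm_xCyc p).prod (hp' ▸ hasForm_xCyc p'))
    (T.prodCongr T') (U.prodCongr U') ?_ ?_ fun x => Prod.ext (hc x.1) (hc' x.2)
  · show LinearMap.det ((T : CycPi p →ₗ[F] CycPi p).prodMap (T' : CycPi p' →ₗ[F] CycPi p')) = 1
    rw [LinearMap.det_prodMap, hT, hT', one_mul]
  · show LinearMap.det ((U : CycPi p →ₗ[F] CycPi p).prodMap (U' : CycPi p' →ₗ[F] CycPi p')) = 1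
    rw [LinearMap.det_prodMap, hU, hU', one_mul]

lemma CommForm.split {g h : F[X]} (hgh : IsCoprime g h) {s : Multiset F[X]}
    (H : CommForm ((g * h) ::ₘ s)) : CommForm (g ::ₘ h ::ₘ s) :=
  fun V _ _ B hB => H V B ((hasForm_mul_iff hgh s).2 hB)

/-- The main criterion. -/
lemma RealForm.comm [Finite F] {s P : Multiset F[X]} (h : RealForm s P P) (hP : Good P)
    (hdet : (P.map sgn).prod = 1) {r : F[X]} (hr : r ∈ P) (hirr : Irreducible r) : CommForm s := by
  intro V _ _ B hB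
  obtain ⟨T, hT, hBT⟩ := h V B hB
  obtain ⟨g, hg⟩ := hT.similar hBT
  have hd : LinearMap.det (g : V →ₗ[F] V) ≠ 0 := (LinearEquiv.isUnit_det' g).ne_zero
  obtain ⟨w, hw, hwT⟩ := hT.exists_commute_det hP.monic hr hirr (inv_ne_zero hd)
  refine ⟨w.trans g, T, ?_, (hT.det hP.monic).trans hdet, fun x => ?_⟩
  · rw [show ((w.trans g : V ≃ₗ[F] V) : V →ₗ[F] V) = (g : V →ₗ[F] V) ∘ₗ (w : V →ₗ[F] V) from rfl,
      LinearMap.det_comp, hw, mul_inv_cancel₀ hd]
  · show B (T (g (w x))) = g (w (T x))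
    exact (hg (w x)).symm.trans (congrArg g (hwT x).symm)

end CfsgLib.SLCommutator
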