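import Cfsg.Agent.SLCommutator.Chains
import Cfsg.Agent.SLCommutator.Matrices

/-!
Tools for fields with two or three elements.
-/

set_option autoImplicit false

namespace CfsgLib.SLCommutator

open Polynomial Module CfsgLib.SLClassCount

universe u v

variable {F : Type u} [Field F]

lemma aeval_quad {V : Type v} [AddCommGroup V] [Module F V] (T : V →ₗ[F] V) (τ δ : F) (z : V) :
    aeval T (quad τ δ) z = T (T z) - τ • T z + δ • z := by
  simp [quad, pow_two, Module.algebraMap_end_apply, Module.End.mul_apply]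

lemma quad_square (e : F) : quad (2 * e) (e ^ 2) = (X - C e) ^ 2 := by
  simp only [quad, map_mul, map_pow, map_ofNat]; ring

lemma quad_split (a b : F) : quad (a + b) (a * b) = (X - C a) * (X - C b) := by
  simp only [quad, map_mul, map_add]; ring

lemma good_of_eq {p r : F[X]} (h : p = r) (hp : p.Monic ∧ p.coeff 0 ≠ 0) : r.Monic ∧ r.coeff 0 ≠ 0 := h ▸ hp

/-- A map of the plane which is not scalar has a cyclic vector. -/
lemma hasForm_plane {V : Type v} [AddCommGroup V] [Module F V] (b : Basis (Fin 2) F V) (T : V →ₗ[F] V)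
    {x p y r : F} (h0 : T (b 0) = x • b 0 + y • b 1) (h1 : T (b 1) = p • b 0 + r • b 1)
    (hne : y ≠ 0 ∨ p ≠ 0) : HasForm T {quad (x + r) (x * r - y * p)} := by
  have : Module.Finite F V := Module.Finite.of_basis b
  have hdim : finrank F V = (quad (x + r) (x * r - y * p)).natDegree := by
    rw [finrank_eq_card_basis b, Fintype.card_fin, quad_natDegree]
  have k0 : aeval T (quad (x + r) (x * r - y * p)) (b 0) = 0 := by
    rw [aeval_quad, h0, map_add, map_smul, map_smul, h0, h1]; module
  have k1 : aeval T (quad (x + r) (x * r - y * p)) (b 1) = 0 := by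
    rw [aeval_quad, h1, map_add, map_smul, map_smul, h0, h1]; module
  have main : ∀ i j : Fin 2, ∀ a : F, a ≠ 0 → (∀ k, k = i ∨ k = j) → T (b i) - a • b j ∈ (Submodule.span F {b i}) →
      aeval T (quad (x + r) (x * r - y * p)) (b i) = 0 → HasForm T {quad (x + r) (x * r - y * p)} := by
    intro i j a ha hij hT hk
    refine hasForm_of_cyclic (quad_monic _ _) hdim hk ?_
    rw [← LinearMap.range_eq_top, eq_top_iff, ← b.span_eq, Submodule.span_le]
    obtain ⟨c, hc⟩ := Submodule.mem_span_singleton.1 hT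
    rintro _ ⟨k, rfl⟩
    rcases hij k with rfl | rfl
    · exact ⟨1, by simp⟩
    · refine ⟨C a⁻¹ * (X - C c), ?_⟩
      rw [orbit_apply, aeval_mul_apply, aeval_C, Module.algebraMap_end_apply, map_sub, aeval_X, aeval_C,
        LinearMap.sub_apply, Module.algebraMap_end_apply, hc, sub_sub_self, inv_smul_smul₀ ha]
  rcases hne with hy | hp
  · refine main 0 1 y hy (fun k => by fin_cases k <;> simp) ?_ k0
    rw [h0, add_sub_cancel_right]
    exact Submodule.smul_mem _ _ (Submodule.mem_span_singleton_self _)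
  · refine main 1 0 p hp (fun k => by fin_cases k <;> simp) ?_ k1
    rw [h1, add_sub_cancel_left]
    exact Submodule.smul_mem _ _ (Submodule.mem_span_singleton_self _)

/-- The general leaf of degree two. -/
lemma realForm_two {f : F[X]} (hf : f.Monic) (hf0 : f.coeff 0 ≠ 0) (hd : f.natDegree = 2) (x p y r : F)
    (hne : y ≠ 0 ∨ p ≠ 0) (hne' : x - y * f.coeff 1 ≠ 0 ∨ r ≠ 0) (hdet : x * r - y * p ≠ 0) :
    RealForm {f} {quad (x + r) (x * r - y * p)}
      {quad (-(y * f.coeff 0) + (p - r * f.coeff 1)) (f.coeff 0 * (x * r - y * p))} := by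
  have : Module.Finite F (cyc f) := hf.finite_quotient
  obtain ⟨b, hb, hb'⟩ := exists_basis hf (n := 1) hd
  let T0 : cyc f →ₗ[F] cyc f := b.constr F ![x • b 0 + y • b 1, p • b 0 + r • b 1]
  have h0 : T0 (b 0) = x • b 0 + y • b 1 := by simp [T0]
  have h1 : T0 (b 1) = p • b 0 + r • b 1 := by simp [T0]
  have hT := hasForm_plane b T0 h0 h1 hne
  have hT0 : LinearMap.det T0 ≠ 0 := by
    rw [hT.det (by simpa using quad_monic (x + r) (x * r - y * p))]
    simpa [sgn_quad] using hdet
  have hB0 : xMap f (b 0) = b 1 := hb 0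
  have hB1 : xMap f (b 1) = -(f.coeff 0 • b 0 + f.coeff 1 • b 1) := by
    rw [show (1 : Fin 2) = Fin.last 1 from rfl, hb', Fin.sum_univ_two]; rfl
  have hM := hasForm_plane b (xMap f ∘ₗ T0) (x := -(y * f.coeff 0)) (y := x - y * f.coeff 1)
    (p := -(r * f.coeff 0)) (r := p - r * f.coeff 1)
    (by rw [LinearMap.comp_apply, h0, map_add, map_smul, map_smul, hB0, hB1]; module)
    (by rw [LinearMap.comp_apply, h1, map_add, map_smul, map_smul, hB0, hB1]; module)
    (hne'.imp id fun h => neg_ne_zero.2 (mul_ne_zero h hf0))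
  refine RealForm.of_model (xMap f) (hasForm_single (LinearEquiv.refl F _) fun _ => rfl)
    (LinearMap.equivOfDetNeZero T0 hT0) hT ?_
  have e : -(y * f.coeff 0) * (p - r * f.coeff 1) - (x - y * f.coeff 1) * -(r * f.coeff 0) =
      f.coeff 0 * (x * r - y * p) := by ring
  rw [e] at hM
  exact hM

/-- Over two elements determinants are trivial. -/
lemma comm_of_real_two [Fintype F] (h2 : Fintype.card F = 2) {s P : Multiset F[X]} (h : RealForm s P P) :
    CommForm s := by
  intro V _ _ B hB
  obtain ⟨T, hT, hBT⟩ := h V B hB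
  obtain ⟨g, hg⟩ := hT.similar hBT
  have one : ∀ a : F, a ≠ 0 → a = 1 := fun a ha => by
    have := FiniteField.pow_card_sub_one_eq_one a ha
    rwa [h2, pow_one] at this
  exact ⟨g, T, one _ (LinearEquiv.isUnit_det' g).ne_zero, one _ (LinearEquiv.isUnit_det' T).ne_zero,
    fun x => (hg x).symm⟩

end CfsgLib.SLCommutator
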